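import Mathlib
import Cfsg.Agent.Lib.Helper25.LinExt
import Cfsg.Agent.Lib.Helper25.Monomial
import Cfsg.Agent.Lib.Helper25.ItoMichler
import Cfsg.Agent.Lib.Helper25.DetExt
import Cfsg.Agent.Lib.Helper25.FS5
import Cfsg.Agent.Lib.Helper4.Transport1
import Cfsg.Agent.Lib.Helper5.PSolv
import Cfsg.Agent.S4713

set_option autoImplicit false

namespace Cfsg.Agent.Lib.Helper10.DLBound

open Cfsg
open Cfsg.Agent.Lib Cfsg.Agent.Lib.Helper25

universe u

/-- Extending a linear character by a power of a determinant. -/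
theorem exists_extension_of_det {T N : Type u} [Group T] [Finite T] [Group N] [Finite N]
    (f : N →* T) (l : N →* ℂˣ) {ψ : T → ℂ} (hψ : IsCharacter T ψ) (d : ℕ)
    (hres : ∀ n, ψ (f n) = (d : ℂ) * (l n : ℂ)) (o : ℕ) (ho : ∀ n, l n ^ o = 1)
    (hcop : Nat.Coprime d o) : ∃ F : T →* ℂˣ, ∀ n, F (f n) = l n := by
  obtain ⟨δ, hδ⟩ := exists_hom_detChar hψ
  have h1 := detChar_comp f hψ
  have h2 : ψ ∘ f = fun n => (d : ℂ) * (l n : ℂ) := funext hres
  rw [h2, detChar_nat_mul_linear] at h1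
  have hδN : ∀ n, δ (f n) = l n ^ d := by
    intro n
    have h7 := congrFun h1 n
    simp only [Function.comp_apply, hδ] at h7
    apply Units.ext
    rw [← h7]
    simp
  by_cases ho1 : o ≤ 1
  · interval_cases o
    · have hd1 : d = 1 := by simpa using hcop
      exact ⟨δ, fun n => by rw [hδN, hd1, pow_one]⟩
    · exact ⟨1, fun n => by simpa using (ho n).symm⟩
  · obtain ⟨e, -, he⟩ := Nat.exists_mul_mod_eq_one_of_coprime hcop (by omega)
    refine ⟨δ ^ e, fun n => ?_⟩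
    rw [MonoidHom.pow_apply, hδN, ← pow_mul]
    have h3 : d * e = o * (d * e / o) + 1 := by
      have := Nat.div_add_mod (d * e) o
      omega
    rw [h3, pow_add, pow_mul, ho, one_pow, one_mul, pow_one]

/-- If every irreducible character of the `p`-solvable group `G` not containing the abelian normal
`p`-subgroup `N ≠ 1` in its kernel has `p'`-degree, then `p`-elements commute modulo `N`. -/
theorem commutator_mem_of_relative {G : Type u} [Group G] [Finite G] (p : ℕ) [hp : Fact p.Prime]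
    (hsolv : IsPSolvable p G) (N : Subgroup G) [hN : N.Normal] (hNp : IsPGroup p N)
    (hNc : ∀ a b : N, a * b = b * a) (hN1 : N ≠ ⊥)
    (hyp : ∀ χ : IrrCharacter G, p ∣ charDegree (χ : G → ℂ) →
      ∀ n ∈ N, (χ : G → ℂ) n = (χ : G → ℂ) 1)
    (P : Sylow p G) : ∀ x ∈ P, ∀ y ∈ P, x * y * x⁻¹ * y⁻¹ ∈ N := by
  classical
  have : Fintype G := Fintype.ofFinite _
  have : Fintype N := Fintype.ofFinite _
  -- a nontrivial linear character of `N`
  obtain ⟨l, n0, hl⟩ : ∃ (l : N →* ℂˣ) (n0 : N), l n0 ≠ 1 := by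
    letI : CommGroup N := { (inferInstance : Group N) with mul_comm := hNc }
    obtain ⟨n0, hn0⟩ : ∃ n0 : N, n0 ≠ 1 := by
      haveI : Nontrivial N := (Subgroup.nontrivial_iff_ne_bot N).2 hN1
      exact exists_ne 1
    obtain ⟨φ, hφ⟩ := CommGroup.exists_apply_ne_one_of_hasEnoughRootsOfUnity N ℂ hn0
    exact ⟨φ, n0, hφ⟩
  obtain ⟨a, ha⟩ := IsPGroup.iff_card.mp hNp
  have hlo : ∀ n : N, l n ^ p ^ a = 1 := by
    intro n
    rw [← map_pow, ← ha, pow_card_eq_one', map_one]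
  set φ : N → ℂ := fun n => (l n : ℂ) with hφdef
  have hφ : IsIrrCharacter N φ := Helper7.isIrrCharacter_of_hom l
  set T : Subgroup G := inertia N φ with hTdef
  have hT : ∀ g : G, g ∈ T ↔ ∀ h : N, φ ⟨g * h * g⁻¹, hN.conj_mem h h.2 g⟩ = φ h :=
    mem_inertia N φ
  have hNT : N ≤ T :=
    le_inertia N (Helper7.isClassFunction_of_isCharacter (Helper7.isCharacter_of_irr hφ))
  have : Fintype T := Fintype.ofFinite _
  -- characters of `T` over `φ` have `p'`-degree, and the index of `T` is prime to `p`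
  have key : ∀ ψ : T → ℂ, IsIrrCharacter T ψ →
      classInner (fun n : N => ψ ⟨n, hNT n.2⟩) φ ≠ 0 → ∀ d : ℕ, ψ 1 = d → ¬ p ∣ T.index * d := by
    intro ψ hψ hψφ d hd hdvd
    have hχ : IsIrrCharacter G (indFun T ψ) := isIrrCharacter_indFun_of_inertia N T hφ hT hNT hψ hψφ
    have hcf := Helper7.isClassFunction_of_isCharacter (Helper7.isCharacter_of_irr hχ)
    have c1 : classInner (fun t : T => indFun T ψ t) ψ ≠ 0 := by
      have h1 : classInner (indFun T ψ) (indFun T ψ) = 1 := Helper7.classInner_irr_self hχ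
      rw [frobenius_reciprocity T ψ _ hcf] at h1
      rw [← classInner_conj_symm, h1]
      simp
    have e1 := (clifford_corr_core N T hφ hT hNT hψ hψφ hχ c1).2
    have hdeg : charDegree (indFun T ψ) = T.index * d := by
      apply charDegree_eq
      rw [indFun_one, hd]
      push_cast
      ring
    have h2 := hyp ⟨_, hχ⟩ (by rw [hdeg]; exact hdvd)
    apply hψφ
    rw [e1]
    have h3 : (fun n : N => indFun T ψ n) = fun _ => indFun T ψ 1 := funext (fun n => h2 n n.2)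
    rw [h3]
    have h4 : (fun _ : N => indFun T ψ 1) = (indFun T ψ 1) • (fun _ : N => (1 : ℂ)) := by
      funext n; simp
    rw [h4, Helper7.classInner_smul_left, Helper7.classInner_irr_ne Helper7.isIrrCharacter_one hφ,
      mul_zero]
    intro h5
    apply hl
    apply Units.ext
    have := congrFun h5 n0
    rw [Units.val_one]
    exact this.symm
  -- a character of `T` over `φ`
  obtain ⟨χ, hχ, hχφ⟩ := exists_irr_over N hφ
  obtain ⟨ψ, hψ, -, hψφ'⟩ := clifford_corr_exists N T hφ hT hNT hχ hχφ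
  have hψφ : classInner (fun n : N => ψ ⟨n, hNT n.2⟩) φ ≠ 0 := by rw [hψφ']; exact hχφ
  obtain ⟨d, hd0, hd⟩ := Helper7.irr_apply_one hψ
  have hpd := key ψ hψ hψφ d hd
  have hpT : ¬ p ∣ T.index := fun h => hpd (Dvd.dvd.mul_right h d)
  have hpd' : ¬ p ∣ d := fun h => hpd (Dvd.dvd.mul_left h _)
  have hres : ∀ n : N, ψ (Subgroup.inclusion hNT n) = (d : ℂ) * (l n : ℂ) := by
    intro n
    have h1 := restrict_eq_mul_of_le_inertia N T hφ (fun g hg => (hT g).1 hg) hNT hψ hψφ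
    have h2 := h1 1
    have h3 : φ 1 = 1 := by simp [hφdef]
    have h4 : ψ ⟨((1 : N) : G), hNT (1 : N).2⟩ = ψ 1 := rfl
    rw [h3, mul_one, h4, hd] at h2
    have h5 := h1 n
    rw [← h2] at h5
    exact h5
  obtain ⟨F, hF⟩ := exists_extension_of_det (Subgroup.inclusion hNT) l
    (Helper7.isCharacter_of_irr hψ) d hres (p ^ a) hlo
    (Nat.Coprime.pow_right a ((Nat.Prime.coprime_iff_not_dvd hp.out).2 hpd').symm)
  -- all characters of `T / N` have `p'`-degree
  haveI hN' : (N.subgroupOf T).Normal := inferInstance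
  have hquot : ∀ β : IrrCharacter (T ⧸ N.subgroupOf T), ¬ p ∣ charDegree (β : T ⧸ N.subgroupOf T → ℂ) := by
    intro β hβ
    obtain ⟨b, hb0, hb⟩ := Helper7.irr_apply_one β.2
    rw [charDegree_eq hb] at hβ
    have hinf : IsIrrCharacter T (fun t => (β : T ⧸ N.subgroupOf T → ℂ) (QuotientGroup.mk' _ t)) :=
      isIrrCharacter_comp_surjective _ (QuotientGroup.mk'_surjective _) β.2
    have hirr := isIrrCharacter_linear_mul F hinf
    have hval : (fun n : N => (fun t : T => (F t : ℂ) *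
        (β : T ⧸ N.subgroupOf T → ℂ) (QuotientGroup.mk' _ t)) ⟨n, hNT n.2⟩) = (b : ℂ) • φ := by
      funext n
      have h1 : QuotientGroup.mk' (N.subgroupOf T) ⟨n, hNT n.2⟩ = 1 :=
        (QuotientGroup.eq_one_iff _).2 (Subgroup.mem_subgroupOf.2 n.2)
      have h2 : F ⟨n, hNT n.2⟩ = l n := hF n
      show ((F ⟨n, hNT n.2⟩ : ℂˣ) : ℂ) * (β : T ⧸ N.subgroupOf T → ℂ) (QuotientGroup.mk' _ _) = _
      rw [h1, h2, hb]
      simp [hφdef, mul_comm]
    refine key _ hirr ?_ b ?_ (Dvd.dvd.mul_left hβ _)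
    · rw [hval, Helper7.classInner_smul_left, Helper7.classInner_irr_self hφ, mul_one]
      exact_mod_cast hb0.ne'
    · show ((F 1 : ℂˣ) : ℂ) * (β : T ⧸ N.subgroupOf T → ℂ) (QuotientGroup.mk' _ 1) = _
      rw [map_one, map_one, hb, Units.val_one, one_mul]
  have hsolvQ : IsPSolvable p (T ⧸ N.subgroupOf T) :=
    Helper5.isPSolvable_of_surjective (QuotientGroup.mk' _) (QuotientGroup.mk'_surjective _)
      (Helper4.Transport.isPSolvable_subgroup' hp.out hsolv T)
  obtain ⟨Q⟩ : Nonempty (Sylow p (T ⧸ N.subgroupOf T)) := inferInstance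
  obtain ⟨hQn, hQc⟩ := (Cfsg.Agent.S4713.result p hsolvQ Q).2 hquot
  -- `p`-elements of `T` commute modulo `N`
  have hmem : ∀ s : T, (∃ k : ℕ, s ^ p ^ k = 1) → QuotientGroup.mk' (N.subgroupOf T) s ∈ Q := by
    intro s ⟨k, hk⟩
    have hz : IsPGroup p (Subgroup.zpowers (QuotientGroup.mk' (N.subgroupOf T) s)) := by
      have h1 : orderOf (QuotientGroup.mk' (N.subgroupOf T) s) ∣ p ^ k := by
        apply orderOf_dvd_of_pow_eq_one
        rw [← map_pow, hk, map_one]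
      obtain ⟨j, -, hj⟩ := (Nat.dvd_prime_pow hp.out).1 h1
      apply IsPGroup.of_card (n := j)
      rw [Nat.card_zpowers, hj]
    obtain ⟨R, hR⟩ := hz.exists_le_sylow
    have hRQ : R = Q := by
      haveI := Sylow.unique_of_normal Q hQn
      exact Subsingleton.elim _ _
    rw [← hRQ]
    exact hR (Subgroup.mem_zpowers _)
  have hcomm : ∀ s t : T, (∃ k : ℕ, s ^ p ^ k = 1) → (∃ k : ℕ, t ^ p ^ k = 1) →
      ((s * t * s⁻¹ * t⁻¹ : T) : G) ∈ N := by
    intro s t hs ht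
    have h1 := hmem s hs
    have h2 := hmem t ht
    have h3 : (⟨_, h1⟩ : Q) * ⟨_, h2⟩ = ⟨_, h2⟩ * ⟨_, h1⟩ := hQc.is_comm.comm _ _
    have h4 : QuotientGroup.mk' (N.subgroupOf T) s * QuotientGroup.mk' (N.subgroupOf T) t
        = QuotientGroup.mk' (N.subgroupOf T) t * QuotientGroup.mk' (N.subgroupOf T) s :=
      congrArg Subtype.val h3
    have h5 : QuotientGroup.mk' (N.subgroupOf T) (s * t * s⁻¹ * t⁻¹) = 1 := by
      rw [map_mul, map_mul, map_mul, h4, map_inv, map_inv]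
      group
    exact Subgroup.mem_subgroupOf.1 ((QuotientGroup.eq_one_iff _).1 h5)
  -- a conjugate of `P` lies in `T`
  obtain ⟨c, hc⟩ : (MulAction.fixedPoints P (G ⧸ T)).Nonempty := by
    exact IsPGroup.nonempty_fixed_point_of_prime_not_dvd_card P.2 (G ⧸ T) hpT
  obtain ⟨g, rfl⟩ := QuotientGroup.mk_surjective c
  have hPT : ∀ x ∈ P, g⁻¹ * x * g ∈ T := by
    intro x hx
    have h1 : (⟨x, hx⟩ : P) • (QuotientGroup.mk g : G ⧸ T) = QuotientGroup.mk g := hc ⟨x, hx⟩
    have h2 : (QuotientGroup.mk (x * g) : G ⧸ T) = QuotientGroup.mk g := h1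
    have h3 := QuotientGroup.eq.1 h2.symm
    rwa [← mul_assoc] at h3
  have hPp : ∀ x (hx : x ∈ P), ∃ k : ℕ, (⟨g⁻¹ * x * g, hPT x hx⟩ : T) ^ p ^ k = 1 := by
    intro x hx
    obtain ⟨k, hk⟩ := P.2 ⟨x, hx⟩
    refine ⟨k, ?_⟩
    apply Subtype.ext
    have h1 : x ^ p ^ k = 1 := congrArg Subtype.val hk
    have h2 : (g⁻¹ * x * g) ^ p ^ k = g⁻¹ * x ^ p ^ k * g := by
      have := conj_pow (a := g⁻¹) (b := x) (i := p ^ k)
      simpa using this
    show (g⁻¹ * x * g) ^ p ^ k = 1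
    rw [h2, h1]
    group
  intro x hx y hy
  have h1 := hcomm _ _ (hPp x hx) (hPp y hy)
  have h2 := hN.conj_mem _ h1 g
  have h3 : g * ((⟨g⁻¹ * x * g, hPT x hx⟩ * ⟨g⁻¹ * y * g, hPT y hy⟩ *
      (⟨g⁻¹ * x * g, hPT x hx⟩ : T)⁻¹ * (⟨g⁻¹ * y * g, hPT y hy⟩ : T)⁻¹ : T) : G) * g⁻¹
      = x * y * x⁻¹ * y⁻¹ := by
    show g * ((g⁻¹ * x * g) * (g⁻¹ * y * g) * (g⁻¹ * x * g)⁻¹ * (g⁻¹ * y * g)⁻¹) * g⁻¹ = _
    group
  rwa [h3] at h2

end Cfsg.Agent.Lib.Helper10.DLBound
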