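import Mathlib
import Cfsg.Agent.Lib.Helper10.DLBound
import Cfsg.Agent.Lib.Helper1.QuotRank
import Cfsg.Agent.Lib.Helper2.CharInner

set_option autoImplicit false

namespace Cfsg.Agent.Lib.Helper10.DLBound

open Cfsg
open Cfsg.Agent.Lib Cfsg.Agent.Lib.Helper25

universe u

/-- The number of irreducible characters of degree divisible by `p`. -/
noncomputable def kp (p : ℕ) (G : Type u) [Group G] : ℕ :=
  Nat.card {χ : IrrCharacter G // p ∣ charDegree (χ : G → ℂ)}

theorem charDegree_inflIrr {G : Type u} [Group G] [Finite G] (N : Subgroup G) [N.Normal]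
    (ψ : IrrCharacter (G ⧸ N)) :
    charDegree (Helper1.inflIrr N ψ : G → ℂ) = charDegree (ψ : G ⧸ N → ℂ) := by
  unfold charDegree
  rw [Helper1.inflIrr_apply, map_one]

/-- Inflation on the characters of degree divisible by `p`. -/
noncomputable def inflP {G : Type u} [Group G] [Finite G] (p : ℕ) (N : Subgroup G) [N.Normal]
    (ψ : {ψ : IrrCharacter (G ⧸ N) // p ∣ charDegree (ψ : G ⧸ N → ℂ)}) :
    {χ : IrrCharacter G // p ∣ charDegree (χ : G → ℂ)} :=
  ⟨Helper1.inflIrr N ψ.1, by rw [charDegree_inflIrr]; exact ψ.2⟩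

theorem inflP_injective {G : Type u} [Group G] [Finite G] (p : ℕ) (N : Subgroup G) [N.Normal] :
    Function.Injective (inflP p N) := by
  intro a b h
  apply Subtype.ext
  apply Helper1.inflIrr_injective N
  exact congrArg Subtype.val h

theorem kp_quot_le {G : Type u} [Group G] [Finite G] (p : ℕ) (N : Subgroup G) [N.Normal] :
    kp p (G ⧸ N) ≤ kp p G := by
  haveI : Finite (IrrCharacter G) := Helper2.finite_irrCharacter
  exact Nat.card_le_card_of_injective _ (inflP_injective p N)

theorem kp_quot_lt {G : Type u} [Group G] [Finite G] (p : ℕ) (N : Subgroup G) [N.Normal]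
    (χ : IrrCharacter G) (hχ : p ∣ charDegree (χ : G → ℂ))
    (hn : ¬ ∀ n ∈ N, (χ : G → ℂ) n = (χ : G → ℂ) 1) :
    kp p (G ⧸ N) < kp p G := by
  classical
  haveI : Finite (IrrCharacter G) := Helper2.finite_irrCharacter
  haveI : Finite (IrrCharacter (G ⧸ N)) := Helper2.finite_irrCharacter
  haveI := Fintype.ofFinite {χ : IrrCharacter G // p ∣ charDegree (χ : G → ℂ)}
  haveI := Fintype.ofFinite {ψ : IrrCharacter (G ⧸ N) // p ∣ charDegree (ψ : G ⧸ N → ℂ)}
  unfold kp
  rw [Nat.card_eq_fintype_card, Nat.card_eq_fintype_card]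
  apply Fintype.card_lt_of_injective_of_notMem (inflP p N) (inflP_injective p N) (b := ⟨χ, hχ⟩)
  rintro ⟨ψ, hψ⟩
  apply hn
  rw [← Helper1.mem_range_inflIrr]
  exact ⟨ψ.1, congrArg Subtype.val hψ⟩

theorem mem_of_derivedSeries_quot {G : Type u} [Group G] [Finite G] (p : ℕ) [Fact p.Prime]
    (N : Subgroup G) [N.Normal] (P : Sylow p G) (m : ℕ)
    (h : derivedSeries ↥((P.mapSurjective (QuotientGroup.mk'_surjective N) : Sylow p (G ⧸ N)) :
      Subgroup (G ⧸ N)) m = ⊥) :
    ∀ x ∈ derivedSeries ↥(P : Subgroup G) m, (x : G) ∈ N := by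
  intro x hx
  let f : ↥(P : Subgroup G) →* ↥((P : Subgroup G).map (QuotientGroup.mk' N)) :=
    (QuotientGroup.mk' N).subgroupMap P
  have hf : Function.Surjective f := (QuotientGroup.mk' N).subgroupMap_surjective P
  have h1 := map_derivedSeries_eq hf m
  have h2 : f x ∈ (derivedSeries _ m).map f := Subgroup.mem_map_of_mem f hx
  rw [h1] at h2
  have h3 : derivedSeries ↥((P : Subgroup G).map (QuotientGroup.mk' N)) m = ⊥ := h
  rw [h3, Subgroup.mem_bot] at h2
  have h4 : QuotientGroup.mk' N (x : G) = 1 := congrArg Subtype.val h2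
  exact (QuotientGroup.eq_one_iff _).1 h4

theorem derivedSeries_succ_eq_bot {H : Type u} [Group H] (m : ℕ)
    (h : ∀ x ∈ derivedSeries H m, ∀ y ∈ derivedSeries H m, x * y = y * x) :
    derivedSeries H (m + 1) = ⊥ := by
  rw [derivedSeries_succ, Subgroup.commutator_eq_bot_iff_le_centralizer]
  intro x hx
  rw [Subgroup.mem_centralizer_iff]
  intro y hy
  exact h y hy x hx

theorem derivedSeries_eq_bot_of_le {H : Type u} [Group H] {m m' : ℕ} (hm : m ≤ m')
    (h : derivedSeries H m = ⊥) : derivedSeries H m' = ⊥ := by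
  rw [eq_bot_iff, ← h]
  exact derivedSeries_antitone H hm

theorem exists_abelian_normal {G : Type u} [Group G] [Finite G] (p : ℕ) [Fact p.Prime]
    (N0 : Subgroup G) [N0.Normal] (h1 : N0 ≠ ⊥) (hp : IsPGroup p N0) :
    ∃ N : Subgroup G, N.Normal ∧ N ≠ ⊥ ∧ IsPGroup p N ∧ ∀ a b : N, a * b = b * a := by
  refine ⟨(Subgroup.center N0).map N0.subtype, inferInstance, ?_, ?_, ?_⟩
  · haveI : Nontrivial N0 := (Subgroup.nontrivial_iff_ne_bot N0).2 h1
    haveI := hp.center_nontrivial
    obtain ⟨z, hz⟩ := exists_ne (1 : Subgroup.center N0)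
    intro hbot
    apply hz
    have h2 : ((z : N0) : G) ∈ (Subgroup.center N0).map N0.subtype :=
      Subgroup.mem_map_of_mem N0.subtype z.2
    rw [hbot, Subgroup.mem_bot] at h2
    apply Subtype.ext
    apply Subtype.ext
    exact h2
  · exact (hp.to_subgroup (Subgroup.center N0)).map N0.subtype
  · rintro ⟨a, a', ha', rfl⟩ ⟨b, b', hb', rfl⟩
    apply Subtype.ext
    show (a' : G) * (b' : G) = (b' : G) * (a' : G)
    have := Subgroup.mem_center_iff.1 ha' b'
    exact (congrArg Subtype.val this).symm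

theorem exists_normal_p_or_p' {G : Type u} [Group G] [Finite G] [Nontrivial G] (p : ℕ)
    [Fact p.Prime] (hG : IsPSolvable p G) :
    ∃ N : Subgroup G, N.Normal ∧ N ≠ ⊥ ∧ (IsPGroup p N ∨ (Nat.card N).Coprime p) := by
  obtain ⟨n, H, h0, hn, hmono, hnorm, hfac⟩ := hG
  by_contra hcon
  push Not at hcon
  have hall : ∀ i : Fin (n + 1), H i = ⊥ := by
    intro i
    induction i using Fin.induction with
    | zero => exact h0
    | succ i ih =>
      by_contra hne
      have h1 := hcon (H i.succ) (hnorm _) hne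
      rcases hfac i with ⟨m, hm⟩ | hc
      · rw [ih, Subgroup.relIndex_bot_left] at hm
        exact h1.1 (IsPGroup.of_card hm)
      · rw [ih, Subgroup.relIndex_bot_left] at hc
        exact h1.2 hc
  rw [hall] at hn
  exact bot_ne_top hn

theorem derivedSeries_sylow_aux (p : ℕ) [hp : Fact p.Prime] (n : ℕ) :
    ∀ (G : Type u) [Group G] [Finite G], Nat.card G = n → IsPSolvable p G →
      ∀ P : Sylow p G, derivedSeries ↥(P : Subgroup G) (kp p G + 1) = ⊥ := by
  induction n using Nat.strong_induction_on with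
  | _ n ih =>
  intro G _ _ hcard hsolv P
  rcases subsingleton_or_nontrivial G with hs | hnt
  · rw [eq_bot_iff]
    intro x _
    rw [Subgroup.mem_bot]
    exact Subsingleton.elim _ _
  obtain ⟨N0, hN0n, hN01, hN0⟩ := exists_normal_p_or_p' p hsolv
  have step : ∀ (N : Subgroup G) [N.Normal], N ≠ ⊥ →
      ∀ x ∈ derivedSeries ↥(P : Subgroup G) (kp p (G ⧸ N) + 1), (x : G) ∈ N := by
    intro N _ hN1
    apply mem_of_derivedSeries_quot
    refine ih (Nat.card (G ⧸ N)) ?_ (G ⧸ N) rfl
      (Helper5.isPSolvable_of_surjective (QuotientGroup.mk' N) (QuotientGroup.mk'_surjective N)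
        hsolv) _
    rw [← hcard, ← N.index_mul_card]
    have h1 : 1 < Nat.card N := by
      haveI : Nontrivial N := (Subgroup.nontrivial_iff_ne_bot N).2 hN1
      exact Finite.one_lt_card
    have h2 : 0 < N.index := Nat.pos_of_ne_zero N.index_ne_zero_of_finite
    show N.index < _
    nlinarith
  rcases hN0 with hpg | hc
  · obtain ⟨N, hNn, hN1, hNp, hNc⟩ := exists_abelian_normal p N0 hN01 hpg
    have hab : ∀ m, (∀ x ∈ derivedSeries ↥(P : Subgroup G) m, (x : G) ∈ N) →
        derivedSeries ↥(P : Subgroup G) (m + 1) = ⊥ := by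
      intro m hm
      apply derivedSeries_succ_eq_bot
      intro x hx y hy
      apply Subtype.ext
      have h7 : ((⟨x, hm x hx⟩ * ⟨y, hm y hy⟩ : N) : G) = ((⟨y, hm y hy⟩ * ⟨x, hm x hx⟩ : N) : G) :=
        congrArg Subtype.val (hNc ⟨x, hm x hx⟩ ⟨y, hm y hy⟩)
      exact h7
    by_cases hyp : ∀ χ : IrrCharacter G, p ∣ charDegree (χ : G → ℂ) →
        ∀ n ∈ N, (χ : G → ℂ) n = (χ : G → ℂ) 1
    · have hB := commutator_mem_of_relative p hsolv N hNp hNc hN1 hyp P
      by_cases k0 : kp p G = 0
      · rw [k0]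
        have hall : ∀ χ : IrrCharacter G, ¬ p ∣ charDegree (χ : G → ℂ) := by
          intro χ hχ
          haveI : Finite (IrrCharacter G) := Helper2.finite_irrCharacter
          have h1 : IsEmpty {χ : IrrCharacter G // p ∣ charDegree (χ : G → ℂ)} :=
            (Finite.card_eq_zero_iff).1 k0
          exact h1.false ⟨χ, hχ⟩
        obtain ⟨-, hQc⟩ := (Cfsg.Agent.S4713.result p hsolv P).2 hall
        apply derivedSeries_succ_eq_bot
        intro x _ y _
        exact hQc.is_comm.comm x y
      · have h1 : ∀ x ∈ derivedSeries ↥(P : Subgroup G) 1, (x : G) ∈ N := by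
          have h2 : derivedSeries ↥(P : Subgroup G) 1 ≤ N.subgroupOf P := by
            rw [derivedSeries_succ, Subgroup.commutator_le]
            intro x _ y _
            rw [Subgroup.mem_subgroupOf, commutatorElement_def]
            exact hB x x.2 y y.2
          intro x hx
          exact Subgroup.mem_subgroupOf.1 (h2 hx)
        exact derivedSeries_eq_bot_of_le (by omega) (hab 1 h1)
    · push Not at hyp
      obtain ⟨χ, hχ, hn⟩ := hyp
      have hlt := kp_quot_lt p N χ hχ (by push Not; exact hn)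
      exact derivedSeries_eq_bot_of_le (by omega) (hab _ (step N hN1))
  · have h1 := step N0 hN01
    have h2 : derivedSeries ↥(P : Subgroup G) (kp p (G ⧸ N0) + 1) = ⊥ := by
      rw [eq_bot_iff]
      intro x hx
      rw [Subgroup.mem_bot]
      obtain ⟨k, hk⟩ := P.2 x
      have h3 : (x : G) ^ p ^ k = 1 := congrArg Subtype.val hk
      have h4 : (x : G) ^ Nat.card N0 = 1 := by
        have := pow_card_eq_one' (x := (⟨x, h1 x hx⟩ : N0))
        exact congrArg Subtype.val this
      have h5 : orderOf (x : G) ∣ Nat.gcd (Nat.card N0) (p ^ k) :=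
        Nat.dvd_gcd (orderOf_dvd_of_pow_eq_one h4) (orderOf_dvd_of_pow_eq_one h3)
      rw [Nat.Coprime.pow_right k hc, Nat.dvd_one, orderOf_eq_one_iff] at h5
      exact Subtype.ext h5
    exact derivedSeries_eq_bot_of_le (by have := kp_quot_le p N0; omega) h2

end Cfsg.Agent.Lib.Helper10.DLBound
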