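import Cfsg.Agent.Lib.Helper10.LocalDet
import Cfsg.Agent.Lib.Helper10.ClassPerm

set_option autoImplicit false
set_option linter.style.haveILetI false
set_option linter.unusedSectionVars false
open Cfsg
open Cfsg.Agent.Lib.Helper7
open scoped ComplexConjugate

namespace Cfsg.Agent.Lib.Helper10

universe u
variable {G : Type u} [Group G] {M : Ideal AlgInt}

theorem centralizer_singleton_inv (g : G) :
    Subgroup.centralizer ({g⁻¹} : Set G) = Subgroup.centralizer ({g} : Set G) := by
  ext c
  rw [Subgroup.mem_centralizer_singleton_iff, Subgroup.mem_centralizer_singleton_iff]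
  constructor
  · intro h
    calc c * g = g * (g⁻¹ * c) * g := by group
      _ = g * (c * g⁻¹) * g := by rw [h]
      _ = g * c := by group
  · intro h
    calc c * g⁻¹ = g⁻¹ * (g * c) * g⁻¹ := by group
      _ = g⁻¹ * (c * g) * g⁻¹ := by rw [h]
      _ = g⁻¹ * c := by group

/-- the orthogonality relation in terms of central characters -/
theorem sum_mult_centralChar [Fintype G] [Fintype (IrrCharacter G)] (U : Subgroup G) [Fintype U]
    (m : IrrCharacter G → ℕ)
    (hm : ∀ χ : IrrCharacter G, ∑ u : U, conj ((χ : G → ℂ) u) = (m χ : ℂ) * (Nat.card U : ℂ))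
    (a b : G) [Decidable (IsConj a b)]
    (hsep : ∀ x y t : G, t * ((x * a * x⁻¹) * (y * b * y⁻¹)⁻¹) * t⁻¹ ∈ U →
      (x * a * x⁻¹) * (y * b * y⁻¹)⁻¹ = 1) :
    ∑ χ : IrrCharacter G, ((m χ : ℂ) * conj ((χ : G → ℂ) b)) * centralChar (χ : G → ℂ) a
      = if IsConj a b then (U.index : ℂ) else 0 := by
  have h1 := sum_mult_char U a b hsep
  have hU0 : (Nat.card U : ℂ) ≠ 0 := by exact_mod_cast Nat.card_pos.ne'
  have e : ∑ χ : IrrCharacter G, ((m χ : ℂ) * conj ((χ : G → ℂ) b)) * centralChar (χ : G → ℂ) a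
      = (((Subgroup.centralizer ({a} : Set G)).index : ℂ) / (Nat.card U : ℂ))
        * ∑ χ : IrrCharacter G, (∑ u : U, conj ((χ : G → ℂ) u)) * ((χ : G → ℂ) a
        * conj ((χ : G → ℂ) b) / (χ : G → ℂ) 1) := by
    rw [Finset.mul_sum]
    apply Finset.sum_congr rfl
    intro χ _
    rw [hm χ, centralChar]
    field_simp
  rw [e, h1]
  split_ifs
  · have h2 : ((Subgroup.centralizer ({a} : Set G)).index : ℂ)
        * (Nat.card (Subgroup.centralizer ({a} : Set G)) : ℂ) = (Nat.card G : ℂ) := by
      exact_mod_cast Subgroup.index_mul_card _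
    have h3 : (U.index : ℂ) * (Nat.card U : ℂ) = (Nat.card G : ℂ) := by
      exact_mod_cast Subgroup.index_mul_card _
    rw [div_mul_eq_mul_div, h2, ← h3]
    field_simp
  · rw [mul_zero]

theorem det_sum_smul {r : ℕ} {ι : Type*} [Fintype ι] (c : ι → Fin r → ℂ) (w : ι → Fin r → ℂ) :
    (Matrix.of fun j i => ∑ χ, c χ j * w χ i : Matrix (Fin r) (Fin r) ℂ).det
      = ∑ f : Fin r → ι, (∏ j, c (f j) j)
        * (Matrix.of fun j i => w (f j) i : Matrix (Fin r) (Fin r) ℂ).det := by
  classical
  have h1 := (Matrix.detRowAlternating (n := Fin r) (R := ℂ)).toMultilinearMap.map_sum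
    (fun (j : Fin r) (χ : ι) => c χ j • w χ)
  have e1 : (Matrix.of fun j i => ∑ χ, c χ j * w χ i : Matrix (Fin r) (Fin r) ℂ)
      = (fun j => ∑ χ, c χ j • w χ) := by
    ext j i
    simp [Finset.sum_apply]
  rw [e1]
  refine h1.trans ?_
  apply Finset.sum_congr rfl
  intro f _
  exact (Matrix.detRowAlternating (n := Fin r) (R := ℂ)).toMultilinearMap.map_smul_univ
    (fun j => c (f j) j) (fun j => w (f j))

theorem exists_blocks_of_sep [Finite G] (p : ℕ) [Fact p.Prime] (hM : IsPModular p M)
    (D : Subgroup G) {r : ℕ} (x : Fin r → G) (hx : ∀ i j : Fin r, IsConj (x i) (x j) → i = j)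
    (hD : ∀ i : Fin r, ∃ S : Sylow p ↥(Subgroup.centralizer ({x i} : Set G)),
      (S : Subgroup ↥(Subgroup.centralizer ({x i} : Set G))).map
        (Subgroup.centralizer ({x i} : Set G)).subtype = D)
    (hsep : ∀ i j : Fin r, ∀ g h : G, IsConj (x i) g → IsConj (x j) h → ∀ k : ℕ, 0 < k →
      orderOf (g * h⁻¹) ≠ p ^ k) :
    ∃ B : Fin r → Set (IrrCharacter G), Function.Injective B ∧
      (∀ i : Fin r, IsPBlock M (B i) ∧ IsDefectGroup p M (B i) D) ∧
      ∀ χ : Fin r → IrrCharacter G,
        (∀ i : Fin r, χ i ∈ B i ∧ blockHeight p (B i) (χ i : G → ℂ) = 0) →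
        ¬ MemLocalIdeal M (Matrix.det (Matrix.of fun i j : Fin r => (χ i : G → ℂ) (x j))) := by
  classical
  haveI := hM.2.1.isPrime
  haveI := Fintype.ofFinite G
  haveI := Fintype.ofFinite (IrrCharacter G)
  have hp := hM.1
  have hp0 : p ≠ 0 := hp.ne_zero
  obtain ⟨S⟩ : Nonempty (Sylow p G) := inferInstance
  haveI : Fintype (S : Subgroup G) := Fintype.ofFinite _
  obtain ⟨m, hm⟩ := exists_mult (S : Subgroup G)
  set a := (Nat.card G).factorization p with ha
  set δ := (Nat.card D).factorization p with hδ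
  have hcδ : ∀ i, (Nat.card (Subgroup.centralizer ({x i} : Set G))).factorization p = δ := by
    intro i
    obtain ⟨S', hS'⟩ := hD i
    rw [hδ, ← hS', Subgroup.card_map_of_injective (Subgroup.subtype_injective _),
      S'.card_eq_multiplicity, hp.factorization_pow]
    simp
  have hidx : ∀ i, ((Subgroup.centralizer ({x i} : Set G)).index).factorization p + δ = a := by
    intro i
    rw [← hcδ i, ha, ← Subgroup.index_mul_card (Subgroup.centralizer ({x i} : Set G)),
      Nat.factorization_mul Subgroup.index_ne_zero_of_finite Nat.card_pos.ne']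
    rfl
  let w : IrrCharacter G → Fin r → ℂ := fun χ i => centralChar (χ : G → ℂ) (x i)
  let c : IrrCharacter G → Fin r → ℂ := fun χ j => (m χ : ℂ) * conj ((χ : G → ℂ) (x j))
  have hE : ∀ i j, ∑ χ, c χ j * w χ i = if i = j then ((S : Subgroup G).index : ℂ) else 0 := by
    intro i j
    have h1 := sum_mult_centralChar (S : Subgroup G) m hm (x i) (x j) (by
      intro y z t ht
      obtain ⟨k, hk⟩ := (IsPGroup.iff_orderOf.1 S.2) ⟨_, ht⟩
      rw [Subgroup.orderOf_mk] at hk
      have hk' : orderOf ((y * x i * y⁻¹) * (z * x j * z⁻¹)⁻¹) = p ^ k := by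
        rw [← hk]
        exact ((MulAut.conj t).orderOf_eq _).symm
      rcases Nat.eq_zero_or_pos k with rfl | hkpos
      · rwa [pow_zero, orderOf_eq_one_iff] at hk'
      · exact absurd hk' (hsep i j _ _ (isConj_iff.2 ⟨y, rfl⟩) (isConj_iff.2 ⟨z, rfl⟩) k hkpos))
    rw [h1]
    by_cases hij : i = j
    · subst hij
      rw [if_pos (IsConj.refl _), if_pos rfl]
    · rw [if_neg hij, if_neg (fun h => hij (hx i j h))]
  set N : Matrix (Fin r) (Fin r) ℂ := Matrix.of fun j i => ∑ χ, c χ j * w χ i with hNdef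
  have hN : N.det = ((S : Subgroup G).index : ℂ) ^ r := by
    have : N = Matrix.diagonal (fun _ => ((S : Subgroup G).index : ℂ)) := by
      ext j i
      rw [hNdef, Matrix.of_apply, hE, Matrix.diagonal_apply]
      by_cases hij : i = j
      · rw [if_pos hij, if_pos hij.symm]
      · rw [if_neg hij, if_neg (fun h => hij h.symm)]
    rw [this, Matrix.det_diagonal]
    simp
  have hexp := det_sum_smul c w
  rw [← hNdef] at hexp
  have hNnot : ¬ MemLocalIdeal M N.det := by
    rw [hN, ← Nat.cast_pow, memLocalIdeal_natCast_iff hM]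
    exact fun h => S.not_dvd_index (hp.dvd_of_dvd_pow h)
  have hw : ∀ χ i, MemLocalRing M (w χ i) := fun χ i => memLocalRing_centralChar χ _
  have hc : ∀ χ j, MemLocalRing M (c χ j) := by
    intro χ j
    apply memLocalRing_mul (memLocalRing_natCast _)
    rw [← char_inv_eq_conj (isCharacter_of_irr χ.2)]
    exact memLocalRing_of_isIntegral (char_isIntegral (isCharacter_of_irr χ.2) _)
  obtain ⟨f, hf⟩ : ∃ f : Fin r → IrrCharacter G, ¬ MemLocalIdeal M ((∏ j, c (f j) j)
        * (Matrix.of fun j i => w (f j) i : Matrix (Fin r) (Fin r) ℂ).det) := by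
    by_contra hcon
    push Not at hcon
    apply hNnot
    rw [hexp]
    exact memLocalIdeal_sum _ _ (fun f _ => hcon f)
  set A : Matrix (Fin r) (Fin r) ℂ := Matrix.of fun j i => w (f j) i with hAdef
  have hA : ∀ j i, MemLocalRing M (A j i) := fun j i => hw _ _
  have hdet : ¬ MemLocalIdeal M A.det :=
    fun h => hf (memLocalIdeal_mul_left (memLocalRing_prod _ _ (fun j _ => hc _ _)) h)
  have hcf : ∀ j, ¬ MemLocalIdeal M (c (f j) j) := by
    intro j h
    apply hf
    apply memLocalIdeal_mul_right _ (memLocalRing_det A hA)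
    rw [← Finset.mul_prod_erase Finset.univ _ (Finset.mem_univ j)]
    exact memLocalIdeal_mul_right h (memLocalRing_prod _ _ (fun i _ => hc _ _))
  let B : Fin r → Set (IrrCharacter G) := fun j => blockOf M (f j : G → ℂ)
  have hBblock : ∀ j, IsPBlock M (B j) := fun j => ⟨f j, rfl⟩
  have hfB : ∀ j, f j ∈ B j := fun j => self_mem_blockOf _
  have hinj : Function.Injective B := by
    intro j j' hjj
    by_contra hne
    apply hdet
    apply memLocalIdeal_det_of_row_congr A hA hne
    intro i
    have h1 : f j' ∈ B j := by rw [hjj]; exact hfB j'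
    exact memLocalIdeal_sub_comm (h1 (x i))
  have hdeg : ∀ j, (charDegree (f j : G → ℂ)).factorization p + δ ≤ a := by
    intro j
    by_contra hlt
    push Not at hlt
    apply hcf j
    have hd0 : (charDegree (f j : G → ℂ) : ℂ) ≠ 0 := by exact_mod_cast (charDegree_pos (f j)).ne'
    have hi0 : ((Subgroup.centralizer ({x j} : Set G)).index : ℂ) ≠ 0 := by
      exact_mod_cast Subgroup.index_ne_zero_of_finite
    have e : c (f j) j = (m (f j) : ℂ) * (centralChar (f j : G → ℂ) (x j)⁻¹
        * ((charDegree (f j : G → ℂ) : ℂ) / ((Subgroup.centralizer ({x j} : Set G)).index : ℂ))) := by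
      show (m (f j) : ℂ) * conj ((f j : G → ℂ) (x j)) = _
      rw [← char_inv_eq_conj (isCharacter_of_irr (f j).2), centralChar, centralizer_singleton_inv,
        ← charDegree_cast (isCharacter_of_irr (f j).2)]
      field_simp
    rw [e]
    apply memLocalIdeal_mul_left (memLocalRing_natCast _)
    apply memLocalIdeal_mul_left (memLocalRing_centralChar _ _)
    rw [memLocalIdeal_div_iff hM (charDegree_pos (f j)).ne' Subgroup.index_ne_zero_of_finite]
    have := hidx j
    omega
  have hdef_ge : ∀ j, δ ≤ blockDefect p (B j) := by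
    intro j
    have h1 := sInf_le_of_mem p (hfB j)
    have h2 := hdeg j
    rw [blockDefect]
    omega
  have hrow : ∀ j, ∃ i, ¬ MemLocalIdeal M (A j i) := by
    intro j
    by_contra hcon
    push Not at hcon
    exact hdet (memLocalIdeal_det_of_row A hA j hcon)
  have hDG : ∀ j, IsDefectGroup p M (B j) D := by
    intro j
    obtain ⟨i, hi⟩ := hrow j
    obtain ⟨S', hS'⟩ := hD i
    rw [← hS']
    exact isDefectGroup_of_centralChar hM (hBblock j) S' ⟨f j, hfB j, hi⟩
      (by rw [hcδ i]; exact hdef_ge j)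
  have hdef_eq : ∀ j, blockDefect p (B j) = δ := by
    intro j
    have h1 := card_defectGroup hM (hBblock j) (hDG j)
    rw [hδ, h1, hp.factorization_pow]
    simp
  refine ⟨B, hinj, fun j => ⟨hBblock j, hDG j⟩, ?_⟩
  intro χ hχ hX
  apply hdet
  set X : Matrix (Fin r) (Fin r) ℂ := Matrix.of fun i j : Fin r => (χ i : G → ℂ) (x j) with hXdef
  set A'' : Matrix (Fin r) (Fin r) ℂ := Matrix.of fun j i => w (χ j) i with hA''def
  have h1 : MemLocalIdeal M (A.det - A''.det) :=
    memLocalIdeal_det_sub A A'' hA (fun j i => hw _ _) (fun j i => (hχ j).1 (x i))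
  have h2 : A''.det = (∏ j, (((Subgroup.centralizer ({x j} : Set G)).index : ℂ)
      / (charDegree (χ j : G → ℂ) : ℂ))) * X.det := by
    have e1 : A'' = Matrix.of fun j i => ((charDegree (χ j : G → ℂ) : ℂ))⁻¹
        * (Matrix.of fun j i => ((Subgroup.centralizer ({x i} : Set G)).index : ℂ) * X j i :
          Matrix (Fin r) (Fin r) ℂ) j i := by
      ext j i
      simp only [hA''def, hXdef, Matrix.of_apply, w, centralChar]
      rw [← charDegree_cast (isCharacter_of_irr (χ j).2)]
      ring
    rw [e1, Matrix.det_mul_column, Matrix.det_mul_row, ← mul_assoc, ← Finset.prod_mul_distrib]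
    congr 1
    apply Finset.prod_congr rfl
    intro j _
    rw [div_eq_mul_inv, mul_comm]
  have h3 : MemLocalIdeal M A''.det := by
    rw [h2]
    apply memLocalIdeal_mul_left _ hX
    apply memLocalRing_prod
    intro j _
    rw [memLocalRing_div_iff hM Subgroup.index_ne_zero_of_finite (charDegree_pos (χ j)).ne']
    have e1 := hidx j
    have e2 := (hχ j).2
    have e3 := hdef_eq j
    have e4 := sInf_le_factorization_card (hBblock j) p
    rw [blockHeight] at e2
    rw [blockDefect] at e3
    omega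
  have := memLocalIdeal_add h1 h3
  rwa [sub_add_cancel] at this

end Cfsg.Agent.Lib.Helper10
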