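import Cfsg.Agent.Lib.Helper10.DefZero
import Cfsg.Prelude.Def_Local
import Cfsg.Agent.Lib.Helper10.PCore

set_option autoImplicit false
set_option linter.style.haveILetI false
set_option linter.unusedSectionVars false
open Cfsg
open Cfsg.Agent.Lib.Helper7

namespace Cfsg.Agent.Lib.Helper10

universe u
variable {G : Type u} [Group G] [Finite G]

/-- A normal `p'`-subgroup of order divisible by `q`, in a group without commuting elements of
orders `p` and `q`, forces a character of `p`-defect zero. -/
theorem exists_defect_zero_of_normal (p q : ℕ) [Fact p.Prime] [Fact q.Prime]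
    (hno : ∀ u v : G, orderOf u = p → orderOf v = q → ¬ Commute u v)
    (N : Subgroup G) [N.Normal] (hpN : ¬ p ∣ Nat.card N) (hqN : q ∣ Nat.card N) :
    ∃ χ : IrrCharacter G,
      (charDegree (χ : G → ℂ)).factorization p = (Nat.card G).factorization p := by
  obtain ⟨z, hz⟩ := exists_prime_orderOf_dvd_card' q hqN
  have hz' : orderOf (z : G) = q := by rw [← hz]; simp
  apply exists_defect_zero_of_sep p (z : G)
  · intro h
    obtain ⟨u, hu, huz⟩ := exists_orderOf_commute h
    exact hno u z hu hz' huz
  · intro g h hg hh ⟨k, hk⟩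
    have hgN : g ∈ N := by
      obtain ⟨c, rfl⟩ := isConj_iff.1 hg
      exact Subgroup.Normal.conj_mem inferInstance _ z.2 c
    have hhN : h ∈ N := by
      obtain ⟨c, rfl⟩ := isConj_iff.1 hh
      exact Subgroup.Normal.conj_mem inferInstance _ z.2 c
    have hmem : g * h⁻¹ ∈ N := N.mul_mem hgN (N.inv_mem hhN)
    have hdvd : orderOf (g * h⁻¹) ∣ Nat.card N := by
      have := orderOf_dvd_natCard (⟨g * h⁻¹, hmem⟩ : N)
      rwa [Subgroup.orderOf_mk] at this
    rcases Nat.eq_zero_or_pos k with rfl | hkpos
    · rwa [pow_zero, orderOf_eq_one_iff] at hk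
    · exact absurd ((dvd_pow_self p hkpos.ne').trans (hk ▸ hdvd)) hpN

theorem defect_zero_of_pSolvable (p q : ℕ) [Fact p.Prime] [Fact q.Prime] (hpq : p ≠ q)
    (hno : ∀ u v : G, orderOf u = p → orderOf v = q → ¬ Commute u v)
    (hpG : p ∣ Nat.card G) (hsolv : IsPSolvable p G) :
    (∃ χ : IrrCharacter G,
      (charDegree (χ : G → ℂ)).factorization p = (Nat.card G).factorization p) ∨
    (∃ χ : IrrCharacter G,
      (charDegree (χ : G → ℂ)).factorization q = (Nat.card G).factorization q) := by
  have hp : p.Prime := Fact.out
  have hq : q.Prime := Fact.out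
  obtain ⟨n, H, h0, hlast, hmono, hnorm, hfac⟩ := hsolv
  have key : ∀ i : Fin (n + 1), (p ∣ Nat.card (H i) ∨ q ∣ Nat.card (H i)) →
      (∃ χ : IrrCharacter G,
        (charDegree (χ : G → ℂ)).factorization p = (Nat.card G).factorization p) ∨
      (∃ χ : IrrCharacter G,
        (charDegree (χ : G → ℂ)).factorization q = (Nat.card G).factorization q) := by
    intro i
    induction i using Fin.induction with
    | zero =>
      intro h
      rw [h0, Subgroup.card_bot] at h
      rcases h with h | h
      · exact absurd (Nat.dvd_one.1 h) hp.one_lt.ne'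
      · exact absurd (Nat.dvd_one.1 h) hq.one_lt.ne'
    | succ i ih =>
      intro h
      by_cases hprev : p ∣ Nat.card (H i.castSucc) ∨ q ∣ Nat.card (H i.castSucc)
      · exact ih hprev
      push Not at hprev
      obtain ⟨hp1, hq1⟩ := hprev
      have hle : H i.castSucc ≤ H i.succ := hmono (Fin.castSucc_lt_succ).le
      have hcard : (H i.castSucc).relIndex (H i.succ) * Nat.card (H i.castSucc)
          = Nat.card (H i.succ) := by
        rw [mul_comm]; exact card_mul_relIndex hle
      haveI := hnorm i.succ
      rcases hfac i with ⟨k, hk⟩ | hcop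
      · have hq2 : ¬ q ∣ Nat.card (H i.succ) := by
          rw [← hcard, hk]
          intro hd
          rcases (Nat.Prime.dvd_mul hq).1 hd with hd | hd
          · exact hpq ((Nat.prime_dvd_prime_iff_eq hq hp).1 (hq.dvd_of_dvd_pow hd)).symm
          · exact hq1 hd
        have hp2 : p ∣ Nat.card (H i.succ) := h.resolve_right hq2
        right
        exact exists_defect_zero_of_normal q p (fun u v hu hv hc => hno v u hv hu hc.symm)
          (H i.succ) hq2 hp2
      · have hp2 : ¬ p ∣ Nat.card (H i.succ) := by
          rw [← hcard]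
          intro hd
          rcases (Nat.Prime.dvd_mul hp).1 hd with hd | hd
          · exact (Nat.Prime.coprime_iff_not_dvd hp).1 hcop.symm hd
          · exact hp1 hd
        have hq2 : q ∣ Nat.card (H i.succ) := h.resolve_left hp2
        left
        exact exists_defect_zero_of_normal p q hno (H i.succ) hp2 hq2
  apply key (Fin.last n)
  left
  rw [hlast, Subgroup.card_top]
  exact hpG

end Cfsg.Agent.Lib.Helper10
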