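import Mathlib
import Cfsg.Agent.Lib.Helper25.FrobSchur4
import Cfsg.Agent.Lib.Helper25.CosetNorm

set_option autoImplicit false

namespace Cfsg.Agent.Lib.Helper10.FSInd

open Cfsg Matrix
open Cfsg.Agent.Lib Cfsg.Agent.Lib.Helper25

universe u

/-- Orthogonality of matrix coefficients of an irreducible representation and a second matrix
representation which is not its dual. -/
theorem cross_orth {N : Type u} [Group N] [Fintype N] {d : ℕ}
    (σ : Representation ℂ N (Fin d → ℂ)) [σ.IsIrreducible]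
    (B : N → Matrix (Fin d) (Fin d) ℂ) (hB : ∀ a b, B (a * b) = B a * B b) (hB1 : B 1 = 1)
    (hne : ∃ k, (B k⁻¹).trace ≠ σ.character k) (i j k l : Fin d) :
    ∑ n, B n i k * mat σ n j l = 0 := by
  classical
  set M : Matrix (Fin d) (Fin d) ℂ := ∑ n, (B n)ᵀ * Matrix.single i j (1 : ℂ) * mat σ n with hM
  have hinv : ∀ h, (B h)ᵀ * M * mat σ h = M := by
    intro h
    rw [hM, Finset.mul_sum, Finset.sum_mul]
    refine Fintype.sum_equiv (Equiv.mulRight h) _ _ (fun n => ?_)
    simp only [Equiv.coe_mulRight, mat_mul, hB, Matrix.transpose_mul, Matrix.mul_assoc]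
  have hmul : ∀ h, M * mat σ h = (B h⁻¹)ᵀ * M := by
    intro h
    calc M * mat σ h = ((B h⁻¹)ᵀ * M * mat σ h⁻¹) * mat σ h := by rw [hinv]
      _ = (B h⁻¹)ᵀ * M * (mat σ h⁻¹ * mat σ h) := by rw [Matrix.mul_assoc]
      _ = (B h⁻¹)ᵀ * M := by rw [← mat_mul, inv_mul_cancel, mat_one, Matrix.mul_one]
  have hM0 : M = 0 := by
    by_contra h0
    have hu : IsUnit M := by
      rw [← Matrix.mulVec_injective_iff_isUnit]
      by_contra hinj
      have hker : LinearMap.ker (Matrix.toLin' M) ≠ ⊥ := by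
        intro hb
        apply hinj
        have := LinearMap.ker_eq_bot.1 hb
        intro a b hab
        exact this (by simpa only [Matrix.toLin'_apply] using hab)
      have htop := Cfsg.Agent.Lib.Helper24.eq_top_of_invariant σ (LinearMap.ker (Matrix.toLin' M))
        (fun g v hv => by
          rw [LinearMap.mem_ker, Matrix.toLin'_apply] at hv ⊢
          rw [← mat_mulVec, Matrix.mulVec_mulVec, hmul, ← Matrix.mulVec_mulVec, hv,
            Matrix.mulVec_zero]) hker
      apply h0
      have h2 : Matrix.toLin' M = 0 := LinearMap.ker_eq_top.1 htop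
      exact (Matrix.toLin' (R := ℂ)).injective (by rw [h2, map_zero])
    have hdet : IsUnit M.det := (Matrix.isUnit_iff_isUnit_det M).1 hu
    obtain ⟨k0, hk0⟩ := hne
    apply hk0
    rw [← trace_mat, ← Matrix.trace_transpose]
    have h1 : (B k0⁻¹)ᵀ = M * mat σ k0 * M⁻¹ := by
      rw [hmul, Matrix.mul_assoc, Matrix.mul_nonsing_inv _ hdet, Matrix.mul_one]
    rw [h1, Matrix.trace_mul_comm, ← Matrix.mul_assoc, Matrix.nonsing_inv_mul _ hdet,
      Matrix.one_mul]
  have h3 : M k l = ∑ n, B n i k * mat σ n j l := by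
    simp only [hM, Matrix.sum_apply, mul_single_mul_apply, Matrix.transpose_apply]
  rw [← h3, hM0]
  rfl

/-- The sum of `θ((ng)²)` over a coset of `N` vanishes if `g` moves the real irreducible
character `θ_N`. -/
theorem sum_coset_sq_eq_zero {G : Type u} [Group G] [Finite G] (N I : Subgroup G) [hN : N.Normal]
    (hNI : N ≤ I) [Fintype N] {θ : I → ℂ} (hθ : IsCharacter I θ)
    (hres : IsIrrCharacter N (fun n : N => θ ⟨n, hNI n.2⟩))
    (hreal : ∀ n : N, θ ⟨(n : G)⁻¹, hNI (N.inv_mem n.2)⟩ = θ ⟨n, hNI n.2⟩)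
    (g : G) (hg : ∃ n : N, θ ⟨g * n * g⁻¹, hNI (hN.conj_mem n n.2 g)⟩ ≠ θ ⟨n, hNI n.2⟩)
    (hg2 : g * g ∈ I) :
    ∑ n : N, extendByZero I θ (((n : G) * g) * ((n : G) * g)) = 0 := by
  classical
  obtain ⟨d, ρ, rfl⟩ := hθ
  let σ : Representation ℂ N (Fin d → ℂ) := ρ.comp (Subgroup.inclusion hNI)
  have hσ : σ.character = fun n : N => ρ.character ⟨n, hNI n.2⟩ := rfl
  haveI hirr : σ.IsIrreducible := isIrreducible_of_isIrrCharacter σ (by rw [hσ]; exact hres)
  let B : N → Matrix (Fin d) (Fin d) ℂ := fun n => mat ρ ⟨g * n * g⁻¹, hNI (hN.conj_mem n n.2 g)⟩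
  have hB : ∀ a b, B (a * b) = B a * B b := by
    intro a b
    show mat ρ _ = mat ρ _ * mat ρ _
    rw [← mat_mul]
    congr 1
    apply Subtype.ext
    simp [mul_assoc]
  have hB1 : B 1 = 1 := by
    show mat ρ _ = 1
    rw [← mat_one ρ]
    congr 1
    apply Subtype.ext
    simp
  have hne : ∃ k, (B k⁻¹).trace ≠ σ.character k := by
    obtain ⟨n, hn⟩ := hg
    refine ⟨n⁻¹, ?_⟩
    rw [inv_inv]
    show (mat ρ _).trace ≠ ρ.character ⟨((n⁻¹ : N) : G), _⟩
    rw [trace_mat]
    have := hreal n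
    intro h
    apply hn
    rw [h, ← this]
    rfl
  have key := cross_orth σ B hB hB1 hne
  have hW : ∑ n : N, mat σ n * B n = 0 := by
    ext i l
    simp only [Matrix.sum_apply, Matrix.mul_apply, Matrix.zero_apply]
    rw [Finset.sum_comm]
    refine Finset.sum_eq_zero (fun j _ => ?_)
    rw [← key j i l j]
    exact Finset.sum_congr rfl (fun n _ => mul_comm _ _)
  have hterm : ∀ n : N, extendByZero I ρ.character (((n : G) * g) * ((n : G) * g))
      = ((mat σ n * B n) * mat ρ ⟨g * g, hg2⟩).trace := by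
    intro n
    have hmem : ((n : G) * g) * ((n : G) * g) ∈ I := by
      have : ((n : G) * g) * ((n : G) * g) = (n : G) * (g * n * g⁻¹) * (g * g) := by group
      rw [this]
      exact I.mul_mem (I.mul_mem (hNI n.2) (hNI (hN.conj_mem n n.2 g))) hg2
    rw [extendByZero_mem I _ hmem]
    have h2 : mat σ n = mat ρ ⟨n, hNI n.2⟩ := rfl
    show _ = ((mat σ n * mat ρ _) * mat ρ _).trace
    rw [h2, ← mat_mul, ← mat_mul, trace_mat]
    congr 1
    apply Subtype.ext
    show _ = (n : G) * (g * n * g⁻¹) * (g * g)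
    group
  simp only [hterm]
  rw [← Matrix.trace_sum, ← Finset.sum_mul, hW, Matrix.zero_mul, Matrix.trace_zero]

/-- The Frobenius–Schur indicator is preserved by Clifford induction over a real character. -/
theorem fsInd_indFun_of_inertia {G : Type u} [Group G] [Fintype G] (N I : Subgroup G)
    [hN : N.Normal] (hNI : N ≤ I) [Fintype N] [Fintype I] {θ : I → ℂ} (hθ : IsCharacter I θ)
    (hres : IsIrrCharacter N (fun n : N => θ ⟨n, hNI n.2⟩))
    (hreal : ∀ n : N, θ ⟨(n : G)⁻¹, hNI (N.inv_mem n.2)⟩ = θ ⟨n, hNI n.2⟩)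
    (hI : ∀ g : G, g ∉ I →
      ∃ n : N, θ ⟨g * n * g⁻¹, hNI (hN.conj_mem n n.2 g)⟩ ≠ θ ⟨n, hNI n.2⟩) :
    fsInd (indFun I θ) = fsInd θ := by
  classical
  have hG : (Nat.card G : ℂ) ≠ 0 := by exact_mod_cast Nat.card_pos.ne'
  have hNc : (Fintype.card N : ℂ) ≠ 0 := by exact_mod_cast Fintype.card_pos.ne'
  have h1 : ∀ x : G, ∑ g, extendByZero I θ (x⁻¹ * (g * g) * x) = ∑ g, extendByZero I θ (g * g) := by
    intro x
    refine Fintype.sum_equiv (MulAut.conj x⁻¹).toEquiv _ _ (fun g => ?_)
    simp only [MulEquiv.toEquiv_eq_coe, MulEquiv.coe_toEquiv, MulAut.conj_apply, inv_inv]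
    congr 1
    group
  -- the part outside `I`
  let f : G → ℂ := fun g => if g ∈ I then 0 else extendByZero I θ (g * g)
  have hf0 : ∑ g, f g = 0 := by
    have e1 : ∀ n : N, ∑ g, f ((n : G) * g) = ∑ g, f g := fun n =>
      Fintype.sum_equiv (Equiv.mulLeft (n : G)) _ _ (fun g => rfl)
    have e2 : ∑ n : N, ∑ g, f ((n : G) * g) = (Fintype.card N : ℂ) * ∑ g, f g := by
      rw [Finset.sum_congr rfl (fun n _ => e1 n), Finset.sum_const, Finset.card_univ,
        nsmul_eq_mul]
    have e3 : ∑ n : N, ∑ g, f ((n : G) * g) = 0 := by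
      rw [Finset.sum_comm]
      refine Finset.sum_eq_zero (fun g _ => ?_)
      by_cases hg : g ∈ I
      · refine Finset.sum_eq_zero (fun n _ => ?_)
        show (if _ then _ else _) = _
        rw [if_pos (I.mul_mem (hNI n.2) hg)]
      · have hng : ∀ n : N, (n : G) * g ∉ I := fun n h =>
          hg ((Subgroup.mul_mem_cancel_left I (hNI n.2)).1 h)
        have e4 : ∀ n : N, f ((n : G) * g) = extendByZero I θ (((n : G) * g) * ((n : G) * g)) := by
          intro n
          show (if _ then _ else _) = _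
          rw [if_neg (hng n)]
        simp only [e4]
        by_cases hg2 : g * g ∈ I
        · exact sum_coset_sq_eq_zero N I hNI hθ hres hreal g (hI g hg) hg2
        · refine Finset.sum_eq_zero (fun n _ => ?_)
          apply extendByZero_not_mem
          intro h
          apply hg2
          have : ((n : G) * g) * ((n : G) * g) = ((n : G) * (g * n * g⁻¹)) * (g * g) := by group
          rw [this] at h
          exact (Subgroup.mul_mem_cancel_left I
            (I.mul_mem (hNI n.2) (hNI (hN.conj_mem n n.2 g)))).1 h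
    rw [e3] at e2
    rcases mul_eq_zero.1 e2.symm with h | h
    · exact absurd h hNc
    · exact h
  have h2 : ∑ g, extendByZero I θ (g * g) = ∑ n : I, θ (n * n) := by
    rw [← sum_extendByZero I (fun n : I => θ (n * n)), ← add_zero (∑ y, extendByZero I _ y), ← hf0,
      ← Finset.sum_add_distrib]
    refine Finset.sum_congr rfl (fun g _ => ?_)
    show _ = _ + (if _ then _ else _)
    by_cases hg : g ∈ I
    · rw [if_pos hg, add_zero, extendByZero_mem I _ hg, extendByZero_mem I _ (I.mul_mem hg hg)]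
      rfl
    · rw [if_neg hg, extendByZero_not_mem I _ hg, zero_add]
  simp only [fsInd, indFun_apply]
  rw [← Finset.mul_sum, Finset.sum_comm, Finset.sum_congr rfl (fun x _ => h1 x), Finset.sum_const,
    Finset.card_univ, nsmul_eq_mul, h2, ← Nat.card_eq_fintype_card]
  field_simp

end Cfsg.Agent.Lib.Helper10.FSInd
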