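import Mathlib
import Cfsg.Agent.Lib.Helper10.FSInd

set_option autoImplicit false

namespace Cfsg.Agent.Lib.Helper10.FSInd2

open Cfsg Matrix
open Cfsg.Agent.Lib Cfsg.Agent.Lib.Helper25 Cfsg.Agent.Lib.Helper10.FSInd

universe u

/-- The sum of `θ((ng)²)` over a coset of `N` vanishes if `g` does not carry the irreducible
character `θ_N` to its dual. -/
theorem sum_coset_sq_eq_zero' {G : Type u} [Group G] [Finite G] (N I : Subgroup G) [hN : N.Normal]
    (hNI : N ≤ I) [Fintype N] {θ : I → ℂ} (hθ : IsCharacter I θ)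
    (hres : IsIrrCharacter N (fun n : N => θ ⟨n, hNI n.2⟩))
    (g : G) (hg : ∃ n : N, θ ⟨g * (n : G)⁻¹ * g⁻¹, hNI (hN.conj_mem _ (N.inv_mem n.2) g)⟩
      ≠ θ ⟨n, hNI n.2⟩)
    (hg2 : g * g ∈ I) :
    ∑ n : N, extendByZero I θ (((n : G) * g) * ((n : G) * g)) = 0 := by
  classical
  obtain ⟨d, ρ, rfl⟩ := hθ
  let σ : Representation ℂ N (Fin d → ℂ) := ρ.comp (Subgroup.inclusion hNI)
  have hσ : σ.character = fun n : N => ρ.character ⟨n, hNI n.2⟩ := rfl
  haveI hirr : σ.IsIrreducible := isIrreducible_of_isIrrCharacter σ (by rw [hσ]; exact hres)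
  let B : N → Matrix (Fin d) (Fin d) ℂ := fun n => mat ρ ⟨g * n * g⁻¹, hNI (hN.conj_mem n n.2 g)⟩
  have hB : ∀ a b, B (a * b) = B a * B b := by
    intro a b
    show mat ρ _ = mat ρ _ * mat ρ _
    rw [← mat_mul]
    congr 1
    apply Subtype.ext
    simp [mul_assoc]
  have hB1 : B 1 = 1 := by
    show mat ρ _ = 1
    rw [← mat_one ρ]
    congr 1
    apply Subtype.ext
    simp
  have hne : ∃ k, (B k⁻¹).trace ≠ σ.character k := by
    obtain ⟨n, hn⟩ := hg
    refine ⟨n, ?_⟩
    show (mat ρ _).trace ≠ ρ.character ⟨(n : G), _⟩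
    rw [trace_mat]
    exact hn
  have key := cross_orth σ B hB hB1 hne
  have hW : ∑ n : N, mat σ n * B n = 0 := by
    ext i l
    simp only [Matrix.sum_apply, Matrix.mul_apply, Matrix.zero_apply]
    rw [Finset.sum_comm]
    refine Finset.sum_eq_zero (fun j _ => ?_)
    rw [← key j i l j]
    exact Finset.sum_congr rfl (fun n _ => mul_comm _ _)
  have hterm : ∀ n : N, extendByZero I ρ.character (((n : G) * g) * ((n : G) * g))
      = ((mat σ n * B n) * mat ρ ⟨g * g, hg2⟩).trace := by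
    intro n
    have hmem : ((n : G) * g) * ((n : G) * g) ∈ I := by
      have : ((n : G) * g) * ((n : G) * g) = (n : G) * (g * n * g⁻¹) * (g * g) := by group
      rw [this]
      exact I.mul_mem (I.mul_mem (hNI n.2) (hNI (hN.conj_mem n n.2 g))) hg2
    rw [extendByZero_mem I _ hmem]
    have h2 : mat σ n = mat ρ ⟨n, hNI n.2⟩ := rfl
    show _ = ((mat σ n * mat ρ _) * mat ρ _).trace
    rw [h2, ← mat_mul, ← mat_mul, trace_mat]
    congr 1
    apply Subtype.ext
    show _ = (n : G) * (g * n * g⁻¹) * (g * g)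
    group
  simp only [hterm]
  rw [← Matrix.trace_sum, ← Finset.sum_mul, hW, Matrix.zero_mul, Matrix.trace_zero]

/-- The Frobenius–Schur indicator of a character induced from a linear character of the inertia
group of a linear character of `N` inverted by an involution `z`. -/
theorem fsInd_indFun_linear {G : Type u} [Group G] [Fintype G] (N I : Subgroup G)
    [hN : N.Normal] (hNI : N ≤ I) [Fintype N] [Fintype I] (F : I →* ℂˣ)
    (hI : ∀ g : G, g ∈ I ↔ ∀ n : N, F ⟨g * n * g⁻¹, hNI (hN.conj_mem n n.2 g)⟩ = F ⟨n, hNI n.2⟩)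
    (z : G) (hz2 : z * z = 1) (hz : ∀ n ∈ N, z * n * z⁻¹ = n⁻¹)
    (q c : ℕ) (hq : Odd q) (hFq : ∀ y, F y ^ q = 1) (hc : ∀ y ∈ I, y ^ 2 ^ c ∈ N) :
    fsInd (indFun I (fun x : I => (F x : ℂ))) = 1 := by
  classical
  set θ : I → ℂ := fun x : I => (F x : ℂ) with hθdef
  have hθ : IsCharacter I θ := Helper7.isCharacter_of_irr (Helper7.isIrrCharacter_of_hom F)
  have hres : IsIrrCharacter N (fun n : N => θ ⟨n, hNI n.2⟩) :=
    Helper7.isIrrCharacter_of_hom (F.comp (Subgroup.inclusion hNI))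
  have hG : (Nat.card G : ℂ) ≠ 0 := by exact_mod_cast Nat.card_pos.ne'
  have hIc : (Nat.card I : ℂ) ≠ 0 := by exact_mod_cast Nat.card_pos.ne'
  have hNc : (Fintype.card N : ℂ) ≠ 0 := by exact_mod_cast Fintype.card_pos.ne'
  have hzinv : z⁻¹ = z := inv_eq_of_mul_eq_one_left hz2
  have h1 : ∀ x : G, ∑ g, extendByZero I θ (x⁻¹ * (g * g) * x) = ∑ g, extendByZero I θ (g * g) := by
    intro x
    refine Fintype.sum_equiv (MulAut.conj x⁻¹).toEquiv _ _ (fun g => ?_)
    simp only [MulEquiv.toEquiv_eq_coe, MulEquiv.coe_toEquiv, MulAut.conj_apply, inv_inv]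
    congr 1
    group
  -- the part outside `zI`
  let f : G → ℂ := fun g => if z * g ∈ I then 0 else extendByZero I θ (g * g)
  have hcos : ∀ (n : N) (g : G), z * ((n : G) * g) ∈ I ↔ z * g ∈ I := by
    intro n g
    have : z * ((n : G) * g) = (z * n * z⁻¹) * (z * g) := by group
    rw [this]
    exact Subgroup.mul_mem_cancel_left I (hNI (hN.conj_mem n n.2 z))
  have hf0 : ∑ g, f g = 0 := by
    have e1 : ∀ n : N, ∑ g, f ((n : G) * g) = ∑ g, f g := fun n =>
      Fintype.sum_equiv (Equiv.mulLeft (n : G)) _ _ (fun g => rfl)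
    have e2 : ∑ n : N, ∑ g, f ((n : G) * g) = (Fintype.card N : ℂ) * ∑ g, f g := by
      rw [Finset.sum_congr rfl (fun n _ => e1 n), Finset.sum_const, Finset.card_univ,
        nsmul_eq_mul]
    have e3 : ∑ n : N, ∑ g, f ((n : G) * g) = 0 := by
      rw [Finset.sum_comm]
      refine Finset.sum_eq_zero (fun g _ => ?_)
      by_cases hg : z * g ∈ I
      · refine Finset.sum_eq_zero (fun n _ => ?_)
        show (if _ then _ else _) = _
        rw [if_pos ((hcos n g).2 hg)]
      · have e4 : ∀ n : N, f ((n : G) * g) = extendByZero I θ (((n : G) * g) * ((n : G) * g)) := by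
          intro n
          show (if _ then _ else _) = _
          rw [if_neg (fun h => hg ((hcos n g).1 h))]
        simp only [e4]
        by_cases hg2 : g * g ∈ I
        · refine sum_coset_sq_eq_zero' N I hNI hθ hres g ?_ hg2
          by_contra hcon
          push Not at hcon
          apply hg
          rw [hI]
          intro n
          have h2 := hcon n
          have h3 : F ⟨g * (n : G)⁻¹ * g⁻¹, hNI (hN.conj_mem _ (N.inv_mem n.2) g)⟩
              = F ⟨n, hNI n.2⟩ := Units.ext h2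
          rw [← h3]
          congr 1
          apply Subtype.ext
          show z * g * n * (z * g)⁻¹ = g * (n : G)⁻¹ * g⁻¹
          have h4 := hz (g * n * g⁻¹) (hN.conj_mem n n.2 g)
          calc z * g * n * (z * g)⁻¹ = z * (g * n * g⁻¹) * z⁻¹ := by group
            _ = (g * n * g⁻¹)⁻¹ := h4
            _ = g * (n : G)⁻¹ * g⁻¹ := by group
        · refine Finset.sum_eq_zero (fun n _ => ?_)
          apply extendByZero_not_mem
          intro h
          apply hg2
          have : ((n : G) * g) * ((n : G) * g) = ((n : G) * (g * n * g⁻¹)) * (g * g) := by group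
          rw [this] at h
          exact (Subgroup.mul_mem_cancel_left I
            (I.mul_mem (hNI n.2) (hNI (hN.conj_mem n n.2 g)))).1 h
    rw [e3] at e2
    rcases mul_eq_zero.1 e2.symm with h | h
    · exact absurd h hNc
    · exact h
  -- `z` normalizes `I`
  have hzI : ∀ y ∈ I, z * y * z⁻¹ ∈ I := by
    intro y hy
    rw [hI]
    intro n
    have h2 := (hI y).1 hy ⟨(n : G)⁻¹, N.inv_mem n.2⟩
    have h3 : (⟨z * y * z⁻¹ * n * (z * y * z⁻¹)⁻¹, hNI (hN.conj_mem n n.2 _)⟩ : I)
        = (⟨y * (n : G)⁻¹ * y⁻¹, hNI (hN.conj_mem _ (N.inv_mem n.2) y)⟩ : I)⁻¹ := by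
      apply Subtype.ext
      show z * y * z⁻¹ * n * (z * y * z⁻¹)⁻¹ = (y * (n : G)⁻¹ * y⁻¹)⁻¹
      have h4 := hz (y * (n : G)⁻¹ * y⁻¹) (hN.conj_mem _ (N.inv_mem n.2) y)
      have h5 : z⁻¹ * n * z = (n : G)⁻¹ := by
        have := hz n n.2
        rw [hzinv] at this ⊢
        exact this
      calc z * y * z⁻¹ * n * (z * y * z⁻¹)⁻¹ = z * (y * (z⁻¹ * n * z) * y⁻¹) * z⁻¹ := by group
        _ = z * (y * (n : G)⁻¹ * y⁻¹) * z⁻¹ := by rw [h5]
        _ = _ := h4
    rw [h3, map_inv, h2, ← map_inv]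
    congr 1
    apply Subtype.ext
    simp
  -- the values on `zI`
  have hval : ∀ y : I, extendByZero I θ ((z * y) * (z * y)) = 1 := by
    intro y
    have hmem : (z * y) * (z * y) ∈ I := by
      have : (z * (y : G)) * (z * y) = (z * y * z⁻¹) * y := by
        rw [hzinv]; group
      rw [this]
      exact I.mul_mem (hzI y y.2) y.2
    rw [extendByZero_mem I _ hmem]
    show ((F _ : ℂˣ) : ℂ) = 1
    have e0 : (⟨(z * y) * (z * y), hmem⟩ : I) = ⟨z * y * z⁻¹, hzI y y.2⟩ * y := by
      apply Subtype.ext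
      show (z * (y : G)) * (z * y) = (z * y * z⁻¹) * y
      rw [hzinv]; group
    rw [e0, map_mul]
    set w : ℂˣ := F ⟨z * y * z⁻¹, hzI y y.2⟩ * F y with hw
    have hw1 : w ^ q = 1 := by rw [hw, mul_pow, hFq, hFq, one_mul]
    have hw2 : w ^ 2 ^ c = 1 := by
      rw [hw, mul_pow, ← map_pow, ← map_pow, ← map_mul]
      have hm := hc y y.2
      have : (⟨z * y * z⁻¹, hzI y y.2⟩ : I) ^ 2 ^ c * y ^ 2 ^ c = 1 := by
        apply Subtype.ext
        show (z * (y : G) * z⁻¹) ^ 2 ^ c * (y : G) ^ 2 ^ c = 1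
        rw [conj_pow, hz _ hm, inv_mul_cancel]
      rw [this, map_one]
    have ho1 := orderOf_dvd_of_pow_eq_one hw1
    have ho2 := orderOf_dvd_of_pow_eq_one hw2
    have hcop : Nat.Coprime q (2 ^ c) := (Nat.Coprime.pow_left c hq.coprime_two_left).symm
    have ho : orderOf w = 1 := Nat.eq_one_of_dvd_coprimes hcop ho1 ho2
    rw [orderOf_eq_one_iff.1 ho, Units.val_one]
  have h2 : ∑ g, extendByZero I θ (g * g) = (Nat.card I : ℂ) := by
    have e1 : ∑ g, extendByZero I θ (g * g) = ∑ g, (if z * g ∈ I then (1 : ℂ) else 0) := by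
      have e0 : ∀ g, extendByZero I θ (g * g) = (if z * g ∈ I then (1 : ℂ) else 0) + f g := by
        intro g
        show _ = _ + (if _ then _ else _)
        by_cases hg : z * g ∈ I
        · rw [if_pos hg, if_pos hg, add_zero]
          have := hval ⟨z * g, hg⟩
          have e : z * (z * g) = g := by rw [← mul_assoc, hz2, one_mul]
          simp only [e] at this
          exact this
        · rw [if_neg hg, if_neg hg, zero_add]
      rw [Finset.sum_congr rfl (fun g _ => e0 g), Finset.sum_add_distrib, hf0, add_zero]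
    rw [e1]
    have e2 : ∑ g, (if z * g ∈ I then (1 : ℂ) else 0) = ∑ g, (if g ∈ I then (1 : ℂ) else 0) :=
      Fintype.sum_equiv (Equiv.mulLeft z) _ _ (fun g => rfl)
    rw [e2, Finset.sum_ite, Finset.sum_const_zero, add_zero, Finset.sum_const, nsmul_eq_mul,
      mul_one, Nat.card_eq_fintype_card, Fintype.card_subtype]
  simp only [fsInd, indFun_apply]
  rw [← Finset.mul_sum, Finset.sum_comm, Finset.sum_congr rfl (fun x _ => h1 x), Finset.sum_const,
    Finset.card_univ, nsmul_eq_mul, h2, ← Nat.card_eq_fintype_card]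
  field_simp

end Cfsg.Agent.Lib.Helper10.FSInd2
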