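import Mathlib

set_option autoImplicit false

namespace Cfsg.Agent.Lib.Helper10.FSInd3

universe u

/-- In `G = N ⋊ P` with `N` abelian the unique minimal normal subgroup and `P` a nontrivial
`2`-group, some involution of `P` inverts `N`. -/
theorem exists_inverting_involution {G : Type u} [Group G] [Finite G] (N P : Subgroup G)
    (hN : N.Normal) (hNc : ∀ a ∈ N, ∀ b ∈ N, a * b = b * a)
    (hP : IsPGroup 2 P) (hP1 : P ≠ ⊥) (hdisj : N ⊓ P = ⊥) (hprod : N ⊔ P = ⊤)
    (hmin : N ≠ ⊥ ∧ ∀ M : Subgroup G, M.Normal → M ≠ ⊥ → N ≤ M) :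
    ∃ z ∈ P, z ≠ 1 ∧ z * z = 1 ∧ ∀ n ∈ N, z * n * z⁻¹ = n⁻¹ := by
  classical
  haveI := hN
  haveI : Fact (Nat.Prime 2) := ⟨Nat.prime_two⟩
  haveI : Nontrivial P := (Subgroup.nontrivial_iff_ne_bot P).2 hP1
  haveI := hP.center_nontrivial
  have h2 : 2 ∣ Nat.card (Subgroup.center P) := by
    obtain ⟨k, hk⟩ := IsPGroup.iff_card.mp (hP.to_subgroup (Subgroup.center P))
    rw [hk]
    have hk0 : k ≠ 0 := by
      rintro rfl
      rw [pow_zero] at hk
      have := Finite.one_lt_card (α := Subgroup.center P)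
      omega
    exact dvd_pow_self 2 hk0
  obtain ⟨x, hx⟩ := exists_prime_orderOf_dvd_card' (G := Subgroup.center P) 2 h2
  set z : G := ((x : P) : G) with hz
  have hzP : z ∈ P := (x : P).2
  have hzo : orderOf z = 2 := by
    rw [hz, Subgroup.orderOf_coe, Subgroup.orderOf_coe, hx]
  have hz1 : z ≠ 1 := by
    intro h
    rw [h, orderOf_one] at hzo
    omega
  have hz2 : z * z = 1 := by
    rw [← pow_two, ← hzo, pow_orderOf_eq_one]
  have hzinv : z⁻¹ = z := inv_eq_of_mul_eq_one_left hz2
  have hzc : ∀ y ∈ P, z * y = y * z := by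
    intro y hy
    have := (Subgroup.mem_center_iff.1 x.2) ⟨y, hy⟩
    exact (congrArg Subtype.val this).symm
  have hdec : ∀ g : G, ∃ n ∈ N, ∃ y ∈ P, n * y = g := by
    intro g
    have hg : g ∈ ((N ⊔ P : Subgroup G) : Set G) := by rw [hprod]; trivial
    rw [Subgroup.normal_mul] at hg
    exact Set.mem_mul.1 hg
  set M : Subgroup G := N ⊓ Subgroup.centralizer {z} with hM
  have hMn : M.Normal := by
    refine ⟨fun m hm g => ?_⟩
    obtain ⟨n, hn, y, hy, rfl⟩ := hdec g
    have hmN : m ∈ N := hm.1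
    have hmz : z * m = m * z := (Subgroup.mem_centralizer_singleton_iff.1 hm.2).symm
    have h1 : y * m * y⁻¹ ∈ N := hN.conj_mem m hmN y
    have h3 : n * y * m * (n * y)⁻¹ = y * m * y⁻¹ := by
      calc n * y * m * (n * y)⁻¹ = (n * (y * m * y⁻¹)) * n⁻¹ := by group
        _ = ((y * m * y⁻¹) * n) * n⁻¹ := by rw [hNc n hn _ h1]
        _ = y * m * y⁻¹ := by group
    rw [h3]
    refine ⟨h1, Subgroup.mem_centralizer_singleton_iff.2 (Eq.symm ?_)⟩
    calc z * (y * m * y⁻¹) = (z * y) * m * y⁻¹ := by group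
      _ = y * (z * m) * y⁻¹ := by rw [hzc y hy]; group
      _ = y * m * (z * y⁻¹) := by rw [hmz]; group
      _ = y * m * y⁻¹ * z := by rw [hzc _ (P.inv_mem hy)]; group
  have hMbot : M = ⊥ := by
    by_contra hne
    have hNM := hmin.2 M hMn hne
    have hzcen : ∀ g : G, z * g = g * z := by
      intro g
      obtain ⟨n, hn, y, hy, rfl⟩ := hdec g
      have h1 : z * n = n * z := (Subgroup.mem_centralizer_singleton_iff.1 (hNM hn).2).symm
      calc z * (n * y) = (z * n) * y := by group
        _ = n * (z * y) := by rw [h1]; group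
        _ = n * y * z := by rw [hzc y hy]; group
    have hZn : (Subgroup.zpowers z).Normal := by
      refine ⟨fun a ha g => ?_⟩
      obtain ⟨k, rfl⟩ := Subgroup.mem_zpowers_iff.1 ha
      have hcomm : Commute (z ^ k) g := Commute.zpow_left (hzcen g) k
      have : g * z ^ k * g⁻¹ = z ^ k := by
        rw [← hcomm.eq, mul_inv_cancel_right]
      rw [this]
      exact ha
    have hZne : Subgroup.zpowers z ≠ ⊥ := by
      intro h
      exact hz1 (Subgroup.zpowers_eq_bot.1 h)
    have h4 := hmin.2 _ hZn hZne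
    have h5 : Subgroup.zpowers z ≤ P := by
      rw [Subgroup.zpowers_le]; exact hzP
    apply hmin.1
    rw [eq_bot_iff, ← hdisj]
    exact le_inf le_rfl (h4.trans h5)
  refine ⟨z, hzP, hz1, hz2, fun n hn => ?_⟩
  have h1 : z * n * z⁻¹ ∈ N := hN.conj_mem n hn z
  have ht : n * (z * n * z⁻¹) ∈ M := by
    refine ⟨N.mul_mem hn h1, Subgroup.mem_centralizer_singleton_iff.2 (Eq.symm ?_)⟩
    rw [hzinv]
    calc z * (n * (z * n * z)) = (z * n * z) * ((z * z) * n * z) := by
          rw [hz2]; group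
      _ = (z * n * z) * n * z := by rw [hz2]; group
      _ = n * (z * n * z) * z := by
          have := hNc n hn _ h1
          rw [hzinv] at this
          rw [this]
  rw [hMbot, Subgroup.mem_bot] at ht
  exact (eq_inv_of_mul_eq_one_right ht)

/-- The averaging inequality. -/
theorem avg_bound {ι : Type*} [Fintype ι] (d : ι → ℕ) (m : ℕ) (hm : 2 ≤ m)
    (hd : ∀ i, d i = 1 ∨ 2 ≤ d i)
    (hcount : (Finset.univ.filter (fun i => d i = 1)).card
      ≤ m * (Finset.univ.filter (fun i => d i = m)).card) :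
    4 * Fintype.card ι ≤ 3 * ∑ i, d i := by
  classical
  have key : ∀ i, 4 + (if d i = m then m else 0) ≤ 3 * d i + (if d i = 1 then 1 else 0) := by
    intro i
    by_cases h1 : d i = 1
    · have : d i ≠ m := by omega
      rw [if_neg this, if_pos h1, h1]
    · rw [if_neg h1]
      have h2 : 2 ≤ d i := (hd i).resolve_left h1
      by_cases h3 : d i = m
      · rw [if_pos h3]; omega
      · rw [if_neg h3]; omega
  have hsum := Finset.sum_le_sum (fun i (_ : i ∈ Finset.univ) => key i)
  rw [Finset.sum_add_distrib, Finset.sum_add_distrib, Finset.sum_const, Finset.card_univ,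
    smul_eq_mul, ← Finset.mul_sum, ← Finset.card_filter, ← Finset.sum_filter, Finset.sum_const,
    smul_eq_mul] at hsum
  have : (Finset.univ.filter (fun i => d i = m)).card * m
      = m * (Finset.univ.filter (fun i => d i = m)).card := mul_comm _ _
  omega

end Cfsg.Agent.Lib.Helper10.FSInd3
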