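import Cfsg.Agent.Lib.Helper7.CharColumn
import Cfsg.Agent.Lib.Helper25.Kernel2
import Cfsg.Agent.Lib.Helper2.CharInt
import Cfsg.Agent.Lib.Helper2.ZStar
import Cfsg.Prelude.Def_Transfer

set_option autoImplicit false
open Cfsg
open scoped ComplexConjugate

namespace Cfsg.Agent.Lib.Helper10.Gagola

open Cfsg.Agent.Lib.Helper7

universe u
variable {G : Type u} [Group G] [Finite G]

/-- `χ` is nonzero exactly on `1` and on the class of `x ≠ 1`. -/
structure TwoClass (χ : IrrCharacter G) (x : G) : Prop where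
  ne_one : x ≠ 1
  ne_zero : (χ : G → ℂ) x ≠ 0
  supp : ∀ g, (χ : G → ℂ) g ≠ 0 → g = 1 ∨ IsConj x g
  big : 2 < Nat.card G

theorem exists_twoClass (hG : 2 < Nat.card G) (χ : IrrCharacter G)
    (hχ : Nat.card {C : ConjClasses G // ∃ g ∈ C.carrier, (χ : G → ℂ) g ≠ 0} = 2) :
    ∃ x, TwoClass χ x := by
  have h1 : (χ : G → ℂ) 1 ≠ 0 := irr_apply_one_ne_zero χ.2
  let c1 : {C : ConjClasses G // ∃ g ∈ C.carrier, (χ : G → ℂ) g ≠ 0} :=
    ⟨ConjClasses.mk 1, 1, ConjClasses.mem_carrier_mk, h1⟩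
  obtain ⟨⟨C, g, hgC, hg⟩, hne, huniq⟩ := (Nat.card_eq_two_iff' c1).1 hχ
  rw [ConjClasses.mem_carrier_iff_mk_eq] at hgC
  refine ⟨g, ?_, hg, ?_, hG⟩
  · rintro rfl
    apply hne
    exact Subtype.ext hgC.symm
  · intro y hy
    by_cases hy1 : y = 1
    · left; exact hy1
    right
    have h2 := huniq ⟨ConjClasses.mk y, y, ConjClasses.mem_carrier_mk, hy⟩ (by
      intro h
      have h3 : ConjClasses.mk y = ConjClasses.mk 1 := congrArg Subtype.val h
      rw [ConjClasses.mk_eq_mk_iff_isConj] at h3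
      exact hy1 (isConj_one_left.1 h3))
    have h3 : ConjClasses.mk y = C := congrArg Subtype.val h2
    rw [← hgC, ConjClasses.mk_eq_mk_iff_isConj] at h3
    exact h3.symm

variable {χ : IrrCharacter G} {x : G}

theorem TwoClass.of_ne (h : TwoClass χ x) {y : G} (hy : (χ : G → ℂ) y ≠ 0) (hy1 : y ≠ 1) :
    TwoClass χ y := by
  have hxy : IsConj x y := (h.supp y hy).resolve_left hy1
  exact ⟨hy1, hy, fun g hg => (h.supp g hg).imp id (fun h2 => hxy.symm.trans h2), h.big⟩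

theorem TwoClass.sum_eq [Fintype G] (h : TwoClass χ x) {F : G → ℂ} (hF : IsClassFunction G F) :
    ∑ g, (χ : G → ℂ) g * F g = (χ : G → ℂ) 1 * F 1 +
      ((Subgroup.centralizer ({x} : Set G)).index : ℂ) * ((χ : G → ℂ) x * F x) := by
  classical
  have hcl : IsClassFunction G (fun g => (χ : G → ℂ) g * F g) := by
    intro g k
    show (χ : G → ℂ) (k * g * k⁻¹) * F (k * g * k⁻¹) = _
    rw [isClassFunction_irr χ g k, hF g k]
  rw [← sum_isConj_mul x hcl]
  have h1 : ∀ g, (χ : G → ℂ) g * F g = (if g = 1 then (χ : G → ℂ) 1 * F 1 else 0) +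
      (if IsConj x g then (1 : ℂ) else 0) * ((χ : G → ℂ) g * F g) := by
    intro g
    by_cases hg1 : g = 1
    · subst hg1
      rw [if_pos rfl, if_neg (fun hc => h.ne_one (isConj_one_left.1 hc))]
      ring
    · rw [if_neg hg1]
      by_cases hc : IsConj x g
      · rw [if_pos hc]; ring
      · rw [if_neg hc]
        have : (χ : G → ℂ) g = 0 := by
          by_contra h0
          exact (h.supp g h0).elim hg1 hc
        rw [this]; ring
  rw [Finset.sum_congr rfl (fun g _ => h1 g), Finset.sum_add_distrib, Finset.sum_ite_eq']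
  simp

theorem TwoClass.ne_trivial (h : TwoClass χ x) : (χ : G → ℂ) ≠ fun _ => 1 := by
  classical
  haveI := Fintype.ofFinite G
  intro h1
  have h2 := h.sum_eq (F := fun _ => 1) (fun _ _ => rfl)
  rw [h1] at h2
  simp only [mul_one, Finset.sum_const, Finset.card_univ, nsmul_eq_mul] at h2
  have h3 : Nat.card G = 1 + (Subgroup.centralizer ({x} : Set G)).index := by
    rw [Nat.card_eq_fintype_card]; exact_mod_cast h2
  have h4 : (Subgroup.centralizer ({x} : Set G)).index ∣ Nat.card G :=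
    Subgroup.index_dvd_card _
  rw [h3] at h4
  have h5 : (Subgroup.centralizer ({x} : Set G)).index ∣ 1 := (Nat.dvd_add_left (dvd_refl _)).1 h4
  have h6 := Nat.dvd_one.1 h5
  have := h.big
  omega

/-- The numerical shape. -/
theorem TwoClass.numerics (h : TwoClass χ x) : ∃ m : ℕ, 0 < m ∧
    (χ : G → ℂ) 1 = (m : ℂ) * ((Subgroup.centralizer ({x} : Set G)).index : ℂ) ∧
    (χ : G → ℂ) x = -(m : ℂ) ∧
    Nat.card G = m ^ 2 * (Subgroup.centralizer ({x} : Set G)).index *
      ((Subgroup.centralizer ({x} : Set G)).index + 1) ∧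
    Nat.card (Subgroup.centralizer ({x} : Set G)) =
      m ^ 2 * ((Subgroup.centralizer ({x} : Set G)).index + 1) := by
  classical
  haveI := Fintype.ofFinite G
  set s := (Subgroup.centralizer ({x} : Set G)).index with hs
  have hs0 : 0 < s := Nat.pos_of_ne_zero (Subgroup.index_ne_zero_of_finite)
  have hsC : (s : ℂ) ≠ 0 := by exact_mod_cast hs0.ne'
  obtain ⟨a, ha0, ha⟩ := irr_apply_one χ.2
  have hG0 : (Nat.card G : ℂ) ≠ 0 := by exact_mod_cast Nat.card_pos.ne'
  -- orthogonality with the trivial character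
  have e1 : (a : ℂ) + s * (χ : G → ℂ) x = 0 := by
    have h1 := classInner_irr_ne χ.2 (isIrrCharacter_one (G := G)) h.ne_trivial
    unfold classInner at h1
    have h2 := h.sum_eq (F := fun _ => conj (1 : ℂ)) (fun _ _ => rfl)
    rw [h2] at h1
    have h3 := (mul_eq_zero.1 h1).resolve_left (inv_ne_zero hG0)
    rw [ha] at h3
    simpa using h3
  have e2 : (a : ℂ) * a + s * ((χ : G → ℂ) x * conj ((χ : G → ℂ) x)) = Nat.card G := by
    have h1 := classInner_irr_self χ.2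
    unfold classInner at h1
    have hcl : IsClassFunction G (fun g => conj ((χ : G → ℂ) g)) := by
      intro g k
      show conj ((χ : G → ℂ) (k * g * k⁻¹)) = _
      rw [isClassFunction_irr χ g k]
    have h2 := h.sum_eq hcl
    rw [h2, ha] at h1
    have h3 : ((a : ℂ) * conj (a : ℂ) + s * ((χ : G → ℂ) x * conj ((χ : G → ℂ) x)))
        = Nat.card G := by
      field_simp at h1
      linear_combination h1
    simpa using h3
  have hc : (χ : G → ℂ) x = ((-(a : ℚ) / (s : ℚ) : ℚ) : ℂ) := by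
    push_cast
    field_simp
    linear_combination e1
  obtain ⟨k, hk⟩ := Cfsg.Agent.Lib.Helper2.exists_int_of_isIntegral_of_rat
    (char_isIntegral (isCharacter_of_irr χ.2) x) _ hc
  have e3 : (a : ℤ) + s * k = 0 := by
    have : ((a : ℤ) + s * k : ℂ) = 0 := by rw [← hk]; exact_mod_cast e1
    exact_mod_cast this
  have hk0 : k < 0 := by
    by_contra hk0
    push Not at hk0
    have : (0 : ℤ) ≤ s * k := by positivity
    have : (0 : ℤ) < a := by exact_mod_cast ha0
    omega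
  obtain ⟨m, hm⟩ : ∃ m : ℕ, k = -(m : ℤ) := ⟨k.natAbs, by omega⟩
  have hm0 : 0 < m := by omega
  have ham : a = m * s := by
    have : (a : ℤ) = m * s := by rw [hm] at e3; linarith
    exact_mod_cast this
  have hxm : (χ : G → ℂ) x = -(m : ℂ) := by rw [hk, hm]; push_cast; ring
  have hcard : Nat.card G = m ^ 2 * s * (s + 1) := by
    rw [hxm, ham] at e2
    have : ((m ^ 2 * s * (s + 1) : ℕ) : ℂ) = (Nat.card G : ℂ) := by
      rw [← e2]; push_cast; simp; ring
    exact_mod_cast this.symm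
  refine ⟨m, hm0, by rw [ha, ham]; push_cast; ring, hxm, hcard, ?_⟩
  have h5 := Subgroup.card_mul_index (Subgroup.centralizer ({x} : Set G))
  rw [← hs, hcard] at h5
  have : Nat.card (Subgroup.centralizer ({x} : Set G)) * s = (m ^ 2 * (s + 1)) * s := by
    rw [h5]; ring
  exact Nat.eq_of_mul_eq_mul_right hs0 this


theorem eq_of_re_eq_of_norm_le {z : ℂ} {r : ℝ} (h1 : z.re = r) (h2 : ‖z‖ ≤ r) : z = r := by
  have h3 : ‖z‖ ^ 2 = z.re ^ 2 + z.im ^ 2 := by
    rw [Complex.sq_norm, Complex.normSq_apply]; ring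
  have h0 : 0 ≤ ‖z‖ := norm_nonneg z
  have h4 : ‖z‖ ^ 2 ≤ r ^ 2 := by nlinarith
  have h5 : z.im ^ 2 ≤ 0 := by rw [h3, h1] at h4; linarith
  have h6 : z.im = 0 := by nlinarith [sq_nonneg z.im]
  apply Complex.ext
  · simpa using h1
  · simpa using h6

theorem TwoClass.ker_of_ne (h : TwoClass χ x) {ψ : IrrCharacter G} (hψ : ψ ≠ χ) :
    (ψ : G → ℂ) x = (ψ : G → ℂ) 1 := by
  classical
  haveI := Fintype.ofFinite G
  haveI : Fintype (IrrCharacter G) := Fintype.ofFinite _
  obtain ⟨m, hm0, h1, hx, hcard, -⟩ := h.numerics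
  set s := (Subgroup.centralizer ({x} : Set G)).index with hs
  have c1 := column_orthogonality_ne (G := G) (g := x) (h := 1)
    (fun hc => h.ne_one (isConj_one_left.1 hc))
  have c2 := sum_sq_degrees (G := G)
  have hsum : ∑ φ : IrrCharacter G, ((φ : G → ℂ) 1 * ((φ : G → ℂ) 1 - (φ : G → ℂ) x))
      = Nat.card G := by
    simp only [mul_sub, Finset.sum_sub_distrib]
    have e : ∑ φ : IrrCharacter G, (φ : G → ℂ) 1 * (φ : G → ℂ) x = 0 := by
      rw [← c1]
      apply Finset.sum_congr rfl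
      intro φ _
      rw [conj_irr_one]; ring
    rw [e, sub_zero, ← c2]
    apply Finset.sum_congr rfl
    intro φ _
    ring
  have hre : ∀ φ : IrrCharacter G, ∃ n : ℕ, 0 < n ∧ (φ : G → ℂ) 1 = n ∧
      ((φ : G → ℂ) 1 * ((φ : G → ℂ) 1 - (φ : G → ℂ) x)).re = n * (n - ((φ : G → ℂ) x).re) ∧
      ‖(φ : G → ℂ) x‖ ≤ n := by
    intro φ
    obtain ⟨n, hn0, hn⟩ := irr_apply_one φ.2
    refine ⟨n, hn0, hn, ?_, ?_⟩
    · rw [hn]; simp
    · have := char_norm_le (isCharacter_of_irr φ.2) x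
      rw [hn] at this
      simpa using this
  have hnonneg : ∀ φ : IrrCharacter G,
      0 ≤ ((φ : G → ℂ) 1 * ((φ : G → ℂ) 1 - (φ : G → ℂ) x)).re := by
    intro φ
    obtain ⟨n, hn0, -, h2, h3⟩ := hre φ
    rw [h2]
    have h4 : ((φ : G → ℂ) x).re ≤ n := le_trans (Complex.re_le_norm _) h3
    have : (0 : ℝ) ≤ n := by positivity
    nlinarith
  have hsumre : ∑ φ : IrrCharacter G,
      ((φ : G → ℂ) 1 * ((φ : G → ℂ) 1 - (φ : G → ℂ) x)).re = Nat.card G := by
    have := congrArg Complex.re hsum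
    rw [Complex.re_sum] at this
    simpa using this
  have hχt : ((χ : G → ℂ) 1 * ((χ : G → ℂ) 1 - (χ : G → ℂ) x)).re = Nat.card G := by
    rw [h1, hx, hcard]
    have : ((m : ℂ) * (s : ℂ) * ((m : ℂ) * (s : ℂ) - -(m : ℂ)))
        = ((m ^ 2 * s * (s + 1) : ℕ) : ℂ) := by push_cast; ring
    rw [this, Complex.natCast_re]
  rw [← Finset.add_sum_erase _ _ (Finset.mem_univ χ), hχt] at hsumre
  have h0 : ∑ φ ∈ Finset.univ.erase χ,
      ((φ : G → ℂ) 1 * ((φ : G → ℂ) 1 - (φ : G → ℂ) x)).re = 0 := by linarith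
  have h2 := (Finset.sum_eq_zero_iff_of_nonneg (fun φ _ => hnonneg φ)).1 h0 ψ
    (Finset.mem_erase.2 ⟨hψ, Finset.mem_univ _⟩)
  obtain ⟨n, hn0, hn, h3, h4⟩ := hre ψ
  rw [h3] at h2
  have hn' : (n : ℝ) ≠ 0 := by exact_mod_cast hn0.ne'
  have h5 : ((ψ : G → ℂ) x).re = n := by
    have := (mul_eq_zero.1 h2).resolve_left hn'
    linarith
  rw [hn, eq_of_re_eq_of_norm_le h5 h4]
  simp

theorem TwoClass.ker_of_ne' (h : TwoClass χ x) {ψ : IrrCharacter G} (hψ : ψ ≠ χ) {n : G}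
    (hn : (χ : G → ℂ) n ≠ 0) : (ψ : G → ℂ) n = (ψ : G → ℂ) 1 := by
  rcases h.supp n hn with rfl | hc
  · rfl
  · rw [← classFunction_eq_of_isConj (isClassFunction_irr ψ) hc]
    exact h.ker_of_ne hψ

theorem TwoClass.ne_zero_of_ker (h : TwoClass χ x) {g : G}
    (hg : ∀ ψ : IrrCharacter G, ψ ≠ χ → (ψ : G → ℂ) g = (ψ : G → ℂ) 1) : (χ : G → ℂ) g ≠ 0 := by
  classical
  haveI := Fintype.ofFinite G
  haveI : Fintype (IrrCharacter G) := Fintype.ofFinite _
  intro h0
  have hg1 : g ≠ 1 := by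
    rintro rfl
    exact irr_apply_one_ne_zero χ.2 h0
  have c1 := column_orthogonality_ne (G := G) (g := g) (h := 1)
    (fun hc => hg1 (isConj_one_left.1 hc))
  have c2 := congrArg Complex.re c1
  rw [Complex.re_sum] at c2
  have hnn : ∀ φ : IrrCharacter G, 0 ≤ ((φ : G → ℂ) g * conj ((φ : G → ℂ) 1)).re := by
    intro φ
    by_cases hφ : φ = χ
    · rw [hφ, h0]; simp
    · rw [hg φ hφ]
      obtain ⟨n, -, hn⟩ := irr_apply_one φ.2
      rw [hn]
      simp
      positivity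
  have h2 := (Finset.sum_eq_zero_iff_of_nonneg (fun φ _ => hnn φ)).1 c2
    ⟨fun _ => 1, isIrrCharacter_one⟩ (Finset.mem_univ _)
  simp at h2

theorem TwoClass.ne_zero_iff (h : TwoClass χ x) (g : G) : (χ : G → ℂ) g ≠ 0 ↔
    ∀ ψ : IrrCharacter G, ψ ≠ χ → (ψ : G → ℂ) g = (ψ : G → ℂ) 1 :=
  ⟨fun hg _ hψ => h.ker_of_ne' hψ hg, h.ne_zero_of_ker⟩

/-- the support is a normal subgroup -/
theorem TwoClass.exists_subgroup (h : TwoClass χ x) :
    ∃ N : Subgroup G, N.Normal ∧ ∀ g, g ∈ N ↔ (χ : G → ℂ) g ≠ 0 := by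
  refine ⟨{ carrier := {g | (χ : G → ℂ) g ≠ 0}
            one_mem' := irr_apply_one_ne_zero χ.2
            mul_mem' := ?_
            inv_mem' := ?_ }, ⟨?_⟩, fun g => Iff.rfl⟩
  · intro a b ha hb
    simp only [Set.mem_setOf_eq] at ha hb ⊢
    rw [h.ne_zero_iff] at ha hb ⊢
    intro ψ hψ
    rw [Cfsg.Agent.Lib.Helper25.char_mul_of_mem_ker (isCharacter_of_irr ψ.2) (ha ψ hψ) b]
    exact hb ψ hψ
  · intro a ha
    simp only [Set.mem_setOf_eq] at ha ⊢
    rw [h.ne_zero_iff] at ha ⊢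
    intro ψ hψ
    have := Cfsg.Agent.Lib.Helper25.char_mul_of_mem_ker (isCharacter_of_irr ψ.2) (ha ψ hψ) a⁻¹
    rw [mul_inv_cancel] at this
    exact this.symm
  · intro n hn g
    show (χ : G → ℂ) (g * n * g⁻¹) ≠ 0
    rw [isClassFunction_irr χ n g]
    exact hn

/-- Camina property. -/
theorem TwoClass.camina (h : TwoClass χ x) {y n : G} (hy : (χ : G → ℂ) y = 0)
    (hn : (χ : G → ℂ) n ≠ 0) : IsConj (y * n) y := by
  classical
  haveI := Fintype.ofFinite G
  haveI : Fintype (IrrCharacter G) := Fintype.ofFinite _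
  by_contra hc
  have c1 := column_orthogonality_ne (G := G) hc
  have c2 := column_orthogonality_self (G := G) y
  have e : ∑ φ : IrrCharacter G, (φ : G → ℂ) (y * n) * conj ((φ : G → ℂ) y)
      = ∑ φ : IrrCharacter G, (φ : G → ℂ) y * conj ((φ : G → ℂ) y) := by
    apply Finset.sum_congr rfl
    intro φ _
    by_cases hφ : φ = χ
    · rw [hφ, hy]; simp
    · rw [Cfsg.Agent.Lib.Helper25.char_mul_of_mem_ker' (isCharacter_of_irr φ.2)
        (h.ker_of_ne' hφ hn) y]
  rw [e, c2] at c1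
  have : (Nat.card (Subgroup.centralizer ({y} : Set G)) : ℂ) ≠ 0 := by
    exact_mod_cast Nat.card_pos.ne'
  exact this c1


theorem TwoClass.faithful (h : TwoClass χ x) {g : G} (hg : (χ : G → ℂ) g = (χ : G → ℂ) 1) :
    g = 1 := by
  by_contra hg1
  have h0 : (χ : G → ℂ) g ≠ 0 := by rw [hg]; exact irr_apply_one_ne_zero χ.2
  have hc := (h.supp g h0).resolve_left hg1
  obtain ⟨m, hm0, h1, hx, -, -⟩ := h.numerics
  rw [← classFunction_eq_of_isConj (isClassFunction_irr χ) hc, hx, h1] at hg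
  have : ((m * (Subgroup.centralizer ({x} : Set G)).index + m : ℕ) : ℂ) = 0 := by
    push_cast; linear_combination -hg
  have h2 : m * (Subgroup.centralizer ({x} : Set G)).index + m = 0 := by exact_mod_cast this
  omega

theorem TwoClass.eq_of_faithful (h : TwoClass χ x) {ψ : IrrCharacter G}
    (hψ : ∀ g : G, (ψ : G → ℂ) g = (ψ : G → ℂ) 1 → g = 1) : ψ = χ := by
  by_contra hne
  exact h.ne_one (hψ x (h.ker_of_ne hne))

section sub
variable {N : Subgroup G}

theorem TwoClass.mem (h : TwoClass χ x) (hN : ∀ g : G, g ∈ N ↔ (χ : G → ℂ) g ≠ 0) : x ∈ N :=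
  (hN x).2 h.ne_zero

theorem TwoClass.isConj_of_mem (h : TwoClass χ x) (hN : ∀ g : G, g ∈ N ↔ (χ : G → ℂ) g ≠ 0)
    {a b : G} (ha : a ∈ N) (hb : b ∈ N) (ha1 : a ≠ 1) (hb1 : b ≠ 1) : IsConj a b :=
  ((h.supp a ((hN a).1 ha)).resolve_left ha1).symm.trans
    ((h.supp b ((hN b).1 hb)).resolve_left hb1)

theorem TwoClass.card_N (h : TwoClass χ x) (hN : ∀ g : G, g ∈ N ↔ (χ : G → ℂ) g ≠ 0) :
    Nat.card N = (Subgroup.centralizer ({x} : Set G)).index + 1 := by
  classical
  haveI := Fintype.ofFinite G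
  rw [← card_filter_isConj x, Nat.card_eq_fintype_card, Fintype.card_subtype]
  have : (Finset.univ.filter (fun g => g ∈ N)) = insert 1 (Finset.univ.filter (IsConj x)) := by
    ext g
    simp only [Finset.mem_filter, Finset.mem_univ, true_and, Finset.mem_insert]
    constructor
    · intro hg
      exact h.supp g ((hN g).1 hg)
    · rintro (rfl | hc)
      · exact N.one_mem
      · rw [hN, ← classFunction_eq_of_isConj (isClassFunction_irr χ) hc]
        exact h.ne_zero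
  rw [this, Finset.card_insert_of_notMem]
  simp only [Finset.mem_filter, Finset.mem_univ, true_and]
  exact fun hc => h.ne_one (isConj_one_left.1 hc)

theorem TwoClass.le_of_normal (h : TwoClass χ x) (hN : ∀ g : G, g ∈ N ↔ (χ : G → ℂ) g ≠ 0)
    (K : Subgroup G) [hK : K.Normal] (hK1 : K ≠ ⊥) : N ≤ K := by
  classical
  haveI := Fintype.ofFinite G
  by_cases hex : ∃ k ∈ K, k ≠ 1 ∧ (χ : G → ℂ) k ≠ 0
  · obtain ⟨k, hk, hk1, hk0⟩ := hex
    intro n hn
    by_cases hn1 : n = 1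
    · rw [hn1]; exact K.one_mem
    obtain ⟨c, hc⟩ := isConj_iff.1 (h.isConj_of_mem hN ((hN k).2 hk0) hn hk1 hn1)
    rw [← hc]
    exact hK.conj_mem k hk c
  · exfalso
    push Not at hex
    have h1 := Cfsg.Agent.Lib.Helper25.avg_normal K χ.2 1
    have h2 : ∑ n : K, (χ : G → ℂ) ((n : G) * 1) = (χ : G → ℂ) 1 := by
      rw [Finset.sum_eq_single (1 : K)]
      · simp
      · intro b _ hb
        rw [mul_one]
        exact hex b b.2 (fun hb1 => hb (Subtype.ext hb1))
      · intro hh; exact absurd (Finset.mem_univ _) hh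
    rw [h2] at h1
    have hKc : (Nat.card K : ℂ) ≠ 0 := by exact_mod_cast Nat.card_pos.ne'
    split_ifs at h1 with hker
    · apply hK1
      rw [eq_bot_iff]
      intro k hk
      rw [Subgroup.mem_bot]
      exact h.faithful (hker k hk)
    · exact (mul_ne_zero (inv_ne_zero hKc) (irr_apply_one_ne_zero χ.2)) h1

end sub

omit [Finite G] in
theorem orderOf_eq_of_isConj {a b : G} (h : IsConj a b) : orderOf a = orderOf b := by
  obtain ⟨c, rfl⟩ := isConj_iff.1 h
  exact ((MulAut.conj c).orderOf_eq a).symm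

/-- a normal subgroup whose nonidentity elements are all conjugate is elementary abelian -/
theorem elemAb_of_conj (N : Subgroup G) [hNn : N.Normal] (hN1 : N ≠ ⊥)
    (hconj : ∀ a ∈ N, ∀ b ∈ N, a ≠ 1 → b ≠ 1 → IsConj a b) :
    ∃ p : ℕ, p.Prime ∧ IsElementaryAbelian p N := by
  have hcard : Nat.card N ≠ 1 := by
    intro hc
    exact hN1 (Subgroup.card_eq_one.1 hc)
  set p := (Nat.card N).minFac with hp
  have hpp : p.Prime := Nat.minFac_prime hcard
  haveI : Fact p.Prime := ⟨hpp⟩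
  obtain ⟨z, hz⟩ := exists_prime_orderOf_dvd_card' p (Nat.minFac_dvd (Nat.card N))
  have hz1 : (z : G) ≠ 1 := by
    intro h1
    have : z = 1 := Subtype.ext h1
    rw [this, orderOf_one] at hz
    exact hpp.one_lt.ne hz
  have hzo : orderOf (z : G) = p := by rw [Subgroup.orderOf_coe]; exact hz
  have hexp : ∀ a ∈ N, a ^ p = 1 := by
    intro a ha
    by_cases ha1 : a = 1
    · rw [ha1, one_pow]
    · rw [← hzo, orderOf_eq_of_isConj (hconj z z.2 a ha hz1 ha1)]
      exact pow_orderOf_eq_one a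
  have hpg : IsPGroup p N := by
    intro a
    refine ⟨1, ?_⟩
    rw [pow_one]
    exact Subtype.ext (hexp a a.2)
  haveI : Nontrivial N := (Subgroup.nontrivial_iff_ne_bot N).2 hN1
  haveI := hpg.center_nontrivial
  obtain ⟨c, hc⟩ := exists_ne (1 : Subgroup.center N)
  have hc1 : ((c : N) : G) ≠ 1 := by
    intro h1
    apply hc
    exact Subtype.ext (Subtype.ext h1)
  have hcomm : ∀ b ∈ N, b * ((c : N) : G) = ((c : N) : G) * b := by
    intro b hb
    have := Subgroup.mem_center_iff.1 c.2 ⟨b, hb⟩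
    exact congrArg Subtype.val this
  refine ⟨p, hpp, ⟨⟨fun a b => ?_⟩⟩, hexp⟩
  by_cases ha1 : (a : G) = 1
  · have : a = 1 := Subtype.ext ha1
    rw [this]; simp
  obtain ⟨g, hg⟩ := isConj_iff.1 (hconj _ (c : N).2 a a.2 hc1 ha1)
  apply Subtype.ext
  show (a : G) * (b : G) = (b : G) * (a : G)
  have hb' : g⁻¹ * (b : G) * g ∈ N := by
    have := hNn.conj_mem b b.2 g⁻¹
    simpa using this
  have h2 := hcomm _ hb'
  rw [← hg]
  calc g * ((c : N) : G) * g⁻¹ * (b : G) = g * (((c : N) : G) * (g⁻¹ * (b : G) * g)) * g⁻¹ := by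
        group
    _ = g * ((g⁻¹ * (b : G) * g) * ((c : N) : G)) * g⁻¹ := by rw [h2]
    _ = (b : G) * (g * ((c : N) : G) * g⁻¹) := by group

section sub2
variable {N : Subgroup G} {p : ℕ} [Fact p.Prime]

theorem TwoClass.elemAb (h : TwoClass χ x) [N.Normal]
    (hN : ∀ g : G, g ∈ N ↔ (χ : G → ℂ) g ≠ 0) (hNp : IsPGroup p N) :
    IsElementaryAbelian p N := by
  have hN1 : N ≠ ⊥ := by
    intro hb
    have := h.mem hN
    rw [hb, Subgroup.mem_bot] at this
    exact h.ne_one this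
  obtain ⟨q, hq, hab, hexp⟩ := elemAb_of_conj N hN1
    (fun a ha b hb ha1 hb1 => h.isConj_of_mem hN ha hb ha1 hb1)
  obtain ⟨k, hk⟩ := hNp ⟨x, h.mem hN⟩
  have hk' : x ^ p ^ k = 1 := congrArg Subtype.val hk
  have h1 : orderOf x ∣ q := orderOf_dvd_of_pow_eq_one (hexp x (h.mem hN))
  have h2 : orderOf x = q := by
    rcases (Nat.dvd_prime hq).1 h1 with h3 | h3
    · exact absurd (orderOf_eq_one_iff.1 h3) h.ne_one
    · exact h3
  have h3 : q ∣ p ^ k := by rw [← h2]; exact orderOf_dvd_of_pow_eq_one hk'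
  have h4 : q = p := (Nat.prime_dvd_prime_iff_eq hq (Fact.out)).1 (hq.dvd_of_dvd_pow h3)
  rw [← h4]
  exact ⟨hab, hexp⟩

theorem TwoClass.orderOf_eq (h : TwoClass χ x) [N.Normal]
    (hN : ∀ g : G, g ∈ N ↔ (χ : G → ℂ) g ≠ 0) (hNp : IsPGroup p N) : orderOf x = p := by
  have h1 : orderOf x ∣ p := orderOf_dvd_of_pow_eq_one ((h.elemAb hN hNp).2 x (h.mem hN))
  rcases (Nat.dvd_prime (Fact.out : p.Prime)).1 h1 with h3 | h3
  · exact absurd (orderOf_eq_one_iff.1 h3) h.ne_one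
  · exact h3

/-- elements of order prime to `p` commuting with `x` are trivial -/
theorem TwoClass.eq_one_of_commute (h : TwoClass χ x) [N.Normal]
    (hN : ∀ g : G, g ∈ N ↔ (χ : G → ℂ) g ≠ 0) (hNp : IsPGroup p N) {w : G}
    (hw : ¬ p ∣ orderOf w) (hc : Commute w x) : w = 1 := by
  have hp : p.Prime := Fact.out
  by_contra hw1
  have hcop : (orderOf w).Coprime (orderOf x) := by
    rw [h.orderOf_eq hN hNp]
    exact ((Nat.Prime.coprime_iff_not_dvd hp).2 hw).symm
  have h0 : (χ : G → ℂ) w = 0 := by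
    by_contra h0
    have hwN : w ∈ N := (hN w).2 h0
    have h1 : orderOf w ∣ p := orderOf_dvd_of_pow_eq_one ((h.elemAb hN hNp).2 w hwN)
    rcases (Nat.dvd_prime hp).1 h1 with h3 | h3
    · exact hw1 (orderOf_eq_one_iff.1 h3)
    · exact hw (by rw [h3])
  have h1 := orderOf_eq_of_isConj (h.camina h0 h.ne_zero)
  rw [hc.orderOf_mul_eq_mul_orderOf_of_coprime hcop, h.orderOf_eq hN hNp] at h1
  have hpos : 0 < orderOf w := orderOf_pos w
  have : orderOf w * p = orderOf w * 1 := by rw [h1, mul_one]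
  have := Nat.eq_of_mul_eq_mul_left hpos this
  exact hp.one_lt.ne' this

theorem TwoClass.isPGroup_centralizer (h : TwoClass χ x) [N.Normal]
    (hN : ∀ g : G, g ∈ N ↔ (χ : G → ℂ) g ≠ 0) (hNp : IsPGroup p N) :
    IsPGroup p (Subgroup.centralizer ({x} : Set G)) := by
  have hp : p.Prime := Fact.out
  rintro ⟨u, hu⟩
  obtain ⟨k, r, hr, hkr⟩ := Nat.exists_eq_pow_mul_and_not_dvd (orderOf_pos u).ne' p hp.ne_one
  refine ⟨k, Subtype.ext ?_⟩
  show u ^ p ^ k = 1
  apply h.eq_one_of_commute hN hNp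
  · rw [orderOf_pow' u (pow_ne_zero k hp.ne_zero), hkr, Nat.gcd_eq_right (dvd_mul_right _ _),
      Nat.mul_div_cancel_left _ (pow_pos hp.pos k)]
    exact hr
  · have : Commute u x := (Subgroup.mem_centralizer_singleton_iff.1 hu)
    exact this.pow_left _

theorem TwoClass.not_dvd_index (h : TwoClass χ x) [N.Normal]
    (hN : ∀ g : G, g ∈ N ↔ (χ : G → ℂ) g ≠ 0) (hNp : IsPGroup p N) :
    ¬ p ∣ (Subgroup.centralizer ({x} : Set G)).index := by
  have hp : p.Prime := Fact.out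
  intro hd
  have h1 : p ∣ Nat.card N := by
    rw [← h.orderOf_eq hN hNp]
    have := orderOf_dvd_natCard (⟨x, h.mem hN⟩ : N)
    rwa [Subgroup.orderOf_mk] at this
  rw [h.card_N hN] at h1
  have := (Nat.dvd_add_right hd).1 h1
  exact hp.one_lt.ne' (Nat.dvd_one.1 this)

end sub2

end Cfsg.Agent.Lib.Helper10.Gagola
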