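import Cfsg.Agent.Lib.Helper10.Gagola
import Cfsg.Agent.Lib.Helper25.Monomial

set_option autoImplicit false
set_option linter.unusedSectionVars false
open Cfsg
open scoped ComplexConjugate

namespace Cfsg.Agent.Lib.Helper10.Gagola

open Cfsg.Agent.Lib.Helper7

universe u
variable {G : Type u} [Group G] [Finite G] {χ : IrrCharacter G} {x : G}

/-- the inertia group of a nontrivial character of `N` has the order of `C_G(x)` -/
theorem TwoClass.card_inertia (h : TwoClass χ x) {N : Subgroup G} [hNn : N.Normal]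
    (hN : ∀ g : G, g ∈ N ↔ (χ : G → ℂ) g ≠ 0) [IsMulCommutative N]
    (μ : IrrCharacter N) (hμ : (μ : N → ℂ) ≠ fun _ => 1) :
    Nat.card (Cfsg.Agent.Lib.Helper25.inertia N (μ : N → ℂ)) =
      Nat.card (Subgroup.centralizer ({x} : Set G)) := by
  classical
  haveI := Fintype.ofFinite G
  haveI : Fintype (IrrCharacter G) := Fintype.ofFinite _
  obtain ⟨m, hm0, h1, hx, hcard, hcent⟩ := h.numerics
  set s := (Subgroup.centralizer ({x} : Set G)).index with hs
  have hNcard : Nat.card N = s + 1 := h.card_N hN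
  have hNc : (Nat.card N : ℂ) ≠ 0 := by exact_mod_cast Nat.card_pos.ne'
  have hμ1 : (μ : N → ℂ) 1 = 1 := irr_apply_one_of_comm μ.2
  have hμsum : ∑ n : N, (μ : N → ℂ) n = 0 := by
    have h2 := classInner_irr_ne μ.2 (isIrrCharacter_one (G := N)) hμ
    unfold classInner at h2
    have h3 := (mul_eq_zero.1 h2).resolve_left (inv_ne_zero hNc)
    simpa using h3
  have hA : classInner (μ : N → ℂ) (fun n : N => (χ : G → ℂ) n) = m := by
    unfold classInner
    have e : ∀ n : N, (μ : N → ℂ) n * conj ((χ : G → ℂ) n)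
        = -(m : ℂ) * (μ : N → ℂ) n + (if n = 1 then (m : ℂ) * (s + 1) else 0) := by
      intro n
      by_cases hn : n = 1
      · subst hn
        rw [if_pos rfl, hμ1, Subgroup.coe_one, h1]
        simp
        ring
      · rw [if_neg hn]
        have hn1 : (n : G) ≠ 1 := fun hh => hn (Subtype.ext hh)
        have hc := (h.supp n ((hN n).1 n.2)).resolve_left hn1
        rw [← classFunction_eq_of_isConj (isClassFunction_irr χ) hc, hx]
        simp
        ring
    rw [Finset.sum_congr rfl (fun n _ => e n), Finset.sum_add_distrib, ← Finset.mul_sum, hμsum,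
      Finset.sum_ite_eq']
    simp only [Finset.mem_univ, if_true, mul_zero, zero_add]
    rw [hNcard]
    push_cast
    have : ((s : ℂ) + 1) ≠ 0 := by exact_mod_cast (Nat.succ_ne_zero s)
    field_simp
  have hB : ∀ ψ : IrrCharacter G, ψ ≠ χ →
      classInner (μ : N → ℂ) (fun n : N => (ψ : G → ℂ) n) = 0 := by
    intro ψ hψ
    unfold classInner
    have e : ∀ n : N, (μ : N → ℂ) n * conj ((ψ : G → ℂ) n)
        = (μ : N → ℂ) n * conj ((ψ : G → ℂ) 1) := by
      intro n
      rw [h.ker_of_ne' hψ ((hN n).1 n.2)]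
    rw [Finset.sum_congr rfl (fun n _ => e n), ← Finset.sum_mul, hμsum]
    simp
  have hnorm : classInner (indFun N (μ : N → ℂ))
      (indFun N (μ : N → ℂ)) = (m : ℂ) * m := by
    rw [classInner_eq_sum (Cfsg.Agent.Lib.Helper25.indFun_isClassFunction N _),
      Finset.sum_eq_single χ]
    · rw [Cfsg.Agent.Lib.Helper25.frobenius_reciprocity N _ _ (isClassFunction_irr χ), hA]
      simp
    · intro ψ _ hψ
      rw [Cfsg.Agent.Lib.Helper25.frobenius_reciprocity N _ _ (isClassFunction_irr ψ), hB ψ hψ]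
      simp
    · intro hh; exact absurd (Finset.mem_univ _) hh
  have h5 := Cfsg.Agent.Lib.Helper25.card_mul_classInner_indFun_self N μ.2
  rw [hnorm, hNcard] at h5
  have h6 : Nat.card (Cfsg.Agent.Lib.Helper25.inertia N (μ : N → ℂ)) =
      Nat.card {g : G // ∀ k : N, (μ : N → ℂ) ⟨g * k * g⁻¹, hNn.conj_mem k k.2 g⟩
        = (μ : N → ℂ) k} :=
    Nat.card_congr (Equiv.subtypeEquivRight
      (fun g => Cfsg.Agent.Lib.Helper25.mem_inertia N (μ : N → ℂ) g))
  rw [h6, hcent]
  have : ((Nat.card {g : G // ∀ k : N, (μ : N → ℂ) ⟨g * k * g⁻¹, hNn.conj_mem k k.2 g⟩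
        = (μ : N → ℂ) k} : ℕ) : ℂ) = ((m ^ 2 * (s + 1) : ℕ) : ℂ) := by
    rw [← h5]; push_cast; ring
  exact_mod_cast this

end Cfsg.Agent.Lib.Helper10.Gagola
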