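import Cfsg.Agent.Lib.Helper10.Gagola

set_option autoImplicit false
set_option linter.unusedSectionVars false
open Cfsg
open scoped ComplexConjugate commutatorElement

namespace Cfsg.Agent.Lib.Helper10.Gagola

open Cfsg.Agent.Lib.Helper7

universe u
variable {G : Type u} [Group G] [Finite G] {χ : IrrCharacter G} {x : G}

/-- centralizer orders outside `N` are those of `G/N` -/
theorem TwoClass.card_centralizer_quot (h : TwoClass χ x) {N : Subgroup G} [hNn : N.Normal]
    (hN : ∀ g : G, g ∈ N ↔ (χ : G → ℂ) g ≠ 0) {y : G} (hy : y ∉ N) :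
    Nat.card (Subgroup.centralizer ({y} : Set G)) =
      Nat.card (Subgroup.centralizer ({(y : G ⧸ N)} : Set (G ⧸ N))) := by
  have hy0 : (χ : G → ℂ) y = 0 := by
    by_contra h0
    exact hy ((hN y).2 h0)
  have hset : {g : G | IsConj y g} = (QuotientGroup.mk : G → G ⧸ N) ⁻¹'
      {g : G ⧸ N | IsConj (y : G ⧸ N) g} := by
    ext g
    simp only [Set.mem_ofPred_eq, Set.mem_preimage]
    constructor
    · intro hc
      exact (QuotientGroup.mk' N).map_isConj hc
    · intro hc
      obtain ⟨c, hc⟩ := isConj_iff.1 hc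
      obtain ⟨z, rfl⟩ := QuotientGroup.mk_surjective c
      have h1 : ((z * y * z⁻¹ : G) : G ⧸ N) = (g : G ⧸ N) := by
        rw [← hc]; simp
      have h2 : (z * y * z⁻¹)⁻¹ * g ∈ N := QuotientGroup.eq.1 h1
      have h3 : (χ : G → ℂ) (z * y * z⁻¹) = 0 := by rw [isClassFunction_irr χ y z]; exact hy0
      have h4 := h.camina h3 ((hN _).1 h2)
      rw [mul_inv_cancel_left] at h4
      exact (isConj_iff.2 ⟨z, rfl⟩ : IsConj y (z * y * z⁻¹)).trans h4.symm
  have h1 := Cfsg.Agent.Lib.Helper24.index_centralizer_eq_ncard y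
  have h2 := Cfsg.Agent.Lib.Helper24.index_centralizer_eq_ncard (y : G ⧸ N)
  have h3 := QuotientGroup.card_preimage_mk N {g : G ⧸ N | IsConj (y : G ⧸ N) g}
  rw [← hset, Nat.card_coe_set_eq, Nat.card_coe_set_eq, ← h1, ← h2] at h3
  have e1 := Subgroup.card_mul_index (Subgroup.centralizer ({y} : Set G))
  have e2 := Subgroup.card_mul_index (Subgroup.centralizer ({(y : G ⧸ N)} : Set (G ⧸ N)))
  have e3 := Subgroup.card_eq_card_quotient_mul_card_subgroup N
  rw [h3, e3, ← e2] at e1
  have hpos : 0 < Nat.card N * (Subgroup.centralizer ({(y : G ⧸ N)} : Set (G ⧸ N))).index :=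
    Nat.mul_pos Nat.card_pos (Nat.pos_of_ne_zero Subgroup.index_ne_zero_of_finite)
  apply Nat.eq_of_mul_eq_mul_right hpos
  rw [e1]; ring

omit [Finite G] in
theorem le_sylow_of_normal [Finite G] {p : ℕ} [Fact p.Prime] {N : Subgroup G} [hNn : N.Normal]
    (hNp : IsPGroup p N) (P : Sylow p G) : N ≤ (P : Subgroup G) := by
  obtain ⟨Q, hQ⟩ := hNp.exists_le_sylow
  obtain ⟨g, hg⟩ := MulAction.exists_smul_eq G Q P
  intro n hn
  have h1 : g⁻¹ * n * g ∈ N := by
    have := hNn.conj_mem n hn g⁻¹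
    simpa using this
  have h2 : g⁻¹ * n * g ∈ (Q : Subgroup G) := hQ h1
  rw [← hg, Sylow.coe_subgroup_smul, Subgroup.mem_pointwise_smul_iff_inv_smul_mem]
  simpa [MulAut.smul_def, mul_assoc] using h2

section syl
variable {N : Subgroup G} {p : ℕ} [Fact p.Prime]

/-- for `y ∉ N`, a `p`-subgroup of `C_G(y)` has order at most `|P|/|N|` -/
theorem TwoClass.card_mul_dvd (h : TwoClass χ x) [hNn : N.Normal]
    (hN : ∀ g : G, g ∈ N ↔ (χ : G → ℂ) g ≠ 0) (hNp : IsPGroup p N) (P : Sylow p G) {y : G}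
    (hy : y ∉ N) {Q : Subgroup G} (hQ : IsPGroup p Q) (hQy : Q ≤ Subgroup.centralizer ({y} : Set G)) :
    Nat.card Q * Nat.card N ∣ Nat.card P := by
  have hp : p.Prime := Fact.out
  have h1 : Nat.card Q ∣ Nat.card (G ⧸ N) := by
    refine (Subgroup.card_dvd_of_le hQy).trans ?_
    rw [h.card_centralizer_quot hN hy]
    exact Subgroup.card_subgroup_dvd_card _
  have h2 : Nat.card Q * Nat.card N ∣ Nat.card G := by
    rw [Subgroup.card_eq_card_quotient_mul_card_subgroup N]
    exact Nat.mul_dvd_mul_right h1 _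
  rw [← Subgroup.card_mul_index (P : Subgroup G)] at h2
  obtain ⟨a, ha⟩ := IsPGroup.iff_card.1 hQ
  obtain ⟨b, hb⟩ := IsPGroup.iff_card.1 hNp
  refine Nat.Coprime.dvd_of_dvd_mul_right ?_ h2
  rw [ha, hb, ← pow_add]
  exact Nat.Coprime.pow_left _ ((Nat.Prime.coprime_iff_not_dvd hp).2 P.not_dvd_index)

theorem TwoClass.center_le (h : TwoClass χ x) [hNn : N.Normal]
    (hN : ∀ g : G, g ∈ N ↔ (χ : G → ℂ) g ≠ 0) (hNp : IsPGroup p N) (P : Sylow p G) :
    (Subgroup.center ↥(P : Subgroup G)).map (P : Subgroup G).subtype ≤ N := by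
  have hp : p.Prime := Fact.out
  rintro _ ⟨z, hz, rfl⟩
  by_contra hzN
  have hP : (P : Subgroup G) ≤ Subgroup.centralizer ({((P : Subgroup G).subtype z)} : Set G) := by
    intro u hu
    rw [Subgroup.mem_centralizer_singleton_iff]
    have := Subgroup.mem_center_iff.1 hz ⟨u, hu⟩
    exact congrArg Subtype.val this
  have h1 := h.card_mul_dvd hN hNp P hzN P.2 hP
  have h2 : Nat.card N ∣ 1 := by
    have : Nat.card P * Nat.card N ∣ Nat.card P * 1 := by rw [mul_one]; exact h1
    exact Nat.dvd_of_mul_dvd_mul_left Nat.card_pos this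
  have h3 : Nat.card N = 1 := Nat.dvd_one.1 h2
  have h4 : N = ⊥ := Subgroup.card_eq_one.1 h3
  have := h.mem hN
  rw [h4, Subgroup.mem_bot] at this
  exact h.ne_one this

theorem TwoClass.centralizer_eq_of_le (h : TwoClass χ x) [hNn : N.Normal]
    (hN : ∀ g : G, g ∈ N ↔ (χ : G → ℂ) g ≠ 0) (hNp : IsPGroup p N) (P : Sylow p G)
    (hP : (P : Subgroup G) ≤ Subgroup.centralizer ({x} : Set G)) :
    Subgroup.centralizer ({x} : Set G) = P :=
  P.3 (h.isPGroup_centralizer hN hNp) hP

theorem TwoClass.center_eq_iff (h : TwoClass χ x) [hNn : N.Normal]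
    (hN : ∀ g : G, g ∈ N ↔ (χ : G → ℂ) g ≠ 0) (hNp : IsPGroup p N) (P : Sylow p G) :
    (Subgroup.center ↥(P : Subgroup G)).map (P : Subgroup G).subtype = N ↔
      (P : Subgroup G).Normal := by
  constructor
  · intro hZ
    have key : ∀ y ∈ N, y ≠ 1 → Subgroup.centralizer ({y} : Set G) = P := by
      intro y hy hy1
      have hy' := h.of_ne ((hN y).1 hy) hy1
      apply hy'.centralizer_eq_of_le hN hNp P
      intro u hu
      rw [Subgroup.mem_centralizer_singleton_iff]
      rw [← hZ] at hy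
      obtain ⟨z, hz, rfl⟩ := hy
      have := Subgroup.mem_center_iff.1 hz ⟨u, hu⟩
      exact congrArg Subtype.val this
    refine ⟨fun u hu g => ?_⟩
    have hx' : g * x * g⁻¹ ∈ N := hNn.conj_mem x (h.mem hN) g
    have hx1 : g * x * g⁻¹ ≠ 1 := by
      intro h1
      apply h.ne_one
      have : x = g⁻¹ * (g * x * g⁻¹) * g := by group
      rw [this, h1]; group
    rw [← key _ hx' hx1, Subgroup.mem_centralizer_singleton_iff]
    rw [← key x (h.mem hN) h.ne_one, Subgroup.mem_centralizer_singleton_iff] at hu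
    calc g * u * g⁻¹ * (g * x * g⁻¹) = g * (u * x) * g⁻¹ := by group
      _ = g * (x * u) * g⁻¹ := by rw [hu]
      _ = g * x * g⁻¹ * (g * u * g⁻¹) := by group
  · intro hPn
    apply le_antisymm (h.center_le hN hNp P)
    intro y hy
    have hyP : y ∈ (P : Subgroup G) := le_sylow_of_normal hNp P hy
    refine ⟨⟨y, hyP⟩, ?_, rfl⟩
    rw [SetLike.mem_coe, Subgroup.mem_center_iff]
    intro u
    apply Subtype.ext
    show (u : G) * y = y * u
    by_cases hy1 : y = 1
    · rw [hy1]; simp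
    have hy' := h.of_ne ((hN y).1 hy) hy1
    haveI := Sylow.unique_of_normal P hPn
    have e : (hy'.isPGroup_centralizer hN hNp).toSylow (hy'.not_dvd_index hN hNp) = P :=
      Subsingleton.elim _ _
    have e2 : Subgroup.centralizer ({y} : Set G) = P := by
      rw [← e]; simp
    have hu : (u : G) ∈ Subgroup.centralizer ({y} : Set G) := by rw [e2]; exact u.2
    exact Subgroup.mem_centralizer_singleton_iff.1 hu

theorem TwoClass.ucs_step (h : TwoClass χ x) [hNn : N.Normal]
    (hN : ∀ g : G, g ∈ N ↔ (χ : G → ℂ) g ≠ 0) (hNp : IsPGroup p N) (P : Sylow p G) (i : ℕ)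
    (hle : Subgroup.upperCentralSeries ↥(P : Subgroup G) i ≤ N.subgroupOf (P : Subgroup G))
    (hne : Subgroup.upperCentralSeries ↥(P : Subgroup G) i ≠ N.subgroupOf (P : Subgroup G)) :
    Subgroup.upperCentralSeries ↥(P : Subgroup G) (i + 1) ≤ N.subgroupOf (P : Subgroup G) := by
  intro y hy
  by_contra hyN
  rw [Subgroup.mem_subgroupOf] at hyN
  set Z := Subgroup.upperCentralSeries ↥(P : Subgroup G) i with hZ
  have hcomm : ∀ z : ↥(P : Subgroup G), ⁅y, z⁆ ∈ Z := Subgroup.mem_upperCentralSeries_succ_iff.1 hy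
  have h1 : (Subgroup.centralizer ({y} : Set ↥(P : Subgroup G))).index ≤ Nat.card Z := by
    rw [Cfsg.Agent.Lib.Helper24.index_centralizer_eq_ncard y,
      show Nat.card Z = (Z : Set ↥(P : Subgroup G)).ncard from (Nat.card_coe_set_eq _)]
    apply Set.ncard_le_ncard_of_injOn (fun w => w * y⁻¹)
    · intro w hw
      obtain ⟨c, rfl⟩ := isConj_iff.1 hw
      have h2 := Z.inv_mem (hcomm c)
      rw [commutatorElement_inv] at h2
      exact h2
    · intro a _ b _ hab
      exact mul_right_cancel hab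
  have hQ : IsPGroup p ((Subgroup.centralizer ({y} : Set ↥(P : Subgroup G))).map
      (P : Subgroup G).subtype) :=
    (P.2.to_subgroup _).map _
  have hQy : (Subgroup.centralizer ({y} : Set ↥(P : Subgroup G))).map (P : Subgroup G).subtype ≤
      Subgroup.centralizer ({(y : G)} : Set G) := by
    rintro _ ⟨u, hu, rfl⟩
    rw [Subgroup.mem_centralizer_singleton_iff]
    have := Subgroup.mem_centralizer_singleton_iff.1 hu
    exact congrArg Subtype.val this
  have h2 := h.card_mul_dvd hN hNp P hyN hQ hQy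
  rw [Subgroup.card_map_of_injective (Subgroup.subtype_injective _)] at h2
  have hNP : N ≤ (P : Subgroup G) := le_sylow_of_normal hNp P
  have hcN : Nat.card (N.subgroupOf (P : Subgroup G)) = Nat.card N :=
    Nat.card_congr (Subgroup.subgroupOfEquivOfLe hNP).toEquiv
  have h3 : Nat.card Z < Nat.card N := by
    by_contra h3
    push Not at h3
    rw [← hcN] at h3
    exact hne (Subgroup.eq_of_le_of_card_ge hle h3)
  have h4 := Subgroup.card_mul_index (Subgroup.centralizer ({y} : Set ↥(P : Subgroup G)))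
  have h5 := Nat.le_of_dvd Nat.card_pos h2
  have hpos : 0 < Nat.card (Subgroup.centralizer ({y} : Set ↥(P : Subgroup G))) := Nat.card_pos
  have h6 : Nat.card (Subgroup.centralizer ({y} : Set ↥(P : Subgroup G))) *
      (Subgroup.centralizer ({y} : Set ↥(P : Subgroup G))).index <
      Nat.card (Subgroup.centralizer ({y} : Set ↥(P : Subgroup G))) * Nat.card N :=
    Nat.mul_lt_mul_of_pos_left (lt_of_le_of_lt h1 h3) hpos
  rw [h4] at h6
  exact absurd h5 (not_le.2 h6)

theorem TwoClass.exists_ucs (h : TwoClass χ x) [hNn : N.Normal]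
    (hN : ∀ g : G, g ∈ N ↔ (χ : G → ℂ) g ≠ 0) (hNp : IsPGroup p N) (P : Sylow p G) :
    ∃ i : ℕ, Subgroup.upperCentralSeries ↥(P : Subgroup G) i = N.subgroupOf (P : Subgroup G) := by
  by_contra hne
  push Not at hne
  have hall : ∀ i, Subgroup.upperCentralSeries ↥(P : Subgroup G) i ≤
      N.subgroupOf (P : Subgroup G) := by
    intro i
    induction i with
    | zero => rw [Subgroup.upperCentralSeries_zero]; exact bot_le
    | succ i ih => exact h.ucs_step hN hNp P i ih (hne i)
  haveI : Group.IsNilpotent ↥(P : Subgroup G) := P.2.isNilpotent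
  obtain ⟨n, hn⟩ := (Group.isNilpotent_iff (G := ↥(P : Subgroup G))).1 inferInstance
  apply hne n
  apply le_antisymm (hall n)
  rw [hn]; exact le_top

end syl

end Cfsg.Agent.Lib.Helper10.Gagola
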