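import Cfsg.Agent.Lib.Helper10.Gagola3
import Cfsg.Agent.Lib.Helper5.PCore

set_option autoImplicit false
set_option linter.unusedSectionVars false
open Cfsg
open scoped ComplexConjugate commutatorElement Pointwise

namespace Cfsg.Agent.Lib.Helper10.Gagola

open Cfsg.Agent.Lib.Helper7

universe u
variable {G : Type u} [Group G] [Finite G] {χ : IrrCharacter G} {x : G}
variable {N : Subgroup G} {p : ℕ} [Fact p.Prime]

omit [Finite G] in
theorem mem_conj_smul_iff (H : Subgroup G) (g y : G) :
    y ∈ MulAut.conj g • H ↔ g⁻¹ * y * g ∈ H := by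
  rw [Subgroup.mem_pointwise_smul_iff_inv_smul_mem]
  simp [MulAut.smul_def]

theorem TwoClass.exists_frobenius (h : TwoClass χ x) [hNn : N.Normal]
    (hN : ∀ g : G, g ∈ N ↔ (χ : G → ℂ) g ≠ 0) (hNp : IsPGroup p N) (hidx : ¬ p ∣ N.index) :
    ∃ H : Subgroup G, IsFrobeniusComplement H ∧ frobeniusKernel H = (N : Set G) ∧
      Nat.card H + 1 = Nat.card N := by
  have hp : p.Prime := Fact.out
  obtain ⟨b, hb⟩ := IsPGroup.iff_card.1 hNp
  have hcop : (Nat.card N).Coprime N.index := by
    rw [hb]; exact Nat.Coprime.pow_left _ ((Nat.Prime.coprime_iff_not_dvd hp).2 hidx)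
  obtain ⟨H, hH⟩ := Subgroup.exists_right_complement'_of_coprime hcop
  have hdisj : ∀ u, u ∈ N → u ∈ H → u = 1 := fun u h1 h2 =>
    Subgroup.disjoint_def.1 hH.disjoint h1 h2
  have hdecomp : ∀ g : G, ∃ n ∈ N, ∃ k ∈ H, g = n * k := by
    intro g
    obtain ⟨⟨n, k⟩, hnk⟩ := hH.2 g
    exact ⟨n, n.2, k, k.2, hnk.symm⟩
  have hcardH : Nat.card H = N.index := hH.symm.index_eq_card.symm
  obtain ⟨m, hm0, -, -, hcard, hcent⟩ := h.numerics
  have hNc := h.card_N hN
  set s := (Subgroup.centralizer ({x} : Set G)).index with hs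
  have hs0 : 0 < s := Nat.pos_of_ne_zero Subgroup.index_ne_zero_of_finite
  have hm1 : m = 1 := by
    obtain ⟨k, hk⟩ := IsPGroup.iff_card.1 (h.isPGroup_centralizer hN hNp)
    have h1 : Nat.card (Subgroup.centralizer ({x} : Set G)) ∣ Nat.card N * N.index := by
      rw [Subgroup.card_mul_index]; exact Subgroup.card_subgroup_dvd_card _
    have h2 : Nat.card (Subgroup.centralizer ({x} : Set G)) ∣ Nat.card N := by
      refine Nat.Coprime.dvd_of_dvd_mul_right ?_ h1
      rw [hk]; exact Nat.Coprime.pow_left _ ((Nat.Prime.coprime_iff_not_dvd hp).2 hidx)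
    rw [hcent, hNc] at h2
    have h3 := Nat.le_of_dvd (Nat.succ_pos s) h2
    have h4 : m ^ 2 ≤ 1 := by
      by_contra h4
      push Not at h4
      have : 2 * (s + 1) ≤ m ^ 2 * (s + 1) := Nat.mul_le_mul_right _ h4
      omega
    have h5 : m ≤ 1 := by
      by_contra h5
      push Not at h5
      have : 2 ^ 2 ≤ m ^ 2 := Nat.pow_le_pow_left h5 2
      omega
    omega
  rw [hm1] at hcard
  have hidx' : N.index = s := by
    have h1 := Subgroup.card_mul_index N
    rw [hNc, hcard] at h1
    have : (s + 1) * N.index = (s + 1) * s := by rw [h1]; ring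
    exact Nat.eq_of_mul_eq_mul_left (Nat.succ_pos s) this
  have hHs : Nat.card H = s := hcardH.trans hidx'
  have hbig := h.big
  have hord : ∀ u ∈ H, ¬ p ∣ orderOf u := by
    intro u hu hd
    apply hidx
    rw [← hcardH]
    refine hd.trans ?_
    have := orderOf_dvd_natCard (⟨u, hu⟩ : H)
    rwa [Subgroup.orderOf_mk] at this
  refine ⟨H, ⟨?_, ?_, ?_⟩, ?_, by rw [hHs, hNc]⟩
  · intro hbot
    rw [hbot, Subgroup.card_bot] at hHs
    rw [← hHs] at hcard
    omega
  · intro htop
    rw [htop, Subgroup.card_top, hcard] at hHs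
    have : s * 1 = s * (s + 1) := by rw [mul_one]; nlinarith
    have := Nat.eq_of_mul_eq_mul_left hs0 this
    omega
  · intro g hg
    rw [eq_bot_iff]
    rintro u ⟨hu1, hu2⟩
    rw [Subgroup.mem_bot]
    have hu2 : u ∈ MulAut.conj g • H := hu2
    rw [mem_conj_smul_iff] at hu2
    obtain ⟨n, hn, k, hk, rfl⟩ := hdecomp g
    have hn1 : n ≠ 1 := by
      rintro rfl
      apply hg; rw [one_mul]; exact hk
    have h1 : n⁻¹ * u * n ∈ H := by
      have := H.mul_mem (H.mul_mem hk hu2) (H.inv_mem hk)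
      have e : k * ((n * k)⁻¹ * u * (n * k)) * k⁻¹ = n⁻¹ * u * n := by group
      rwa [e] at this
    have h2 : u⁻¹ * (n⁻¹ * u * n) ∈ N := by
      have h3 : u⁻¹ * n⁻¹ * u ∈ N := by
        have := hNn.conj_mem n⁻¹ (N.inv_mem hn) u⁻¹
        simpa using this
      have := N.mul_mem h3 hn
      have e : u⁻¹ * n⁻¹ * u * n = u⁻¹ * (n⁻¹ * u * n) := by group
      rwa [e] at this
    have h3 := hdisj _ h2 (H.mul_mem (H.inv_mem hu1) h1)
    have h4 : Commute u n := by
      show u * n = n * u
      have : n⁻¹ * u * n = u := by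
        have := congrArg (fun z => u * z) h3
        simpa using this
      calc u * n = n * (n⁻¹ * u * n) := by group
        _ = n * u := by rw [this]
    exact (h.of_ne ((hN n).1 hn) hn1).eq_one_of_commute hN hNp (hord u hu1) h4
  · ext y
    constructor
    · intro hy
      by_contra hyN
      rw [SetLike.mem_coe] at hyN
      obtain ⟨n, hn, k, hk, rfl⟩ := hdecomp y
      have hkN : k ∉ N := by
        intro hkN
        exact hyN (N.mul_mem hn hkN)
      have hk0 : (χ : G → ℂ) k = 0 := by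
        by_contra h0
        exact hkN ((hN k).2 h0)
      have hn' : k⁻¹ * n * k ∈ N := by
        have := hNn.conj_mem n hn k⁻¹
        simpa using this
      obtain ⟨c, hc⟩ := isConj_iff.1 (h.camina hk0 ((hN _).1 hn'))
      have e : k * (k⁻¹ * n * k) = n * k := by group
      rw [e] at hc
      rcases hy with hy | hy
      · apply hyN; rw [hy]; exact N.one_mem
      · apply hy c⁻¹
        rw [mem_conj_smul_iff]
        have hk' : c * (n * k) * c⁻¹ ∈ H := by rw [hc]; exact hk
        simpa using hk'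
    · intro hy
      rw [SetLike.mem_coe] at hy
      by_cases hy1 : y = 1
      · left; exact hy1
      right
      intro g hg
      rw [mem_conj_smul_iff] at hg
      have h1 : g⁻¹ * y * g ∈ N := by
        have := hNn.conj_mem y hy g⁻¹
        simpa using this
      have h2 := hdisj _ h1 hg
      apply hy1
      have : y = g * (g⁻¹ * y * g) * g⁻¹ := by group
      rw [this, h2]; group

theorem eq_pCore_of_frobenius [hNn : N.Normal] (hNp : IsPGroup p N) (hN1 : N ≠ ⊥)
    (H : Subgroup G) (hker : frobeniusKernel H = (N : Set G))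
    (hcard : Nat.card H + 1 = Nat.card N) : N = pCore p G := by
  have hp : p.Prime := Fact.out
  apply le_antisymm (Cfsg.Agent.Lib.Helper5.le_pCore hNn hNp)
  intro y hy
  by_contra hyN
  have h1 : y ∉ frobeniusKernel H := by rw [hker]; exact hyN
  simp only [frobeniusKernel, Set.mem_ofPred_eq, not_or, not_forall, not_not] at h1
  obtain ⟨hy1, g, hg⟩ := h1
  rw [mem_conj_smul_iff] at hg
  have h2 : orderOf y ∣ Nat.card H := by
    have h3 := orderOf_dvd_natCard (⟨_, hg⟩ : H)
    rw [Subgroup.orderOf_mk] at h3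
    have h4 : orderOf (g⁻¹ * y * g) = orderOf y := by
      have := orderOf_eq_of_isConj (isConj_iff.2 ⟨g⁻¹, rfl⟩ : IsConj y (g⁻¹ * y * g⁻¹⁻¹))
      rw [inv_inv] at this
      exact this.symm
    rwa [h4] at h3
  obtain ⟨k, hk⟩ := (IsPGroup.iff_orderOf.1 (Cfsg.Agent.Lib.Helper5.pCore_isPGroup (p := p) (G := G)))
    ⟨y, hy⟩
  rw [Subgroup.orderOf_mk] at hk
  have hk0 : k ≠ 0 := by
    rintro rfl
    rw [pow_zero, orderOf_eq_one_iff] at hk
    exact hy1 hk
  have h3 : p ∣ Nat.card H := (dvd_pow_self p hk0).trans (hk ▸ h2)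
  obtain ⟨b, hb⟩ := IsPGroup.iff_card.1 hNp
  have hb0 : b ≠ 0 := by
    rintro rfl
    rw [pow_zero] at hb
    exact hN1 (Subgroup.card_eq_one.1 hb)
  have h4 : p ∣ Nat.card N := by rw [hb]; exact dvd_pow_self p hb0
  rw [← hcard] at h4
  exact hp.one_lt.ne' (Nat.dvd_one.1 ((Nat.dvd_add_right h3).1 h4))

end Cfsg.Agent.Lib.Helper10.Gagola
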