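import Cfsg.Agent.Lib.Helper10.Gagola4
import Cfsg.Agent.S0200

set_option autoImplicit false
set_option linter.unusedSectionVars false
open Cfsg
open scoped ComplexConjugate commutatorElement Pointwise

namespace Cfsg.Agent.Lib.Helper10.Gagola

open Cfsg.Agent.Lib.Helper7

universe u
variable {G : Type u} [Group G] [Finite G] {χ : IrrCharacter G} {x : G}
variable {N : Subgroup G} {p : ℕ} [Fact p.Prime]

theorem TwoClass.mem_of_centralizes (h : TwoClass χ x) [hNn : N.Normal]
    (hN : ∀ g : G, g ∈ N ↔ (χ : G → ℂ) g ≠ 0) (hNp : IsPGroup p N)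
    (hmax : ∀ K : Subgroup G, K.Normal → IsPGroup p K → K ≤ N) {u : G}
    (hu : ∀ n ∈ N, n * u = u * n) : u ∈ N := by
  have hK : IsPGroup p (Subgroup.centralizer (N : Set G)) :=
    (h.isPGroup_centralizer hN hNp).to_le
      (Subgroup.centralizer_le (Set.singleton_subset_iff.2 (h.mem hN)))
  exact hmax _ inferInstance hK (Subgroup.mem_centralizer_iff.2 hu)

omit [Finite G] in
theorem conjNormal_eq_one_of_mem [hNn : N.Normal] (hcomm : ∀ a b : N, a * b = b * a) {n : G}
    (hn : n ∈ N) : (MulAut.conjNormal n : MulAut N) = 1 := by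
  ext a
  rw [MulAut.conjNormal_apply, MulAut.one_apply]
  have := congrArg Subtype.val (hcomm ⟨n, hn⟩ a)
  simp only [Subgroup.coe_mul] at this
  rw [this]; group

theorem TwoClass.fpf (h : TwoClass χ x) [hNn : N.Normal]
    (hN : ∀ g : G, g ∈ N ↔ (χ : G → ℂ) g ≠ 0) (hNp : IsPGroup p N) {w : G}
    (hw : ¬ p ∣ orderOf w) (hw1 : w ≠ 1) (a : N) (ha : (MulAut.conjNormal w : MulAut N) a = a) :
    a = 1 := by
  by_contra ha1
  have ha1' : (a : G) ≠ 1 := fun hh => ha1 (Subtype.ext hh)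
  have h2 := congrArg Subtype.val ha
  rw [MulAut.conjNormal_apply] at h2
  have hc : Commute w (a : G) := by
    show w * a = a * w
    calc w * a = (w * a * w⁻¹) * w := by group
      _ = a * w := by rw [h2]
  exact hw1 ((h.of_ne ((hN a).1 a.2) ha1').eq_one_of_commute hN hNp hw hc)

theorem TwoClass.not_two_dvd_index [Fact (Nat.Prime 2)] (h : TwoClass χ x) [hNn : N.Normal]
    (hN : ∀ g : G, g ∈ N ↔ (χ : G → ℂ) g ≠ 0) (hNp : IsPGroup 2 N)
    (hmax : ∀ K : Subgroup G, K.Normal → IsPGroup 2 K → K ≤ N) : ¬ 2 ∣ N.index := by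
  intro hd
  rw [Subgroup.index_eq_card] at hd
  obtain ⟨tb, htb⟩ := exists_prime_orderOf_dvd_card' 2 hd
  obtain ⟨t, rfl⟩ := QuotientGroup.mk_surjective tb
  have htN : t ∉ N := by
    intro ht
    rw [(QuotientGroup.eq_one_iff t).2 ht, orderOf_one] at htb
    omega
  have hO : ∀ K : Subgroup (G ⧸ N), K.Normal → IsPGroup 2 K → (t : G ⧸ N) ∉ K := by
    intro K hK hK2 ht
    have h1 : IsPGroup 2 (K.comap (QuotientGroup.mk' N)) :=
      hK2.comap_of_ker_isPGroup _ (by rw [QuotientGroup.ker_mk']; exact hNp)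
    exact htN (hmax _ (hK.comap _) h1 (Subgroup.mem_comap.2 ht))
  obtain ⟨hb, hb1, hbodd, hbinv⟩ := Cfsg.Agent.S0200.result (t : G ⧸ N) htb hO
  obtain ⟨h₁, rfl⟩ := QuotientGroup.mk_surjective hb
  obtain ⟨a, r, hr, har⟩ := Nat.exists_eq_pow_mul_and_not_dvd (orderOf_pos h₁).ne' 2 (by norm_num)
  set w := h₁ ^ 2 ^ a with hw
  have hwo : ¬ 2 ∣ orderOf w := by
    rw [hw, orderOf_pow' h₁ (pow_ne_zero a (by norm_num)), har,
      Nat.gcd_eq_right (dvd_mul_right _ _), Nat.mul_div_cancel_left _ (pow_pos (by norm_num) a)]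
    exact hr
  have hwN : w ∉ N := by
    intro hwN
    have h2 : ((h₁ : G ⧸ N)) ^ 2 ^ a = 1 := by
      rw [← QuotientGroup.mk_pow]; exact (QuotientGroup.eq_one_iff _).2 hwN
    have h3 : orderOf (h₁ : G ⧸ N) ∣ 2 ^ a := orderOf_dvd_of_pow_eq_one h2
    have h4 : (orderOf (h₁ : G ⧸ N)).Coprime (2 ^ a) :=
      Nat.Coprime.pow_right _ (Nat.Coprime.symm (Nat.coprime_two_left.2 hbodd))
    have h5 := Nat.Coprime.eq_one_of_dvd h4 h3
    exact hb1 (orderOf_eq_one_iff.1 h5)
  have hw1 : w ≠ 1 := fun hh => hwN (hh ▸ N.one_mem)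
  have hrel : t * w * t⁻¹ * w ∈ N := by
    rw [← QuotientGroup.eq_one_iff]
    have h2 : (t : G ⧸ N) * (h₁ : G ⧸ N) ^ 2 ^ a * (t : G ⧸ N)⁻¹ = ((h₁ : G ⧸ N) ^ 2 ^ a)⁻¹ := by
      rw [← conj_pow, hbinv, inv_pow]
    have h3 : ((t * w * t⁻¹ * w : G) : G ⧸ N)
        = (t : G ⧸ N) * (h₁ : G ⧸ N) ^ 2 ^ a * (t : G ⧸ N)⁻¹ * (h₁ : G ⧸ N) ^ 2 ^ a := by
      rw [hw]; simp
    rw [h3, h2, inv_mul_cancel]
  have htt : t * t ∈ N := by
    rw [← QuotientGroup.eq_one_iff]
    have : (t : G ⧸ N) ^ 2 = 1 := by rw [← htb]; exact pow_orderOf_eq_one _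
    rw [QuotientGroup.mk_mul, ← pow_two]; exact this
  have hel := h.elemAb hN hNp
  have hcomm : ∀ a b : N, a * b = b * a := hel.1.is_comm.comm
  have hsq : ∀ a : N, a * a = 1 := by
    intro a
    apply Subtype.ext
    have := hel.2 a a.2
    rw [pow_two] at this
    exact this
  have ht0 : (χ : G → ℂ) t = 0 := by
    by_contra h0
    exact htN ((hN t).2 h0)
  -- t * t ≠ 1
  have htt1 : t * t ≠ 1 := by
    intro htt1
    apply htN
    apply h.mem_of_centralizes hN hNp hmax
    intro n hn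
    have h2 := orderOf_eq_of_isConj (h.camina ht0 ((hN n).1 hn))
    have h3 : orderOf t ∣ 2 := orderOf_dvd_of_pow_eq_one (by rw [pow_two]; exact htt1)
    rw [← h2] at h3
    have h4 : (t * n) ^ 2 = 1 := orderOf_dvd_iff_pow_eq_one.1 h3
    rw [pow_two] at h4
    have h5 : n * n = 1 := congrArg Subtype.val (hsq ⟨n, hn⟩)
    calc n * t = (t * t) * (n * t) * (n * n) := by rw [htt1, h5]; group
      _ = t * ((t * n) * (t * n)) * n := by group
      _ = t * n := by rw [h4]; group
  set A : MulAut N := MulAut.conjNormal w with hA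
  set T : MulAut N := MulAut.conjNormal t with hT
  have hTA : T * A * T⁻¹ * A = 1 := by
    rw [hT, hA, ← map_inv, ← map_mul, ← map_mul, ← map_mul]
    exact conjNormal_eq_one_of_mem hcomm hrel
  have hφinj : Function.Injective (fun c : N => c * A c) := by
    intro c c' hcc
    simp only at hcc
    have h2 : A (c * c') = c * c' := by
      have h3 : (c * c') * A (c * c') = 1 := by
        rw [map_mul]
        calc c * c' * (A c * A c') = (c * A c) * (c' * A c') := by
              rw [mul_assoc, ← mul_assoc c', hcomm c' (A c)]; simp only [mul_assoc]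
          _ = 1 := by rw [hcc]; exact hsq _
      calc A (c * c') = ((c * c') * (c * c')) * A (c * c') := by rw [hsq, one_mul]
        _ = (c * c') * ((c * c') * A (c * c')) := by rw [mul_assoc]
        _ = c * c' := by rw [h3, mul_one]
    have h3 := h.fpf hN hNp hwo hw1 _ h2
    calc c = c * (c' * c') := by rw [hsq, mul_one]
      _ = (c * c') * c' := by rw [mul_assoc]
      _ = c' := by rw [h3, one_mul]
  obtain ⟨c, hc⟩ := (Finite.injective_iff_surjective.1 hφinj) ⟨t * t, htt⟩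
  simp only at hc
  have hTu : T ⟨t * t, htt⟩ = ⟨t * t, htt⟩ := by
    apply Subtype.ext
    rw [hT, MulAut.conjNormal_apply]
    group
  have hTAc : T (A c) = A⁻¹ (T c) := by
    have h2 : T * A = A⁻¹ * T := by
      have h3 : T * A * T⁻¹ = A⁻¹ := eq_inv_of_mul_eq_one_left hTA
      rw [← h3]; group
    have := congrArg (fun f : MulAut N => f c) h2
    simpa [MulAut.mul_apply] using this
  have he : T c = A c := by
    apply hφinj
    show T c * A (T c) = A c * A (A c)
    have h2 : T c * A⁻¹ (T c) = c * A c := by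
      rw [← hTAc, ← map_mul, hc, hTu]
    have h3 := congrArg A h2
    rw [map_mul, map_mul, MulAut.apply_inv_self] at h3
    rw [hcomm, h3]
  have hfin : (t * c) * (t * c) = 1 := by
    have h2 : ((T c * ⟨t * t, htt⟩ * c : N) : G) = (t * c) * (t * c) := by
      simp only [Subgroup.coe_mul]
      rw [hT, MulAut.conjNormal_apply]
      group
    rw [← h2, he, ← hc]
    have : A c * (c * A c) * c = 1 := by
      calc A c * (c * A c) * c = (A c * c) * (A c * c) := by simp only [mul_assoc]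
        _ = 1 := hsq _
    rw [this]; rfl
  have h2 := orderOf_eq_of_isConj (h.camina ht0 ((hN c).1 c.2))
  have h3 : orderOf (t * c) ∣ 2 := orderOf_dvd_of_pow_eq_one (by rw [pow_two]; exact hfin)
  rw [h2] at h3
  have h4 : t ^ 2 = 1 := orderOf_dvd_iff_pow_eq_one.1 h3
  rw [pow_two] at h4
  exact htt1 h4

end Cfsg.Agent.Lib.Helper10.Gagola
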