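import Cfsg.Agent.Lib.Helper10.Gagola5

set_option autoImplicit false
set_option linter.unusedSectionVars false
open Cfsg
open scoped ComplexConjugate commutatorElement Pointwise

namespace Cfsg.Agent.Lib.Helper10.Gagola

open Cfsg.Agent.Lib.Helper7

universe u
variable {G : Type u} [Group G] [Finite G] {χ : IrrCharacter G} {x : G}
variable {N : Subgroup G} {p : ℕ} [Fact p.Prime]

theorem TwoClass.not_dvd_index_of_odd (h : TwoClass χ x) [hNn : N.Normal]
    (hN : ∀ g : G, g ∈ N ↔ (χ : G → ℂ) g ≠ 0) (hNp : IsPGroup p N)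
    (hmax : ∀ K : Subgroup G, K.Normal → IsPGroup p K → K ≤ N) (hp2 : p ≠ 2) :
    ¬ p ∣ N.index := by
  have hp : p.Prime := Fact.out
  intro hd
  obtain ⟨m, hm0, -, -, hcard, -⟩ := h.numerics
  have h2G : 2 ∣ Nat.card G := by
    rw [hcard, mul_assoc]
    exact Dvd.dvd.mul_left (Nat.even_mul_succ_self _).two_dvd _
  haveI : Fact (Nat.Prime 2) := ⟨Nat.prime_two⟩
  obtain ⟨t, ht⟩ := exists_prime_orderOf_dvd_card' 2 h2G
  have hel := h.elemAb hN hNp
  have hcomm : ∀ a b : N, a * b = b * a := hel.1.is_comm.comm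
  have hno : ∀ s : G, orderOf s = 2 → ¬ p ∣ orderOf s := by
    intro s hs hd2
    rw [hs] at hd2
    exact hp2 ((Nat.prime_dvd_prime_iff_eq hp Nat.prime_two).1 hd2)
  have ht1 : t ≠ 1 := by
    rintro rfl
    simp at ht
  -- any involution inverts N
  have hinv : ∀ s : G, orderOf s = 2 → ∀ n : N, (MulAut.conjNormal s : MulAut N) n = n⁻¹ := by
    intro s hs n
    have hs1 : s ≠ 1 := by
      rintro rfl
      simp at hs
    have hSS : (MulAut.conjNormal s : MulAut N) * MulAut.conjNormal s = 1 := by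
      rw [← map_mul, ← pow_two, ← hs, pow_orderOf_eq_one, map_one]
    have h2 : (MulAut.conjNormal s : MulAut N) (n * (MulAut.conjNormal s : MulAut N) n)
        = n * (MulAut.conjNormal s : MulAut N) n := by
      rw [map_mul]
      have h3 : (MulAut.conjNormal s : MulAut N) ((MulAut.conjNormal s : MulAut N) n) = n := by
        have := congrArg (fun f : MulAut N => f n) hSS
        simpa using this
      rw [h3, hcomm]
    have h3 := h.fpf hN hNp (hno s hs) hs1 _ h2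
    exact eq_inv_of_mul_eq_one_right h3
  have hCN : ∀ n ∈ N, Commute t n → n = 1 := by
    intro n hn hc
    by_contra hn1
    exact ht1 ((h.of_ne ((hN n).1 hn) hn1).eq_one_of_commute hN hNp (hno t ht) hc)
  -- decomposition G = N C(t)
  have hdec : ∀ g : G, ∃ v ∈ N, Commute (v⁻¹ * g) t := by
    intro g
    have hs : orderOf (g * t * g⁻¹) = 2 := by
      rw [← orderOf_eq_of_isConj (isConj_iff.2 ⟨g, rfl⟩ : IsConj t (g * t * g⁻¹))]; exact ht
    have hkfix : ∀ n : N, (MulAut.conjNormal (t⁻¹ * (g * t * g⁻¹)) : MulAut N) n = n := by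
      intro n
      rw [map_mul, MulAut.mul_apply, hinv _ hs n, hinv t⁻¹ (by rw [orderOf_inv]; exact ht) n⁻¹,
        inv_inv]
    have hkN : t⁻¹ * (g * t * g⁻¹) ∈ N := by
      apply h.mem_of_centralizes hN hNp hmax
      intro n hn
      have h2 := congrArg Subtype.val (hkfix ⟨n, hn⟩)
      rw [MulAut.conjNormal_apply] at h2
      simp only at h2
      set k := t⁻¹ * (g * t * g⁻¹) with hk
      calc n * k = (k * n * k⁻¹) * k := by rw [h2]
        _ = k * n := by group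
    obtain ⟨j, hj⟩ : ∃ j, p + 1 = 2 * j := by
      rcases hp.eq_two_or_odd' with h2 | h2
      · exact absurd h2 hp2
      · obtain ⟨i, hi⟩ := h2
        exact ⟨i + 1, by omega⟩
    set kN : N := ⟨t⁻¹ * (g * t * g⁻¹), hkN⟩ with hkNdef
    have hkp : kN ^ p = 1 := Subtype.ext (hel.2 _ hkN)
    refine ⟨((kN ^ j)⁻¹ : N), ((kN ^ j)⁻¹ : N).2, ?_⟩
    have h3 : (((kN ^ j)⁻¹ : N) : G) * t * (((kN ^ j)⁻¹ : N) : G)⁻¹ = g * t * g⁻¹ := by
      have h4 := congrArg Subtype.val (hinv t⁻¹ (by rw [orderOf_inv]; exact ht) ((kN ^ j)⁻¹ : N))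
      rw [MulAut.conjNormal_apply, inv_inv, inv_inv] at h4
      have h5 : ((kN ^ j * kN ^ j : N) : G) = t⁻¹ * (g * t * g⁻¹) := by
        rw [← pow_add, ← two_mul, ← hj, pow_succ, hkp, one_mul]
      calc (((kN ^ j)⁻¹ : N) : G) * t * (((kN ^ j)⁻¹ : N) : G)⁻¹
          = t * (t⁻¹ * (((kN ^ j)⁻¹ : N) : G) * t) * (((kN ^ j)⁻¹ : N) : G)⁻¹ := by group
        _ = t * ((kN ^ j : N) : G) * (((kN ^ j)⁻¹ : N) : G)⁻¹ := by rw [h4]
        _ = t * ((kN ^ j * kN ^ j : N) : G) := by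
            simp only [Subgroup.coe_mul, Subgroup.coe_inv, inv_inv, mul_assoc]
        _ = g * t * g⁻¹ := by rw [h5]; group
    set v : G := (((kN ^ j)⁻¹ : N) : G) with hv
    show v⁻¹ * g * t = t * (v⁻¹ * g)
    calc v⁻¹ * g * t = v⁻¹ * (g * t * g⁻¹) * g := by group
      _ = v⁻¹ * (v * t * v⁻¹) * g := by rw [h3]
      _ = t * (v⁻¹ * g) := by group
  -- an element of order p in C(t)
  rw [Subgroup.index_eq_card] at hd
  obtain ⟨yb, hyb⟩ := exists_prime_orderOf_dvd_card' p hd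
  obtain ⟨y₁, rfl⟩ := QuotientGroup.mk_surjective yb
  obtain ⟨v₁, hv₁, hcv₁⟩ := hdec y₁
  set y := v₁⁻¹ * y₁ with hy
  have hmk : (y : G ⧸ N) = (y₁ : G ⧸ N) := by
    rw [hy, QuotientGroup.mk_mul, QuotientGroup.mk_inv, (QuotientGroup.eq_one_iff v₁).2 hv₁]
    simp
  rw [← hmk] at hyb
  have hyN : y ∉ N := by
    intro hyN
    rw [(QuotientGroup.eq_one_iff y).2 hyN, orderOf_one] at hyb
    exact hp.one_lt.ne hyb
  have hy1 : y ≠ 1 := fun hh => hyN (hh ▸ N.one_mem)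
  have hyp : y ^ p = 1 := by
    apply hCN
    · rw [← QuotientGroup.eq_one_iff, QuotientGroup.mk_pow, ← hyb]
      exact pow_orderOf_eq_one _
    · exact (hcv₁.pow_left p).symm
  have hyo : orderOf y = p := orderOf_eq_prime hyp hy1
  have hy0 : (χ : G → ℂ) y = 0 := by
    by_contra h0
    exact hyN ((hN y).2 h0)
  -- a nontrivial fixed point of y on N
  obtain ⟨z, hzN, hz1, hzy⟩ : ∃ z ∈ N, z ≠ 1 ∧ z * y = y * z := by
    have hzp : IsPGroup p (Subgroup.zpowers y) :=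
      IsPGroup.of_card (n := 1) (by rw [Nat.card_zpowers, hyo, pow_one])
    obtain ⟨P, hP⟩ := hzp.exists_le_sylow
    have hyP : y ∈ (P : Subgroup G) := hP (Subgroup.mem_zpowers y)
    haveI : Nontrivial ↥(P : Subgroup G) :=
      ⟨⟨⟨y, hyP⟩, 1, fun hh => hy1 (congrArg Subtype.val hh)⟩⟩
    haveI := P.2.center_nontrivial
    obtain ⟨z, hz⟩ := exists_ne (1 : Subgroup.center ↥(P : Subgroup G))
    refine ⟨((z : ↥(P : Subgroup G)) : G), h.center_le hN hNp P ⟨z.1, z.2, rfl⟩, ?_, ?_⟩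
    · intro hh
      exact hz (Subtype.ext (Subtype.ext hh))
    · have := Subgroup.mem_center_iff.1 z.2 ⟨y, hyP⟩
      exact (congrArg Subtype.val this).symm
  have hφmem : ∀ v : N, y⁻¹ * v * y * (v : G)⁻¹ ∈ N := by
    intro v
    have h2 : y⁻¹ * v * y ∈ N := by
      have := hNn.conj_mem v v.2 y⁻¹
      simpa using this
    exact N.mul_mem h2 (N.inv_mem v.2)
  have hnotinj : ¬ Function.Injective (fun v : N => (⟨y⁻¹ * v * y * (v : G)⁻¹, hφmem v⟩ : N)) := by
    intro hinj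
    have h2 : (⟨z, hzN⟩ : N) = 1 := by
      apply hinj
      apply Subtype.ext
      show y⁻¹ * z * y * z⁻¹ = y⁻¹ * ((1 : N) : G) * y * ((1 : N) : G)⁻¹
      rw [mul_assoc y⁻¹, hzy]
      simp
    exact hz1 (congrArg Subtype.val h2)
  have hnotsurj : ¬ Function.Surjective
      (fun v : N => (⟨y⁻¹ * v * y * (v : G)⁻¹, hφmem v⟩ : N)) :=
    fun hs => hnotinj (Finite.injective_iff_surjective.2 hs)
  simp only [Function.Surjective, not_forall, not_exists] at hnotsurj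
  obtain ⟨n₀, hn₀⟩ := hnotsurj
  obtain ⟨c0, hc0⟩ := isConj_iff.1 (h.camina hy0 ((hN n₀).1 n₀.2))
  obtain ⟨v, hv, hcv⟩ := hdec c0⁻¹
  set c := v⁻¹ * c0⁻¹ with hc
  have e1 : v * (c * y * c⁻¹) * v⁻¹ = y * n₀ := by
    have : y * n₀ = c0⁻¹ * (c0 * (y * n₀) * c0⁻¹) * c0 := by group
    rw [this, hc0, hc]; group
  have hcomm' : Commute t (y⁻¹ * (c * y * c⁻¹)) := by
    have h1 : Commute t y := hcv₁.symm
    have h2 : Commute t c := hcv.symm
    exact h1.inv_right.mul_right ((h2.mul_right h1).mul_right h2.inv_right)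
  have hdN : y⁻¹ * (c * y * c⁻¹) ∈ N := by
    have e2 : c * y * c⁻¹ = v⁻¹ * (y * n₀) * v := by rw [← e1]; group
    rw [e2]
    have h2 : y⁻¹ * v⁻¹ * y ∈ N := by
      have := hNn.conj_mem v⁻¹ (N.inv_mem hv) y⁻¹
      simpa using this
    have := N.mul_mem (N.mul_mem h2 n₀.2) hv
    have e3 : y⁻¹ * v⁻¹ * y * n₀ * v = y⁻¹ * (v⁻¹ * (y * n₀) * v) := by group
    rwa [e3] at this
  have hd1 := hCN _ hdN hcomm'
  have e4 : c * y * c⁻¹ = y := by
    have := congrArg (fun q => y * q) hd1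
    simpa using this
  rw [e4] at e1
  apply hn₀ ⟨v, hv⟩
  apply Subtype.ext
  show y⁻¹ * v * y * v⁻¹ = n₀
  calc y⁻¹ * v * y * v⁻¹ = y⁻¹ * (v * y * v⁻¹) := by group
    _ = n₀ := by rw [e1]; group

end Cfsg.Agent.Lib.Helper10.Gagola
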