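import Cfsg.Agent.Lib.Helper7.BlockFirst
import Cfsg.Agent.Lib.Helper24.BlockDefect

set_option autoImplicit false
set_option linter.style.haveILetI false
set_option linter.unusedSectionVars false
open Cfsg
open Cfsg.Agent.Lib.Helper7
open scoped ComplexConjugate

namespace Cfsg.Agent.Lib.Helper10

universe u
variable {M : Ideal AlgInt}

theorem memLocalIdeal_prod_sub [M.IsPrime] {ι : Type*} (s : Finset ι) (f g : ι → ℂ)
    (hf : ∀ i ∈ s, MemLocalRing M (f i)) (hg : ∀ i ∈ s, MemLocalRing M (g i))
    (h : ∀ i ∈ s, MemLocalIdeal M (f i - g i)) :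
    MemLocalIdeal M (∏ i ∈ s, f i - ∏ i ∈ s, g i) := by
  classical
  induction s using Finset.induction_on with
  | empty => simp only [Finset.prod_empty, sub_self]; exact memLocalIdeal_zero
  | insert a s ha ih =>
    rw [Finset.prod_insert ha, Finset.prod_insert ha]
    have e : f a * ∏ i ∈ s, f i - g a * ∏ i ∈ s, g i
        = f a * (∏ i ∈ s, f i - ∏ i ∈ s, g i) + (f a - g a) * ∏ i ∈ s, g i := by ring
    rw [e]
    apply memLocalIdeal_add
    · exact memLocalIdeal_mul_left (hf a (Finset.mem_insert_self a s))
        (ih (fun i hi => hf i (Finset.mem_insert_of_mem hi))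
          (fun i hi => hg i (Finset.mem_insert_of_mem hi))
          (fun i hi => h i (Finset.mem_insert_of_mem hi)))
    · exact memLocalIdeal_mul_right (h a (Finset.mem_insert_self a s))
        (memLocalRing_prod s _ (fun i hi => hg i (Finset.mem_insert_of_mem hi)))

theorem memLocalRing_det [M.IsPrime] {n : Type*} [Fintype n] [DecidableEq n] (A : Matrix n n ℂ)
    (hA : ∀ i j, MemLocalRing M (A i j)) : MemLocalRing M A.det := by
  rw [Matrix.det_apply]
  apply memLocalRing_sum
  intro σ _
  rw [Units.smul_def, zsmul_eq_mul]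
  exact memLocalRing_mul (memLocalRing_intCast _) (memLocalRing_prod _ _ (fun i _ => hA _ _))

theorem memLocalIdeal_det_sub [M.IsPrime] {n : Type*} [Fintype n] [DecidableEq n]
    (A A' : Matrix n n ℂ) (hA : ∀ i j, MemLocalRing M (A i j))
    (hA' : ∀ i j, MemLocalRing M (A' i j)) (h : ∀ i j, MemLocalIdeal M (A i j - A' i j)) :
    MemLocalIdeal M (A.det - A'.det) := by
  rw [Matrix.det_apply, Matrix.det_apply, ← Finset.sum_sub_distrib]
  apply memLocalIdeal_sum
  intro σ _
  rw [← smul_sub, Units.smul_def, zsmul_eq_mul]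
  exact memLocalIdeal_mul_left (memLocalRing_intCast _)
    (memLocalIdeal_prod_sub _ _ _ (fun i _ => hA _ _) (fun i _ => hA' _ _) (fun i _ => h _ _))

/-- a matrix over the local ring with two rows congruent modulo the local ideal has determinant in
the local ideal -/
theorem memLocalIdeal_det_of_row_congr [M.IsPrime] {n : Type*} [Fintype n] [DecidableEq n]
    (A : Matrix n n ℂ) (hA : ∀ i j, MemLocalRing M (A i j)) {i i' : n} (hii : i ≠ i')
    (h : ∀ j, MemLocalIdeal M (A i' j - A i j)) : MemLocalIdeal M A.det := by
  have h0 : (A.updateRow i' (A i)).det = 0 := by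
    apply Matrix.det_zero_of_row_eq hii
    rw [Matrix.updateRow_self, Matrix.updateRow_ne hii]
  have h1 := memLocalIdeal_det_sub A (A.updateRow i' (A i)) hA (by
    intro k j
    by_cases hk : k = i'
    · subst hk; rw [Matrix.updateRow_self]; exact hA _ _
    · rw [Matrix.updateRow_ne hk]; exact hA _ _) (by
    intro k j
    by_cases hk : k = i'
    · subst hk; rw [Matrix.updateRow_self]; exact h j
    · rw [Matrix.updateRow_ne hk, sub_self]; exact memLocalIdeal_zero)
  rwa [h0, sub_zero] at h1

/-- a matrix over the local ring with a row in the local ideal has determinant in the ideal -/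
theorem memLocalIdeal_det_of_row [M.IsPrime] {n : Type*} [Fintype n] [DecidableEq n]
    (A : Matrix n n ℂ) (hA : ∀ i j, MemLocalRing M (A i j)) (i : n)
    (h : ∀ j, MemLocalIdeal M (A i j)) : MemLocalIdeal M A.det := by
  have h0 : (A.updateRow i 0).det = 0 := by
    apply Matrix.det_eq_zero_of_row_eq_zero i
    intro j
    rw [Matrix.updateRow_self]; rfl
  have h1 := memLocalIdeal_det_sub A (A.updateRow i 0) hA (by
    intro k j
    by_cases hk : k = i
    · subst hk; rw [Matrix.updateRow_self]; exact memLocalRing_zero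
    · rw [Matrix.updateRow_ne hk]; exact hA _ _) (by
    intro k j
    by_cases hk : k = i
    · subst hk; rw [Matrix.updateRow_self]; simpa using h j
    · rw [Matrix.updateRow_ne hk, sub_self]; exact memLocalIdeal_zero)
  rwa [h0, sub_zero] at h1

variable {G : Type u} [Group G] {p : ℕ}

/-- If the central character of a block of defect `d` does not vanish on the class of `x` and the
Sylow `p`-subgroups of `C(x)` have order `p ^ d`, they are defect groups of the block. -/
theorem isDefectGroup_of_centralChar [Finite G] (hM : IsPModular p M) {B : Set (IrrCharacter G)}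
    (hB : IsPBlock M B) {x : G} (S : Sylow p (Subgroup.centralizer ({x} : Set G)))
    (hω : ∃ χ ∈ B, ¬ MemLocalIdeal M (centralChar (χ : G → ℂ) x))
    (hle : (Nat.card (Subgroup.centralizer ({x} : Set G))).factorization p ≤ blockDefect p B) :
    IsDefectGroup p M B ((S : Subgroup (Subgroup.centralizer ({x} : Set G))).map
      (Subgroup.centralizer ({x} : Set G)).subtype) := by
  haveI := hM.2.1.isPrime
  haveI : Fact p.Prime := ⟨hM.1⟩
  obtain ⟨D', hD'⟩ := exists_defectGroup hM hB
  have hcard' := card_defectGroup hM hB hD'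
  obtain ⟨g', hg', P', hP'⟩ := id hD'
  have hD'p : IsPGroup p D' := IsPGroup.of_card hcard'
  obtain ⟨t, ht⟩ := minmax_le hM hB (h := x) (k := g') hω hg'.2.1 D' hD'p
    (by rw [hP']; exact map_subtype_le _ _)
  obtain ⟨c, _, hc⟩ := exists_conj_sylow_map_ge _ S _ (isPGroup_map_conj hD'p t) ht
  set D := (S : Subgroup (Subgroup.centralizer ({x} : Set G))).map
      (Subgroup.centralizer ({x} : Set G)).subtype with hD
  have hDcard : Nat.card D = p ^ (Nat.card (Subgroup.centralizer ({x} : Set G))).factorization p := by
    rw [hD, Subgroup.card_map_of_injective (Subgroup.subtype_injective _), S.card_eq_multiplicity]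
  have hc1 : Nat.card (D.map (MulAut.conj c).toMonoidHom) = Nat.card D :=
    Subgroup.card_map_of_injective (MulAut.conj c).injective
  have hc2 : Nat.card ((D'.map (MulAut.conj t).toMonoidHom)) = Nat.card D' :=
    Subgroup.card_map_of_injective (MulAut.conj t).injective
  have heq : D'.map (MulAut.conj t).toMonoidHom = D.map (MulAut.conj c).toMonoidHom := by
    apply Subgroup.eq_of_le_of_card_ge hc
    rw [hc1, hc2, hDcard, hcard']
    exact Nat.pow_le_pow_right hM.1.pos hle
  have h1 := Cfsg.Agent.Lib.Helper24.isDefectGroup_conj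
    (Cfsg.Agent.Lib.Helper24.isDefectGroup_conj hD' t) c⁻¹
  rw [heq, Subgroup.map_map] at h1
  have h2 : (MulAut.conj c⁻¹).toMonoidHom.comp (MulAut.conj c).toMonoidHom = MonoidHom.id G := by
    ext g
    simp [mul_assoc]
  rwa [h2, Subgroup.map_id] at h1

end Cfsg.Agent.Lib.Helper10
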