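import Mathlib

/-!
Product of the (pairwise commuting) conjugates of an element under a subgroup `N`:
an `N`-fixed element.  Used for Z*-type corollaries.
-/

set_option autoImplicit false

namespace Cfsg.Agent.Lib.Helper10

theorem multiset_noncommProd_congr' {G : Type*} [Monoid G] {m₁ m₂ : Multiset G} (h : m₁ = m₂)
    (c₁ : {x | x ∈ m₁}.Pairwise Commute) (c₂ : {x | x ∈ m₂}.Pairwise Commute) :
    m₁.noncommProd c₁ = m₂.noncommProd c₂ := by
  subst h; rfl

theorem conj_noncommProd_eq {G : Type*} [Group G] [DecidableEq G] (T : Finset G)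
    (comm : (T : Set G).Pairwise (Function.onFun Commute id)) (n : G)
    (hT : T.image (fun w => n * w * n⁻¹) = T) :
    n * T.noncommProd id comm * n⁻¹ = T.noncommProd id comm := by
  have h1 : n * T.noncommProd id comm * n⁻¹ = MulAut.conj n (T.noncommProd id comm) := rfl
  rw [h1, Finset.map_noncommProd]
  unfold Finset.noncommProd
  apply multiset_noncommProd_congr'
  have h2 : (T.image (fun w => n * w * n⁻¹)).1 = T.1.map (fun w => n * w * n⁻¹) := by
    apply Finset.image_val_of_injOn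
    intro a _ b _ hab
    simpa using hab
  rw [hT] at h2
  simp only [id, Multiset.map_id']
  exact h2.symm

theorem orderOf_conj_eq {G : Type*} [Group G] (g x : G) :
    orderOf (g * x * g⁻¹) = orderOf x := by
  have := MulEquiv.orderOf_eq (MulAut.conj g) x
  simpa using this

theorem exists_pow_orderOf_two {G : Type*} [Group G] (c : G) (m : ℕ) (hc : c ^ (2 ^ m) = 1)
    (hc1 : c ≠ 1) : ∃ k : ℕ, orderOf (c ^ k) = 2 := by
  have h1 : orderOf c ∣ 2 ^ m := orderOf_dvd_of_pow_eq_one hc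
  obtain ⟨j, _, hj⟩ := (Nat.dvd_prime_pow Nat.prime_two).1 h1
  have hj0 : j ≠ 0 := by
    rintro rfl
    rw [pow_zero, orderOf_eq_one_iff] at hj
    exact hc1 hj
  obtain ⟨i, rfl⟩ := Nat.exists_eq_succ_of_ne_zero hj0
  refine ⟨2 ^ i, ?_⟩
  rw [orderOf_pow_of_dvd (by positivity) (by rw [hj]; exact pow_dvd_pow 2 (Nat.le_succ i)), hj,
    Nat.succ_eq_add_one, pow_succ]
  exact Nat.mul_div_cancel_left 2 (by positivity)

/-- the number of `N`-conjugates of `a` divides `|N : S|` when `S ≤ N` centralizes `a`. -/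
theorem ncard_conj_dvd_relIndex {G : Type*} [Group G] [Finite G] (N S : Subgroup G) (a : G)
    (hSN : S ≤ N) (hS : ∀ s ∈ S, s * a = a * s) :
    {w | ∃ n ∈ N, w = n * a * n⁻¹}.ncard ∣ S.relIndex N := by
  letI : MulAction N G := MulAction.compHom G ((MulAut.conj : G →* MulAut G).comp N.subtype)
  have hsmul : ∀ (n : N) (x : G), n • x = (n : G) * x * (n : G)⁻¹ := fun _ _ => rfl
  have h1 : {w | ∃ n ∈ N, w = n * a * n⁻¹} = MulAction.orbit N a := by
    ext w
    constructor
    · rintro ⟨n, hn, rfl⟩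
      exact ⟨⟨n, hn⟩, rfl⟩
    · rintro ⟨n, rfl⟩
      exact ⟨n, n.2, rfl⟩
  rw [h1, ← MulAction.index_stabilizer]
  have h2 : S.subgroupOf N ≤ MulAction.stabilizer N a := by
    intro s hs
    rw [MulAction.mem_stabilizer_iff, hsmul, hS _ (Subgroup.mem_subgroupOf.1 hs)]
    group
  exact Subgroup.index_dvd_of_le h2

/-- the product of the (pairwise commuting) `N`-conjugates of `a` -/
theorem exists_orbit_prod {G : Type*} [Group G] [Finite G] (N : Subgroup G) (a : G)
    (hcomm : ∀ n ∈ N, Commute a (n * a * n⁻¹)) :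
    ∃ (O : Finset G) (comm : (O : Set G).Pairwise (Function.onFun Commute id)),
      (∀ w, w ∈ O ↔ ∃ n ∈ N, w = n * a * n⁻¹) ∧
      ∀ n ∈ N, n * O.noncommProd id comm * n⁻¹ = O.noncommProd id comm := by
  classical
  have hfin : {w | ∃ n ∈ N, w = n * a * n⁻¹}.Finite := Set.toFinite _
  set O : Finset G := hfin.toFinset with hO
  have hmem : ∀ w, w ∈ O ↔ ∃ n ∈ N, w = n * a * n⁻¹ := by
    intro w; simp [hO]
  have comm : (O : Set G).Pairwise (Function.onFun Commute id) := by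
    intro x hx y hy _
    obtain ⟨n, hn, rfl⟩ := (hmem x).1 hx
    obtain ⟨m, hm, rfl⟩ := (hmem y).1 hy
    have h := hcomm (n⁻¹ * m) (N.mul_mem (N.inv_mem hn) hm)
    have h2 : Commute (n * a * n⁻¹) (n * ((n⁻¹ * m) * a * (n⁻¹ * m)⁻¹) * n⁻¹) := by
      have := h.map (MulAut.conj n).toMonoidHom
      simpa using this
    have h3 : n * ((n⁻¹ * m) * a * (n⁻¹ * m)⁻¹) * n⁻¹ = m * a * m⁻¹ := by group
    rw [h3] at h2
    exact h2
  refine ⟨O, comm, hmem, ?_⟩
  intro n hn
  apply conj_noncommProd_eq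
  ext w
  simp only [Finset.mem_image, hmem]
  constructor
  · rintro ⟨x, ⟨m, hm, rfl⟩, rfl⟩
    exact ⟨n * m, N.mul_mem hn hm, by group⟩
  · rintro ⟨m, hm, rfl⟩
    exact ⟨n⁻¹ * m * a * (n⁻¹ * m)⁻¹, ⟨n⁻¹ * m, N.mul_mem (N.inv_mem hn) hm, rfl⟩, by group⟩

end Cfsg.Agent.Lib.Helper10
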