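import Mathlib
import Cfsg.Agent.Lib.Helper10.SigmaB0
import Cfsg.Agent.Lib.Helper25.DetExt

/-! Counting Galois-fixed `p'`-degree characters of the principal block when `G/O^p(G)` is cyclic. -/

set_option autoImplicit false
set_option linter.style.haveILetI false

namespace Cfsg.Agent.Lib.Helper10.SigmaB0

open Cfsg Cfsg.Agent.Lib.Helper7 Cfsg.Agent.Lib.Helper24 Cfsg.Agent.Lib.Helper25
  Cfsg.Agent.Lib.Helper1
open scoped ComplexConjugate

universe u
variable {G : Type u} [Group G]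

theorem coprime_of_sigma_p [Finite G] {p k : ℕ} (hp : p.Prime)
    (hk₁ : ∀ g : G, (∃ j : ℕ, orderOf g = p ^ j) → g ^ k = g ^ (1 + p))
    (hk₂ : ∀ g : G, Nat.Coprime (orderOf g) p → g ^ k = g) : Nat.Coprime k (Nat.card G) := by
  apply Nat.coprime_of_dvd
  intro q hq hqk hqG
  haveI := Fact.mk hq
  obtain ⟨g, hg⟩ := exists_prime_orderOf_dvd_card' q hqG
  have h1 : g ^ k = 1 := by
    obtain ⟨c, rfl⟩ := hqk
    rw [pow_mul, ← hg, pow_orderOf_eq_one, one_pow]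
  have hg1 : g ≠ 1 := by
    intro h
    rw [h, orderOf_one] at hg
    exact hq.one_lt.ne hg
  by_cases hqp : q = p
  · subst hqp
    have h2 := hk₁ g ⟨1, by rw [hg, pow_one]⟩
    rw [h1, pow_add, pow_one, ← hg, pow_orderOf_eq_one, mul_one] at h2
    exact hg1 h2.symm
  · have h2 := hk₂ g (by rw [hg]; exact (Nat.coprime_primes hq hp).2 hqp)
    rw [h1] at h2
    exact hg1 h2.symm

theorem linear_mul_injective [Finite G] (N : Subgroup G) [hN : N.Normal] {χ : G → ℂ}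
    (hχ : IsIrrCharacter G χ) {d : ℕ} (hd : χ 1 = d) (hcop : Nat.Coprime N.index d)
    (b b' : G →* ℂˣ) (hb : ∀ n : N, b n = 1) (hb' : ∀ n : N, b' n = 1)
    (h : (fun g => (b g : ℂ) * χ g) = fun g => (b' g : ℂ) * χ g) : b = b' := by
  have hχc := Helper7.isCharacter_of_irr hχ
  have h1 := detChar_linear_mul b hχc hd
  have h2 := detChar_linear_mul b' hχc hd
  rw [h] at h1
  obtain ⟨δ, hδ⟩ := exists_hom_detChar hχc
  have h3 : ∀ g, b g ^ d = b' g ^ d := by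
    intro g
    have h4 := (congrFun h1 g).symm.trans (congrFun h2 g)
    simp only [hδ] at h4
    apply Units.ext
    have h5 : ((δ g : ℂˣ) : ℂ) ≠ 0 := Units.ne_zero _
    simpa using mul_right_cancel₀ h5 h4
  ext g : 1
  have e1 : b g ^ N.index = 1 := by
    rw [← map_pow]; exact hb ⟨g ^ N.index, pow_index_mem_of_normal N g⟩
  have e2 : b' g ^ N.index = 1 := by
    rw [← map_pow]; exact hb' ⟨g ^ N.index, pow_index_mem_of_normal N g⟩
  have h6 : (b g * (b' g)⁻¹) ^ N.index = 1 := by rw [mul_pow, inv_pow, e1, e2]; simp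
  have h7 : (b g * (b' g)⁻¹) ^ d = 1 := by rw [mul_pow, inv_pow, h3 g]; simp
  have h8 := pow_gcd_eq_one.2 ⟨h6, h7⟩
  rw [Nat.Coprime.gcd_eq_one hcop, pow_one] at h8
  exact mul_inv_eq_one.1 h8

theorem card_pow_eq_one_of_cyclic {D : Type*} [CommGroup D] [Finite D] [IsCyclic D] {p : ℕ}
    (hp : p ∣ Nat.card D) : Nat.card {x : D // x ^ p = 1} = p := by
  conv_rhs => rw [← Nat.gcd_eq_right hp, ← IsCyclic.card_powMonoidHom_ker]
  apply Nat.card_congr
  exact Equiv.subtypeEquivRight (fun x => by rw [MonoidHom.mem_ker, powMonoidHom_apply])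

theorem card_dual_pow_eq_one {Q : Type u} [Group Q] [Finite Q] [hQ : IsCyclic Q] {p : ℕ}
    (hp : p ∣ Nat.card Q) : Nat.card {β : Q →* ℂˣ // ∀ q, β q ^ p = 1} = p := by
  letI : CommGroup Q := IsCyclic.commGroup
  obtain ⟨e⟩ := CommGroup.monoidHom_mulEquiv_of_hasEnoughRootsOfUnity Q ℂ
  haveI : Finite (Q →* ℂˣ) := Finite.of_equiv _ e.symm.toEquiv
  haveI : IsCyclic (Q →* ℂˣ) := isCyclic_of_surjective e.symm e.symm.surjective
  have hcardD : Nat.card (Q →* ℂˣ) = Nat.card Q := Nat.card_congr e.toEquiv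
  have hK := card_pow_eq_one_of_cyclic (D := Q →* ℂˣ) (p := p) (hcardD ▸ hp)
  refine Eq.trans ?_ hK
  apply Nat.card_congr
  refine Equiv.subtypeEquivRight (fun β => ?_)
  constructor
  · intro h
    ext1 q
    rw [MonoidHom.pow_apply, h q, MonoidHom.one_apply]
  · intro h q
    rw [← MonoidHom.pow_apply, h, MonoidHom.one_apply]

/-- twisting by a linear character of the quotient -/
noncomputable def tw (N : Subgroup G) [N.Normal] (β : (G ⧸ N) →* ℂˣ) (χ : IrrCharacter G) :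
    IrrCharacter G :=
  ⟨fun g => ((β.comp (QuotientGroup.mk' N)) g : ℂ) * (χ : G → ℂ) g,
    isIrrCharacter_linear_mul _ χ.2⟩

theorem tw_apply (N : Subgroup G) [N.Normal] (β : (G ⧸ N) →* ℂˣ) (χ : IrrCharacter G) (g : G) :
    (tw N β χ : G → ℂ) g = ((β.comp (QuotientGroup.mk' N)) g : ℂ) * (χ : G → ℂ) g := rfl

theorem comp_mk_of_mem (N : Subgroup G) [N.Normal] (β : (G ⧸ N) →* ℂˣ) (n : N) :
    (β.comp (QuotientGroup.mk' N)) n = 1 := by
  rw [MonoidHom.comp_apply]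
  have : QuotientGroup.mk' N (n : G) = 1 := (QuotientGroup.eq_one_iff (n : G)).2 n.2
  rw [this, map_one]

theorem tw_coe (N : Subgroup G) [N.Normal] (β : (G ⧸ N) →* ℂˣ) (χ : IrrCharacter G) (n : N) :
    (tw N β χ : G → ℂ) n = (χ : G → ℂ) n := by
  rw [tw_apply, comp_mk_of_mem]
  simp

theorem card_sigma_cyclic [Finite G] (p : ℕ) [hp : Fact p.Prime] {M : Ideal AlgInt}
    (hM : IsPModular p M) (P : Sylow p G) (N : Subgroup G) [hN : N.Normal]
    (hreg : ∀ g : G, ¬ p ∣ orderOf g → g ∈ N) {j : ℕ} (hidx : N.index = p ^ j)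
    (hsup : N ⊔ (P : Subgroup G) = ⊤)
    (hdet : ∀ θ : IrrCharacter N, (detOrder (θ : N → ℂ)).Coprime p)
    (hcyc : IsCyclic (G ⧸ N)) (hnt : N ≠ ⊤) (k : ℕ)
    (hk₁ : ∀ g : G, (∃ j : ℕ, orderOf g = p ^ j) → g ^ k = g ^ (1 + p))
    (hk₂ : ∀ g : G, Nat.Coprime (orderOf g) p → g ^ k = g) :
    Nat.card {χ : IrrCharacter G // χ ∈ principalBlock M G ∧ ¬ p ∣ charDegree (χ : G → ℂ) ∧
      ∀ g : G, (χ : G → ℂ) (g ^ k) = (χ : G → ℂ) g}
    = p * Nat.card {θ : IrrCharacter N // θ ∈ principalBlock M N ∧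
      ¬ p ∣ charDegree (θ : N → ℂ) ∧
      (∀ x ∈ (P : Subgroup G), ∀ n : N,
        (θ : N → ℂ) ⟨x * n * x⁻¹, hN.conj_mem n n.2 x⟩ = (θ : N → ℂ) n) ∧
      ∀ n : N, (θ : N → ℂ) (n ^ k) = (θ : N → ℂ) n} := by
  classical
  have hcop := coprime_of_sigma_p hp.out hk₁ hk₂
  have hj : j ≠ 0 := by
    rintro rfl
    rw [pow_zero, Subgroup.index_eq_one] at hidx
    exact hnt hidx
  have hK : Nat.card {β : (G ⧸ N) →* ℂˣ // ∀ q, β q ^ p = 1} = p := by
    apply card_dual_pow_eq_one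
    rw [← Subgroup.index_eq_card, hidx]
    exact dvd_pow_self p hj
  -- linear characters of the quotient under the Galois automorphism
  have hlin : ∀ (b : G →* ℂˣ), (∀ n : N, b n = 1) → ∀ g, b g ^ k = b g ^ (1 + p) := by
    intro b hb g
    have hg : g ∈ N ⊔ (P : Subgroup G) := by rw [hsup]; trivial
    rw [Subgroup.mem_sup_of_normal_left] at hg
    obtain ⟨n, hn, x, hx, rfl⟩ := hg
    have h1 : b (n * x) = b x := by
      rw [map_mul, hb ⟨n, hn⟩, one_mul]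
    obtain ⟨i, hi⟩ := (IsPGroup.iff_orderOf.1 P.2) ⟨x, hx⟩
    rw [Subgroup.orderOf_mk] at hi
    rw [h1, ← map_pow, hk₁ x ⟨i, hi⟩, map_pow]
  have hinvG : ∀ θ : IrrCharacter N, (∀ x ∈ (P : Subgroup G), ∀ n : N,
        (θ : N → ℂ) ⟨x * n * x⁻¹, hN.conj_mem n n.2 x⟩ = (θ : N → ℂ) n) →
      ∀ (g : G) (n : N), (θ : N → ℂ) ⟨g * n * g⁻¹, hN.conj_mem (n : G) n.2 g⟩ = (θ : N → ℂ) n := by
    intro θ h
    apply invariant_of_sup_eq_top N (P : Subgroup G) hsup (isClassFunction_irr θ)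
    intro s hs g g' hgg
    rw [← h s hs g]
    have h7 : g' = ⟨s * (g : G) * s⁻¹, hN.conj_mem g g.2 s⟩ := Subtype.ext hgg
    rw [h7]
  have hext : ∀ θ : {θ : IrrCharacter N // θ ∈ principalBlock M N ∧
      ¬ p ∣ charDegree (θ : N → ℂ) ∧
      (∀ x ∈ (P : Subgroup G), ∀ n : N,
        (θ : N → ℂ) ⟨x * n * x⁻¹, hN.conj_mem n n.2 x⟩ = (θ : N → ℂ) n) ∧
      ∀ n : N, (θ : N → ℂ) (n ^ k) = (θ : N → ℂ) n},
      ∃ χ : IrrCharacter G, (∀ n : N, (χ : G → ℂ) n = (θ.1 : N → ℂ) n) ∧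
      (∀ g : G, (χ : G → ℂ) (g ^ k) = (χ : G → ℂ) g) ∧ (detOrder (χ : G → ℂ)).Coprime p :=
    fun θ => exists_fixed_extension hp.out N hidx θ.1 (hinvG θ.1 θ.2.2.2.1) θ.2.2.1 (hdet θ.1) hcop
      θ.2.2.2.2
  choose X hX1 hX2 hX3 using hext
  have hdegX : ∀ (χ : IrrCharacter G) (θ : IrrCharacter N),
      (∀ n : N, (χ : G → ℂ) n = (θ : N → ℂ) n) →
      charDegree (χ : G → ℂ) = charDegree (θ : N → ℂ) := by
    intro χ θ h
    unfold charDegree
    have := h 1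
    rw [OneMemClass.coe_one] at this
    rw [this]
  refine Eq.trans ?_ (congrArg (· * _) hK)
  rw [← Nat.card_prod]
  symm
  apply Nat.card_congr
  refine Equiv.ofBijective (fun z => ⟨tw N z.1.1 (X z.2), ?_, ?_, ?_⟩) ⟨?_, ?_⟩
  · exact (rt_mem_iff_of_regular_le hM N hreg _ z.2.1
      (fun n => by rw [tw_coe, hX1])).2 z.2.2.1
  · rw [hdegX _ z.2.1 (fun n => by rw [tw_coe, hX1])]
    exact z.2.2.2.1
  · intro g
    rw [tw_apply, tw_apply, hX2, map_pow, hlin _ (comp_mk_of_mem N z.1.1), pow_add, pow_one]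
    have : (z.1.1.comp (QuotientGroup.mk' N)) g ^ p = 1 := z.1.2 _
    rw [this, mul_one]
  · rintro ⟨β, θ⟩ ⟨β', θ'⟩ h
    have h1 : tw N β.1 (X θ) = tw N β'.1 (X θ') := congrArg Subtype.val h
    have h2 : θ = θ' := by
      apply Subtype.ext
      apply Subtype.ext
      funext n
      calc (θ.1 : N → ℂ) n = (tw N β.1 (X θ) : G → ℂ) n := by rw [tw_coe, hX1]
        _ = (tw N β'.1 (X θ') : G → ℂ) n := by rw [h1]
        _ = (θ'.1 : N → ℂ) n := by rw [tw_coe, hX1]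
    subst h2
    obtain ⟨d, hd0, hd⟩ := irr_apply_one (X θ).2
    have hdp : ¬ p ∣ d := by
      have := θ.2.2.1
      rwa [← hdegX _ θ.1 (hX1 θ), charDegree_eq hd] at this
    have h3 := linear_mul_injective N (X θ).2 hd (by
      rw [hidx]
      exact Nat.Coprime.pow_left _ ((Nat.Prime.coprime_iff_not_dvd hp.out).2 hdp))
      _ _ (comp_mk_of_mem N β.1) (comp_mk_of_mem N β'.1) (congrArg Subtype.val h1)
    have h4 : β.1 = β'.1 :=
      (MonoidHom.cancel_right (QuotientGroup.mk'_surjective N)).1 h3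
    rw [Subtype.ext h4]
  · rintro ⟨χ, hχB, hχd, hχσ⟩
    have hirr := restrict_irr_of_not_dvd hp.out N hidx χ.2 hχd
    let θ₀ : IrrCharacter N := ⟨fun n : N => (χ : G → ℂ) n, hirr⟩
    have hθ₀ : θ₀ ∈ principalBlock M N ∧
      ¬ p ∣ charDegree (θ₀ : N → ℂ) ∧
      (∀ x ∈ (P : Subgroup G), ∀ n : N,
        (θ₀ : N → ℂ) ⟨x * n * x⁻¹, hN.conj_mem n n.2 x⟩ = (θ₀ : N → ℂ) n) ∧
      ∀ n : N, (θ₀ : N → ℂ) (n ^ k) = (θ₀ : N → ℂ) n := by
      refine ⟨(rt_mem_iff_of_regular_le hM N hreg χ θ₀ (fun n => rfl)).1 hχB, ?_, ?_, ?_⟩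
      · rw [← hdegX χ θ₀ (fun n => rfl)]; exact hχd
      · intro x _ n
        exact isClassFunction_irr χ n x
      · intro n
        show (χ : G → ℂ) ((n ^ k : N) : G) = (χ : G → ℂ) n
        rw [Subgroup.coe_pow, hχσ]
    obtain ⟨b, hbN, hb⟩ := exists_linear_of_extensions N θ₀.2 (X ⟨θ₀, hθ₀⟩).2 χ.2
      (hX1 ⟨θ₀, hθ₀⟩) (fun n => rfl)
    obtain ⟨d, hd0, hd⟩ := irr_apply_one (X ⟨θ₀, hθ₀⟩).2
    have hdp : ¬ p ∣ d := by
      have := hθ₀.2.1
      rwa [← hdegX _ θ₀ (hX1 ⟨θ₀, hθ₀⟩), charDegree_eq hd] at this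
    have hbk : (powMonoidHom k).comp b = b := by
      apply linear_mul_injective N (X ⟨θ₀, hθ₀⟩).2 hd (by
        rw [hidx]
        exact Nat.Coprime.pow_left _ ((Nat.Prime.coprime_iff_not_dvd hp.out).2 hdp))
      · intro n
        rw [MonoidHom.comp_apply, hbN, map_one]
      · exact hbN
      · funext g
        have h5 := hχσ g
        rw [hb] at h5
        simp only at h5
        rw [hX2, map_pow] at h5
        rw [MonoidHom.comp_apply, powMonoidHom_apply]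
        exact h5
    have hbp : ∀ g, b g ^ p = 1 := by
      intro g
      have h6 : b g ^ k = b g := DFunLike.congr_fun hbk g
      rw [hlin b hbN, pow_add, pow_one] at h6
      exact mul_eq_left.1 h6
    let β₀ : (G ⧸ N) →* ℂˣ := QuotientGroup.lift N b (fun n hn => hbN ⟨n, hn⟩)
    have hβ₀ : ∀ q, β₀ q ^ p = 1 := by
      intro q
      obtain ⟨g, rfl⟩ := QuotientGroup.mk_surjective q
      exact hbp g
    refine ⟨(⟨β₀, hβ₀⟩, ⟨θ₀, hθ₀⟩), ?_⟩
    apply Subtype.ext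
    apply Subtype.ext
    rw [hb]
    rfl

end Cfsg.Agent.Lib.Helper10.SigmaB0
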